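import Cfsg.Agent.H3.SylowIn
import Cfsg.Agent.S3056
import Cfsg.Agent.S3058
import Cfsg.Agent.S3076
import Cfsg.Agent.H13.Core
import Cfsg.Agent.H1.Cores

/-! The strong form of the Alperin--Goldschmidt fusion theorem. -/

set_option autoImplicit false

namespace Cfsg.Agent.H3.AlpG

open Cfsg Subgroup _root_.H3
open scoped Pointwise

variable {G : Type*} [Group G] [Finite G] {p : ℕ} [Fact p.Prime]

theorem alp_ind (P : Sylow p G) (Good : Set G → G → Prop)
    (hmono : ∀ A B g, A ⊆ B → Good B g → Good A g)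
    (hcomp : ∀ A B g h, Good A g → Good B h → (∀ a ∈ A, g⁻¹ * a * g ∈ B) → Good A (g * h))
    (hbase : ∀ E : Subgroup G, E ≤ P →
      ¬ p ∣ ((P : Subgroup G) ⊓ normalizer (E : Set G)).relIndex (normalizer (E : Set G)) →
      (∀ D' : Subgroup G, Nat.card E < Nat.card D' → D' ≤ P → ∀ g : G,
        (∀ a ∈ D', g⁻¹ * a * g ∈ (P : Subgroup G)) → Good D' g) →
      ∀ n ∈ normalizer (E : Set G), Good E n)
    (A : Set G) (g : G) (hA : A ⊆ P) (hAg : ∀ a ∈ A, g⁻¹ * a * g ∈ P) : Good A g := by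
  suffices H : ∀ (k : ℕ) (D : Subgroup G), Nat.card G - Nat.card D = k → D ≤ P → ∀ g : G,
      (∀ a ∈ D, g⁻¹ * a * g ∈ (P : Subgroup G)) → Good D g by
    refine hmono A ((P : Subgroup G) ⊓ (g • P : Sylow p G) : Subgroup G) g
      (fun a ha => ⟨hA ha, mem_smul_sylow.mpr (hAg a ha)⟩) (H _ _ rfl inf_le_left g ?_)
    exact fun a ha => mem_smul_sylow.mp ha.2
  intro k
  induction k using Nat.strong_induction_on with
  | _ k ih =>
  intro D hk hD g hg
  have ih' : ∀ D' : Subgroup G, Nat.card D < Nat.card D' → D' ≤ P → ∀ g : G,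
      (∀ a ∈ D', g⁻¹ * a * g ∈ (P : Subgroup G)) → Good D' g := by
    intro D' hlt
    refine ih _ ?_ D' rfl
    have := card_le_card_group D'
    omega
  have hfull : ∀ E : Subgroup G, Nat.card E = Nat.card D → E ≤ P →
      ¬ p ∣ ((P : Subgroup G) ⊓ normalizer (E : Set G)).relIndex (normalizer (E : Set G)) →
      ∀ n ∈ normalizer (E : Set G), Good E n :=
    fun E hE hEP hi => hbase E hEP hi (hE ▸ ih')
  rcases hD.eq_or_lt with h | hlt
  · have hn : g ∈ normalizer (D : Set G) := mem_normalizer_of_conj_mem' (by rwa [← h] at hg)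
    refine hfull D rfl hD ?_ g hn
    rw [h, inf_relIndex_right]
    exact sylow_not_dvd_relIndex P le_normalizer
  · obtain ⟨h, hh1, hh2⟩ := exists_conj_fullyNormalized P (D := D) P.2.to_inf_left
      (inf_le_right : (P : Subgroup G) ⊓ normalizer (D : Set G) ≤ _)
    set E := D.map (MulAut.conj h⁻¹).toMonoidHom with hE
    have hEm : ∀ x, x ∈ E ↔ h * x * h⁻¹ ∈ D := fun x => by rw [hE, mem_map_conj, inv_inv]
    have hlt1 := lt_inf_normalizer_of_isPGroup P.2 hlt
    have hEP : E ≤ P := fun x hx => by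
      have := hh1 _ (hlt1.le ((hEm x).mp hx))
      simpa [mul_assoc] using this
    have hEc : Nat.card E = Nat.card D := card_map_conj _ _
    set D' := D.map (MulAut.conj g⁻¹).toMonoidHom with hD'
    have hD'm : ∀ x, x ∈ D' ↔ g * x * g⁻¹ ∈ D := fun x => by rw [hD', mem_map_conj, inv_inv]
    have hD'P : D' ≤ P := fun x hx => by
      have := hg _ ((hD'm x).mp hx)
      simpa [mul_assoc] using this
    have hD'c : Nat.card D' = Nat.card D := card_map_conj _ _
    have hlt' : D' < P := lt_of_le_of_ne hD'P fun h => by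
      have := card_lt_of_lt hlt
      rw [← hD'c, h] at this
      exact lt_irrefl _ this
    have hlt2 := lt_inf_normalizer_of_isPGroup P.2 hlt'
    set T := ((P : Subgroup G) ⊓ normalizer (D' : Set G)).map (MulAut.conj (h⁻¹ * g)).toMonoidHom
      with hT
    have hED' : E = D'.map (MulAut.conj (h⁻¹ * g)).toMonoidHom := by
      rw [hE, hD', map_conj_map_conj]; congr 3; group
    have hTN : T ≤ normalizer (E : Set G) := by
      rw [hED', normalizer_map_conj]; exact map_mono inf_le_right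
    obtain ⟨n, hn1, hn2⟩ := exists_conj_le_of_sylowIn P.2.to_inf_left hh2
      (P.2.to_inf_left.map _) hTN
    set U := T.map (MulAut.conj n⁻¹).toMonoidHom with hU
    have hUP : U ≤ P := fun x hx => by
      have := (hn2 _ (mem_map_conj.mp hx)).1
      simpa [mul_assoc] using this
    have hUc : Nat.card D < Nat.card U := by
      rw [hU, card_map_conj, hT, card_map_conj, ← hD'c]; exact card_lt_of_lt hlt2
    have G1 : Good D h := hmono _ _ h hlt1.le (ih' _ (card_lt_of_lt hlt1) inf_le_left h hh1)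
    have G2 : Good E n := hfull E hEc hEP hh2 n hn1
    have G3 : Good U (n⁻¹ * h⁻¹ * g) := ih' U hUc hUP _ fun a ha => by
      have := (mem_map_conj.mp (mem_map_conj.mp ha)).1
      simpa [mul_assoc] using this
    have G12 : Good D (h * n) := hcomp _ _ _ _ G1 G2 fun a ha => (hEm _).mpr (by
      simpa [mul_assoc] using ha)
    have G123 := hcomp _ _ _ _ G12 G3 fun a ha => by
      refine mem_map_conj.mpr (mem_map_conj.mpr (hlt2.le ((hD'm _).mpr ?_)))
      simpa [mul_assoc] using ha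
    have : h * n * (n⁻¹ * h⁻¹ * g) = g := by group
    rwa [this] at G123

/-- The members of the conjugation family. -/
def Fam (P : Sylow p G) (H X : Subgroup G) (x : G) : Prop :=
  H ≤ (P : Subgroup G) ∧
  ¬ p ∣ ((P : Subgroup G) ⊓ normalizer (H : Set G)).relIndex (normalizer (H : Set G)) ∧
  (P : Subgroup G) ⊓ centralizer (H : Set G) ≤ H ∧
  (pPrimePCore p ↥(normalizer (H : Set G))).map (normalizer (H : Set G)).subtype =
    H ⊔ centralizer (H : Set G) ∧
  ¬ IsSylowChainConnected p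
    (↥(normalizer (H : Set G)) ⧸ H.subgroupOf (normalizer (H : Set G))) ∧
  (H ≤ X ∧ X ≤ normalizer (H : Set G) ∧ (X.subgroupOf (normalizer (H : Set G))).Normal ∧
    p ∣ H.relIndex X ∧ ∀ Y : Subgroup G, H ≤ Y → Y ≤ normalizer (H : Set G) →
      (Y.subgroupOf (normalizer (H : Set G))).Normal → p ∣ H.relIndex Y → X ≤ Y) ∧
  x ∈ (pResidual p ↥X).map X.subtype

theorem ess (P : Sylow p G) {Q M : Subgroup G} (hQ : Q < P)
    (hi : ¬ p ∣ ((P : Subgroup G) ⊓ normalizer (Q : Set G)).relIndex (normalizer (Q : Set G)))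
    (hMN : M < normalizer (Q : Set G)) (hC : centralizer (Q : Set G) ≤ M)
    (hM : ∀ R : Subgroup G, Q < R → R ≤ P → ∀ g ∈ normalizer (Q : Set G),
      (∀ r ∈ R, g⁻¹ * r * g ∈ (P : Subgroup G)) → g ∈ M) {n : G}
    (hn : n ∈ normalizer (Q : Set G)) : ∃ X x, Fam P Q X x ∧ x ∈ normalizer (Q : Set G) ∧
      ∃ m ∈ M, n = x * m := by
  set N := normalizer (Q : Set G) with hN
  set S := (P : Subgroup G) ⊓ N with hS
  have hQS : Q < S := lt_inf_normalizer_of_isPGroup P.2 hQ
  have hSp : IsPGroup p S := P.2.to_inf_left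
  have hSM : S ≤ M := fun s hs => hM S hQS inf_le_left s hs.2 fun r hr =>
    mul_mem (mul_mem (inv_mem hs.1) hr.1) hs.1
  have hQp : IsPGroup p Q := P.2.to_le hQ.le
  have hSN : S ≤ N := inf_le_right
  -- Frattini argument
  have fr : ∀ D : Subgroup G, D ≤ N → (D.subgroupOf N).Normal → Q ≤ D → p ∣ Q.relIndex D →
      ¬ p ∣ (S ⊓ D).relIndex D ∧ ∀ g ∈ N, ∃ d ∈ D, ∃ m ∈ M, g = d * m := by
    intro D hDN hDn hQD hp
    have h1 : ¬ p ∣ (S ⊓ D).relIndex D := by
      have := not_dvd_relIndex_of_normal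
        (⟨S.subgroupOf N, hSp.comap_subtype, fun {T} hT hle => by
          have := eq_of_sylowIn_le hi (hT.map N.subtype)
            ((map_subgroupOf_eq_of_le hSN).ge.trans (map_mono hle)) (map_subtype_le T)
          rw [← this, subgroupOf, comap_map_eq_self_of_injective N.subtype_injective]⟩ :
          Sylow p N) (D.subgroupOf N)
      rwa [relIndex_subgroupOf hDN, ← inf_relIndex_right] at this
    have h2 : Q < S ⊓ D := lt_of_le_of_ne (le_inf hQS.le hQD) fun h => h1 (h ▸ hp)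
    refine ⟨h1, fun g hg => ?_⟩
    obtain ⟨d, hd, m, hm, rfl⟩ := exists_mul_normalizer_of_sylowIn
      ((normal_subgroupOf_iff_le_normalizer hDN).1 hDn) inf_le_right hSp.to_inf_left h1 hg
    exact ⟨d, hd, m, hM _ h2 (inf_le_left.trans inf_le_left) m
      ((Subgroup.mul_mem_cancel_left _ (hDN hd)).1 hg)
      fun r hr => (conj_mem_of_mem_normalizer' hm hr).1.1, rfl⟩
  have hCn : ((centralizer (Q : Set G)).subgroupOf N).Normal := inferInstance
  obtain ⟨c1, c2⟩ := (S3076.result P Q hQ.le hi).1 (by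
    have := H13.normal_pCore p (N ⧸ (centralizer (Q : Set G)).subgroupOf N)
    set D := ((pCore p (N ⧸ (centralizer (Q : Set G)).subgroupOf N)).comap
      (QuotientGroup.mk' _)).map N.subtype with hD
    have hQD : Q ≤ D := fun x hx => ⟨⟨x, le_normalizer hx⟩, H1.le_pCore
      (hN := Normal.map (inferInstance : (Q.subgroupOf N).Normal) _ (QuotientGroup.mk'_surjective _))
      (hQp.comap_subtype.map (QuotientGroup.mk' _)) ⟨_, hx, rfl⟩, rfl⟩
    refine ⟨hQD, fun hp => hMN.not_ge fun g hg => ?_⟩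
    obtain ⟨h1, h2⟩ := fr D (map_subtype_le _) (by
      rw [hD, subgroupOf, comap_map_eq_self_of_injective N.subtype_injective]; infer_instance) hQD hp
    obtain ⟨d, hd, m, hm, rfl⟩ := h2 g hg
    obtain ⟨c, hc, s, hs, -, -, rfl⟩ := exists_mul_of_pPrime_le (C := centralizer (Q : Set G)) h1
      (by
        rintro _ ⟨y, hy, rfl⟩ ho
        obtain ⟨k, hk⟩ := H13.isPGroup_pCore p _ ⟨_, hy⟩
        have h3 : y ^ p ^ k ∈ (centralizer (Q : Set G)).subgroupOf N := by
          rw [← QuotientGroup.eq_one_iff, QuotientGroup.mk_pow]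
          exact congrArg Subtype.val hk
        have h4 : (y : G) ∈ zpowers ((y : G) ^ p ^ k) :=
          mem_zpowers_pow_iff.2 (ho.symm.pow_left k)
        exact (zpowers_le.2 (show (y : G) ^ p ^ k ∈ centralizer (Q : Set G) from h3)) h4) hd
    exact mul_mem (mul_mem (hC hc) (hSM hs.1)) hm)
  let π := QuotientGroup.mk' (Q.subgroupOf N)
  have card : ∀ Y : Subgroup G, Y ≤ N → Nat.card ((Y.subgroupOf N).map π) = Q.relIndex Y :=
    fun Y hY => by rw [H1.card_map_mk'_eq_relIndex, relIndex_subgroupOf hY]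
  have pS : p ∣ Q.relIndex S := by
    obtain ⟨k, hk⟩ := IsPGroup.iff_card.1 hSp
    have h1 : Q.relIndex S ∣ p ^ k := hk ▸ relIndex_dvd_card Q S
    obtain ⟨j, -, hj⟩ := (Nat.dvd_prime_pow Fact.out).1 h1
    rw [hj]
    refine dvd_pow_self p fun h => hQS.not_ge (relIndex_eq_one.1 ?_)
    rw [hj, h, pow_zero]
  have cm : ∀ Y : Subgroup G, Q ≤ Y → ((Y.subgroupOf N).map π).comap π = Y.subgroupOf N :=
    fun Y hY => comap_map_eq_self (by rw [QuotientGroup.ker_mk']; exact subgroupOf_mono N hY)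
  have c3 : ¬ IsSylowChainConnected p (N ⧸ Q.subgroupOf N) := by
    refine (S3056.result p).2 ⟨(M.subgroupOf N).map π, fun h => hMN.not_ge ?_, ?_, ?_⟩
    · rw [← subgroupOf_eq_top, ← cm M (hQS.le.trans hSM), h, comap_top]
    · rw [card M hMN.le, ← relIndex_mul_relIndex Q S M hQS.le hSM]
      exact pS.mul_right _
    · intro g hg hp
      obtain ⟨g, rfl⟩ := QuotientGroup.mk'_surjective _ g
      obtain ⟨x, hx⟩ := exists_prime_orderOf_dvd_card' p hp
      rw [← Subgroup.orderOf_coe] at hx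
      set R := ((zpowers (x : N ⧸ Q.subgroupOf N)).comap π).map N.subtype with hR
      have hRp : IsPGroup p R := ((IsPGroup.of_card (n := 1) (by
        rw [Nat.card_zpowers, hx, pow_one])).comap_of_ker_isPGroup π (by
          rw [QuotientGroup.ker_mk']; exact hQp.comap_subtype)).map _
      have hQR : Q < R := by
        refine lt_of_le_of_ne (fun y hy => ⟨⟨y, le_normalizer hy⟩, ?_, rfl⟩) fun h => ?_
        · have : π ⟨y, le_normalizer hy⟩ = 1 := (QuotientGroup.eq_one_iff _).2 hy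
          exact mem_comap.2 (this ▸ one_mem _)
        · obtain ⟨y, hy⟩ := QuotientGroup.mk'_surjective _ (x : N ⧸ Q.subgroupOf N)
          have h1 : (y : G) ∈ Q := h ▸ ⟨y, mem_comap.2 (hy ▸ mem_zpowers _), rfl⟩
          have h2 : π y = 1 := (QuotientGroup.eq_one_iff y).2 h1
          rw [← hy, h2, orderOf_one] at hx
          exact (Fact.out : p.Prime).ne_one hx.symm
      have hRM : R ≤ M := by
        rintro _ ⟨y, hy, rfl⟩
        have : y ∈ ((M.subgroupOf N).map π).comap π := (zpowers_le.2 x.2.1) hy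
        rwa [cm M (hQS.le.trans hSM)] at this
      have hRg : R.map (MulAut.conj (g : G)⁻¹).toMonoidHom ≤ M := by
        rintro _ ⟨_, ⟨y, hy, rfl⟩, rfl⟩
        have : g⁻¹ * y * g ∈ ((M.subgroupOf N).map π).comap π :=
          mem_comap.2 (by
            have := mem_map_conj.1 ((zpowers_le.2 x.2.2) hy)
            rwa [map_mul, map_mul, map_inv])
        rw [cm M (hQS.le.trans hSM)] at this
        simpa using mem_subgroupOf.1 this
      have hiM : ¬ p ∣ S.relIndex M := fun h => hi (by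
        rw [← relIndex_mul_relIndex S M N hSM hMN.le]; exact h.mul_right _)
      obtain ⟨m, hm, m1⟩ := exists_conj_le_of_sylowIn hSp hiM hRp hRM
      obtain ⟨m', hm', m2⟩ := exists_conj_le_of_sylowIn hSp hiM (hRp.map _) hRg
      have h5 : m⁻¹ * g * m' ∈ M := hM (R.map (MulAut.conj m⁻¹).toMonoidHom) (by
          rw [← map_conj_eq_iff.2 (inv_mem (hMN.le hm))]
          exact (map_lt_map_iff_of_injective (MulAut.conj m⁻¹).injective).2 hQR)
        (by rintro _ ⟨r, hr, rfl⟩; simpa using (m1 r hr).1) _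
        (mul_mem (mul_mem (inv_mem (hMN.le hm)) g.2) (hMN.le hm')) (by
          rintro _ ⟨r, hr, rfl⟩
          simpa [mul_assoc] using (m2 _ ⟨r, hr, rfl⟩).1)
      rw [Subgroup.mul_mem_cancel_right _ hm', Subgroup.mul_mem_cancel_left _ (inv_mem hm)] at h5
      exact hg ⟨g, h5, rfl⟩
  obtain ⟨X, ⟨x1, x2, x3, x4⟩, -, hX⟩ := H1.exists_minimal_le (fun Y : Subgroup G =>
    Q ≤ Y ∧ Y ≤ N ∧ (Y.subgroupOf N).Normal ∧ p ∣ Q.relIndex Y) (N := N)
    ⟨le_normalizer, le_rfl, by rw [subgroupOf_self]; infer_instance, by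
      rw [← relIndex_mul_relIndex Q S N hQS.le inf_le_right]; exact pS.mul_right _⟩
  obtain ⟨h1, h2⟩ := fr X x2 x3 x1 x4
  obtain ⟨d, hd, m, hm, rfl⟩ := h2 n hn
  obtain ⟨c, hc, s, hs, hcX, -, rfl⟩ := exists_mul_of_pPrime_le
    (C := (pResidual p X).map X.subtype) h1 (fun g hg ho =>
      ⟨⟨g, hg⟩, Subgroup.subset_closure (by simpa using ho), rfl⟩) hd
  refine ⟨X, c, ⟨hQ.le, hi, c1, c2, c3, ⟨x1, x2, x3, x4, fun Y y1 y2 y3 y4 => ?_⟩, hc⟩, x2 hcX,
    s * m, mul_mem (hSM hs.1) hm, mul_assoc _ _ _⟩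
  rw [← hX (X ⊓ Y) ⟨le_inf x1 y1, inf_le_left.trans x2, ?_, ?_⟩ inf_le_left]
  · exact inf_le_right
  · rw [subgroupOf, comap_inf]; exact @normal_inf_normal _ _ _ _ x3 y3
  · have := x3.map π (QuotientGroup.mk'_surjective _)
    have := y3.map π (QuotientGroup.mk'_surjective _)
    have h3 := S3058.result p c3 ((X.subgroupOf N).map π) ((Y.subgroupOf N).map π)
      (card X x2 ▸ x4) (card Y y2 ▸ y4)
    rwa [← map_comap_eq_self_of_surjective (QuotientGroup.mk'_surjective _) (_ ⊓ _), comap_inf,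
      cm X x1, cm Y y1,
      show X.subgroupOf N ⊓ Y.subgroupOf N = (X ⊓ Y).subgroupOf N from (comap_inf _ _ _).symm,
      card _ (inf_le_left.trans x2)] at h3

/-- Chains of conjugations by elements of the family. -/
inductive Ch (P : Sylow p G) : Set G → G → Prop
  | nil (A : Set G) : Ch P A 1
  | cons (A : Set G) (H X : Subgroup G) (x w : G) : Fam P H X x → A ⊆ H →
      Ch P ((fun a => x⁻¹ * a * x) '' A) w → Ch P A (x * w)

omit [Finite G] in
theorem Ch.mono {P : Sylow p G} {A B : Set G} {w : G} (h : Ch P B w) (hAB : A ⊆ B) :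
    Ch P A w := by
  induction h generalizing A with
  | nil => exact .nil _
  | cons B H X x w h1 h2 _ ih => exact .cons A H X x w h1 (hAB.trans h2) (ih (Set.image_mono hAB))

omit [Finite G] in
theorem Ch.append {P : Sylow p G} {A B : Set G} {w w' : G} (h : Ch P A w) (h' : Ch P B w')
    (hAB : ∀ a ∈ A, w⁻¹ * a * w ∈ B) : Ch P A (w * w') := by
  induction h with
  | nil A => rw [one_mul]; exact h'.mono fun a ha => by simpa using hAB a ha
  | cons A H X x w h1 h2 _ ih =>
    rw [mul_assoc]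
    refine .cons A H X x _ h1 h2 (ih ?_)
    rintro _ ⟨a, ha, rfl⟩
    simpa [mul_assoc] using hAB a ha

omit [Finite G] in
theorem Ch.list {P : Sylow p G} {A : Set G} {w : G} (h : Ch P A w) :
    ∃ (n : ℕ) (H X : Fin n → Subgroup G) (x : Fin n → G), w = (List.ofFn x).prod ∧
      ∀ i, Fam P (H i) (X i) (x i) ∧ (fun a => (((List.ofFn x).take i.val).prod)⁻¹ * a *
        ((List.ofFn x).take i.val).prod) '' A ⊆ (H i : Set G) := by
  induction h with
  | nil A => exact ⟨0, Fin.elim0, Fin.elim0, Fin.elim0, by simp, fun i => i.elim0⟩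
  | cons A H X x w h1 h2 _ ih =>
    obtain ⟨n, H', X', x', rfl, h⟩ := ih
    refine ⟨n + 1, Fin.cons H H', Fin.cons X X', Fin.cons x x', by simp [List.ofFn_succ],
      fun i => Fin.cases ⟨h1, by simpa using h2⟩ (fun j => ⟨(h j).1, ?_⟩) i⟩
    rintro _ ⟨a, ha, rfl⟩
    simpa [List.ofFn_succ, mul_assoc] using (h j).2 ⟨_, ⟨a, ha, rfl⟩, rfl⟩

/-- The normal form of a conjugation. -/
def NF (P : Sylow p G) (A : Set G) (g : G) : Prop :=
  ∃ c ∈ centralizer A, ∃ w, Ch P A w ∧ ∃ y ∈ normalizer ((P : Subgroup G) : Set G), g = c * w * y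

/-- The normal form, after twisting by the normalizer of the Sylow subgroup. -/
def Gd (P : Sylow p G) (A : Set G) (g : G) : Prop :=
  ∀ y ∈ normalizer ((P : Subgroup G) : Set G), NF P ((fun a => y * a * y⁻¹) '' A) (y * g)

omit [Finite G] in
theorem NF.comp {P : Sylow p G} {A B : Set G} {g h : G} (h1 : NF P A g) (h2 : Gd P B h)
    (hAB : ∀ a ∈ A, g⁻¹ * a * g ∈ B) : NF P A (g * h) := by
  obtain ⟨c, hc, w, hw, y, hy, rfl⟩ := h1
  obtain ⟨c', hc', w', hw', y', hy', e⟩ := h2 y hy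
  have key : ∀ a ∈ A, w⁻¹ * a * w ∈ (fun a => y * a * y⁻¹) '' B := fun a ha =>
    ⟨_, hAB a ha, by
      have := mem_centralizer_iff.1 hc a ha
      simp only [mul_inv_rev, mul_assoc, mul_inv_cancel_left, mul_inv_cancel, mul_one]
      rw [← mul_assoc a, this]; group⟩
  refine ⟨c * (w * c' * w⁻¹), mul_mem hc (mem_centralizer_iff.2 fun a ha => ?_), w * w',
    hw.append hw' key, y', hy', by rw [mul_assoc, e]; group⟩
  have := mem_centralizer_iff.1 hc' _ (key a ha)
  calc a * (w * c' * w⁻¹) = w * (w⁻¹ * a * w * c') * w⁻¹ := by group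
    _ = _ := by rw [this]; group

omit [Finite G] in
theorem Gd.comp {P : Sylow p G} {A B : Set G} {g h : G} (h1 : Gd P A g) (h2 : Gd P B h)
    (hAB : ∀ a ∈ A, g⁻¹ * a * g ∈ B) : Gd P A (g * h) := fun y hy => by
  rw [← mul_assoc]
  refine (h1 y hy).comp h2 ?_
  rintro _ ⟨a, ha, rfl⟩
  simpa [mul_assoc] using hAB a ha

omit [Finite G] in
theorem Gd.mono {P : Sylow p G} {A B : Set G} {g : G} (hAB : A ⊆ B) (h : Gd P B g) :
    Gd P A g := fun y hy => by
  obtain ⟨c, hc, w, hw, e⟩ := h y hy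
  exact ⟨c, centralizer_le (Set.image_mono hAB) hc, w, hw.mono (Set.image_mono hAB), e⟩

omit [Finite G] in
theorem Gd.nf {P : Sylow p G} {A : Set G} {g : G} (h : Gd P A g) : NF P A g := by
  simpa using h 1 (one_mem _)

omit [Finite G] in
theorem gd_cent (P : Sylow p G) {A : Set G} {c : G} (hc : c ∈ centralizer A) : Gd P A c :=
  fun y hy => ⟨y * c * y⁻¹, mem_centralizer_iff.2 (by
    rintro _ ⟨a, ha, rfl⟩
    simp only [conj_mul, mem_centralizer_iff.1 hc a ha]), 1, .nil _, y, hy, by group⟩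

theorem base (P : Sylow p G) (E : Subgroup G) (hE : E ≤ P)
    (hi : ¬ p ∣ ((P : Subgroup G) ⊓ normalizer (E : Set G)).relIndex (normalizer (E : Set G)))
    (ih : ∀ D' : Subgroup G, Nat.card E < Nat.card D' → D' ≤ P → ∀ g : G,
      (∀ a ∈ D', g⁻¹ * a * g ∈ (P : Subgroup G)) → Gd P D' g) {n : G}
    (hn : n ∈ normalizer (E : Set G)) : NF P E n := by
  rcases hE.eq_or_lt with h | h
  · exact ⟨1, one_mem _, 1, .nil _, n, h ▸ hn, by simp⟩
  have hmul : ∀ {a b : G}, a ∈ normalizer (E : Set G) ∧ Gd P E a →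
      b ∈ normalizer (E : Set G) ∧ Gd P E b → a * b ∈ normalizer (E : Set G) ∧ Gd P E (a * b) :=
    fun ha hb => ⟨mul_mem ha.1 hb.1, ha.2.comp hb.2 fun _ hx => conj_mem_of_mem_normalizer' ha.1 hx⟩
  let M : Subgroup G :=
    { carrier := {g | g ∈ normalizer (E : Set G) ∧ Gd P E g}
      one_mem' := ⟨one_mem _, gd_cent P (one_mem _)⟩
      mul_mem' := hmul
      inv_mem' := fun {a} ha => by
        have h1 : ∀ k : ℕ, a ^ k ∈ normalizer (E : Set G) ∧ Gd P E (a ^ k) := fun k => by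
          induction k with
          | zero => rw [pow_zero]; exact ⟨one_mem _, gd_cent P (one_mem _)⟩
          | succ k ih => rw [pow_succ]; exact hmul ih ha
        have h2 : a⁻¹ = a ^ (orderOf a - 1) := by
          rw [inv_eq_iff_mul_eq_one, ← pow_succ', Nat.sub_add_cancel (orderOf_pos a),
            pow_orderOf_eq_one]
        rw [h2]; exact h1 _ }
  by_cases hM : normalizer (E : Set G) ≤ M
  · exact (hM hn).2.nf
  obtain ⟨X, x, h1, h2, m, hm, rfl⟩ := ess P h hi (M := M)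
    (lt_of_le_of_ne (fun _ h => h.1) fun h => hM h.ge)
    (fun c hc => ⟨centralizer_le_normalizer _ hc, gd_cent P hc⟩)
    (fun R h1 h2 g hg h3 => ⟨hg, (ih R (card_lt_of_lt h1) h2 g h3).mono h1.le⟩) hn
  refine NF.comp ⟨1, one_mem _, x, ?_, 1, one_mem _, by simp⟩ hm.2
    fun _ hx => conj_mem_of_mem_normalizer' h2 hx
  simpa using Ch.cons (E : Set G) E X x 1 h1 le_rfl (.nil _)

theorem main (P : Sylow p G) (A : Set G) (g : G) (hA : A ⊆ P) (hAg : ∀ a ∈ A, g⁻¹ * a * g ∈ P) :
    NF P A g := by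
  refine (alp_ind P (Gd P) (fun _ _ _ => Gd.mono) (fun _ _ _ _ => Gd.comp)
    (fun E hE hi ih n hn y hy => ?_) A g hA hAg).nf
  have hP : (P : Subgroup G).map (MulAut.conj y).toMonoidHom = P := map_conj_eq_iff.2 hy
  obtain ⟨c, hc, w, hw, y', hy', e⟩ := base P (E.map (MulAut.conj y).toMonoidHom)
    (hP ▸ map_mono hE) (by
      rw [normalizer_map_conj, ← hP, ← map_conj_inf, relIndex_map_conj]; exact hi)
    (by rw [card_map_conj]; exact ih) (n := y * n * y⁻¹) (by
      rw [normalizer_map_conj]; exact ⟨n, hn, rfl⟩)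
  exact ⟨c, hc, w, hw, y' * y, mul_mem hy' hy, by rw [← mul_assoc, ← e]; group⟩

end Cfsg.Agent.H3.AlpG
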