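import Cfsg.Agent.H13.MaxCl3

/-! Groups of exponent `p` satisfy the `(p - 1)`-st Engel congruence. -/

set_option autoImplicit false

namespace Cfsg.Agent.H3

open Subgroup H13
open scoped commutatorElement

theorem comm_step {Q : Type*} [Group Q] {x n d e : Q} {a b : ℕ} (h1 : Commute d (n ^ b * e))
    (h2 : Commute (x ^ a) e) (h3 : Commute x ⁅x, n⁆) (h4 : Commute n ⁅x, n⁆) :
    ⁅x ^ a * d, n ^ b * e⁆ = ⁅x, n⁆ ^ (a * b) := by
  have e1 := H9.commutator_pow_left h3 a
  rw [pow_mul, ← e1, ← H9.commutator_pow_right (e1 ▸ h4.pow_right a), commutatorElement_def,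
    commutatorElement_def, mul_assoc _ d, h1.eq, ← mul_assoc, mul_inv_rev, mul_assoc _ d,
    mul_inv_cancel_left, mul_assoc _ _ (x ^ a)⁻¹, mul_assoc _ e, ← h2.inv_left.eq]
  group

theorem commute_mk {G : Type*} [Group G] {T : Subgroup G} [T.Normal] {x y : G} (h : ⁅x, y⁆ ∈ T) :
    Commute (x : G ⧸ T) y := commutatorElement_eq_one_iff_commute.1 ((QuotientGroup.eq_one_iff _).2 h)

theorem map_ad_iter {G H : Type*} [Group G] [Group H] (f : G →* H) (t y : G) (j : ℕ) :
    f ((ad t)^[j] y) = (ad (f t))^[j] (f y) := by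
  induction j with
  | zero => rfl
  | succ j ih => simp only [Function.iterate_succ_apply', ad, map_commutatorElement, map_inv, ih]

variable {p : ℕ} [hp : Fact p.Prime]

theorem engel_ab {Q : Type*} [Group Q] (he : ∀ g : Q, g ^ p = 1) (hl : lc Q p = ⊥) {N : Subgroup Q}
    [N.Normal] (h1 : lc Q 1 ≤ N) (h2 : ⁅N, N⁆ = ⊥) (t : Q) {c : Q} (hc : c ∈ N) :
    (ad t)^[p - 1] c = 1 := by
  let L : ℕ → Subgroup Q := fun j => if j < 2 then ⊤ else lc Q (j - 2) ⊓ N
  have hL : ∀ j, L (j + 2) = lc Q j ⊓ N := fun j => by simp [L]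
  have h3 : ∀ j, ⁅⊤, L j⁆ ≤ L (j + 1) := fun j => by
    match j with
    | 0 => exact le_top
    | 1 => exact le_inf le_top h1
    | j + 2 =>
      rw [hL, hL (j + 1)]
      exact le_inf (commutator_le.2 fun g _ y hy => comm_mem_lc' g hy.1)
        ((commutator_mono le_rfl inf_le_right).trans (commutator_le_right _ _))
  have hF : Antitone L := antitone_nat_of_succ_le fun j => by
    match j with
    | 0 => exact le_top
    | 1 => exact le_top
    | j + 2 => exact hL j ▸ hL (j + 1) ▸ inf_le_inf_right _ (lc_anti j.le_succ)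
  have := pow_formula' (L := L) (p := p) hF (fun i j => ?_) (d := p + 2) (by rw [hL, hl, bot_inf_eq])
    rfl (j := 1) le_rfl ⊥ (by rw [add_comm 1, hL, hl, bot_inf_eq]) (t * c⁻¹) (c := c)
    (hL 0 ▸ ⟨trivial, hc⟩) fun _ _ g _ => he g
  · simp only [he, inv_mul_cancel_right, inv_one, one_mul] at this
    exact (QuotientGroup.eq_one_iff _).1 this.symm
  wlog hij : i ≤ j generalizing i j
  · rw [commutator_comm, add_comm]; exact this j i (by omega)
  match i, j with
  | 0, j => exact (h3 j).trans (hF (by omega))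
  | 1, j => exact add_comm j 1 ▸ h3 j
  | i + 2, j + 2 => exact hL i ▸ hL j ▸ (commutator_mono inf_le_right inf_le_right).trans (h2 ▸ bot_le)

theorem lcs_normal {B : Type*} [Group B] (N : Subgroup B) [N.Normal] (b : ℕ) :
    (N.lowerCentralSeries b).Normal := by
  induction b with
  | zero => assumption
  | succ b _ => exact commutator_normal _ _

theorem theta_lcs {B : Type*} [Group B] (θ : B →* B) (N : Subgroup B) [N.Normal] {k : ℕ}
    (h : ∀ n ∈ N, (n ^ k)⁻¹ * θ n ∈ N.lowerCentralSeries 1) (b : ℕ) :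
    ∀ c ∈ N.lowerCentralSeries b, (c ^ k ^ (b + 1))⁻¹ * θ c ∈ N.lowerCentralSeries (b + 1) := by
  induction b with
  | zero => simpa using h
  | succ b ih =>
    have := lcs_normal N (b + 2)
    have hc : ∀ x ∈ N.lowerCentralSeries (b + 1), ∀ n ∈ N,
      Commute (x : B ⧸ N.lowerCentralSeries (b + 2)) n :=
      fun x hx n hn => commute_mk (commutator_mem_commutator hx hn)
    have hl := N.lowerCentralSeries_le_self
    intro c hc'
    refine QuotientGroup.eq.1 ?_
    induction hc' using closure_induction with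
    | mem c hc' =>
      obtain ⟨x, hx, n, hn, rfl⟩ := hc'
      have h5 := commutator_mem_commutator hx hn
      have := comm_step (a := k ^ (b + 1)) (b := k) (x := (x : B ⧸ N.lowerCentralSeries (b + 2)))
        (n := n) (hc _ (ih x hx) _ (N.mul_mem (N.pow_mem hn k) (hl _ (h n hn))))
        (commute_mk (H9.lcsFilt_commutator N (b + 1) 2 (commutator_mem_commutator (pow_mem hx _) (h n hn))))
        (hc _ h5 _ (hl _ hx)).symm (hc _ h5 _ hn).symm
      simp only [← QuotientGroup.mk_pow, ← QuotientGroup.mk_mul, mul_inv_cancel_left] at this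
      rw [map_commutatorElement, pow_succ]
      exact this.symm
    | one => simp
    | mul x y hx hy a a' => simp only [map_mul, QuotientGroup.mk_mul, QuotientGroup.mk_pow] at a a' ⊢
                            rw [(hc x hx y (hl (b + 1) hy)).mul_pow, a, a']
    | inv x _ a => simpa using a

theorem engel_aux {B : Type*} [Group B] (he : ∀ g : B, g ^ p = 1) (hl : lc B p = ⊥) {X Y : B}
    (hB : closure {X, Y} = ⊤) (θ : B →* B) {k : ℕ} (hX : θ X = X) (hY : θ Y = Y ^ k)
    (hk : ∀ b, 1 ≤ b → b + 1 < p → ¬ k ^ (b + 1) ≡ k [MOD p]) : (ad X)^[p - 1] Y = 1 := by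
  let N := normalClosure ({Y} : Set B)
  have hN : Y ∈ N := subset_normalClosure rfl
  have p2 := hp.out.two_le
  have h1 : ∀ g, g⁻¹ * θ g ∈ N := fun g => QuotientGroup.eq.1 (DFunLike.congr_fun
    (MonoidHom.eq_of_eqOn_dense hB (f := QuotientGroup.mk' N) (g := (QuotientGroup.mk' N).comp θ) (by
      rintro _ (rfl | rfl)
      · simp [hX]
      · simp [hY, (QuotientGroup.eq_one_iff _).2 hN])) g)
  have h2 : lc B 1 ≤ N := by
    refine commutator_le.2 fun a _ b _ => (QuotientGroup.eq_one_iff _).1 ?_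
    have : ∀ g : B, (g : B ⧸ N) ∈ zpowers (X : B ⧸ N) := fun g =>
      (closure_le ((zpowers (X : B ⧸ N)).comap (QuotientGroup.mk' N))).2 (by
        rintro _ (rfl | rfl)
        · exact mem_zpowers _
        · exact ⟨0, (zpow_zero _).trans ((QuotientGroup.eq_one_iff _).2 hN).symm⟩) (hB ▸ mem_top g)
    obtain ⟨i, hi⟩ := this a
    obtain ⟨j, hj⟩ := this b
    exact commutatorElement_eq_one_iff_commute.2 (show Commute (a : B ⧸ N) b from
      hi ▸ hj ▸ Commute.zpow_zpow_self _ i j)
  have := lcs_normal N 1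
  have h3 := theta_lcs θ N (k := k) fun n hn => by
    refine QuotientGroup.eq.1 ?_
    have hc : ∀ x ∈ N, ∀ n ∈ N, Commute (x : B ⧸ N.lowerCentralSeries 1) n :=
      fun x hx n hn => commute_mk (commutator_mem_commutator hx hn)
    induction hn using closure_induction with
    | mem c hc' =>
      obtain ⟨_, e, hc'⟩ := Group.mem_conjugatesOfSet_iff.1 hc'
      rw [e] at hc'
      obtain ⟨g, rfl⟩ := _root_.isConj_iff.1 hc'
      have := (hc _ (h1 g) _ (N.pow_mem hN k)).eq
      simp only [map_mul, map_inv, hY, conj_pow, QuotientGroup.mk_mul, QuotientGroup.mk_inv] at this ⊢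
      rw [eq_mul_inv_iff_mul_eq, mul_assoc, mul_assoc, ← mul_assoc _ _⁻¹, mul_assoc _ _⁻¹, ← this]
      group
    | one => simp
    | mul x y hx hy a b => simp only [map_mul, QuotientGroup.mk_mul, QuotientGroup.mk_pow] at a b ⊢
                           rw [(hc x hx y hy).mul_pow, a, b]
    | inv x _ a => simpa using! congrArg (·⁻¹) a
  have h4 : ∀ j, (((ad X)^[j] Y) ^ k)⁻¹ * θ ((ad X)^[j] Y) ∈ lc B (j + 1) := fun j => by
    induction j with
    | zero => simp [hY]
    | succ j ih =>
      have h5 : ((ad X)^[j] Y)⁻¹ ∈ lc B j := inv_mem (by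
        simpa using ad_iter_mem (a := 0) (j := 0) (mem_top X) (mem_top Y) j)
      have h6 : (((ad X)^[j] Y)⁻¹ ^ k)⁻¹ * θ ((ad X)^[j] Y)⁻¹ ∈ lc B (j + 1) := QuotientGroup.eq.1
        (by simpa using QuotientGroup.eq.2 ih)
      have h7 : ∀ x ∈ lc B (j + 1), ∀ g : B, Commute (g : B ⧸ lc B (j + 2)) x := fun x hx g =>
        commute_mk (comm_mem_lc' g hx)
      have h8 := comm_swap (comm_mem_lc' X⁻¹ h5)
      have := comm_step (a := k) (b := 1) (e := 1) (x := ((((ad X)^[j] Y)⁻¹ : B) : B ⧸ lc B (j + 2)))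
        (n := (X⁻¹ : B)) (h7 _ h6 (X⁻¹ ^ 1 * 1)).symm (Commute.one_right _) (h7 _ h8 _) (h7 _ h8 _)
      simp only [← QuotientGroup.mk_pow, ← QuotientGroup.mk_mul, mul_inv_cancel_left, pow_one,
        mul_one] at this
      refine QuotientGroup.eq.1 ?_
      rw [Function.iterate_succ_apply', ad, map_commutatorElement, map_inv θ X, hX]
      exact this.symm
  have h5 : ∀ b, b + 1 < p → (ad X)^[p - 1] Y ∈ N.lowerCentralSeries (b + 1) := fun b hb => by
    induction b with
    | zero =>
      let π := QuotientGroup.mk' (N.lowerCentralSeries 1)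
      have hs := QuotientGroup.mk'_surjective (N.lowerCentralSeries 1)
      have := (inferInstance : N.Normal).map π hs
      exact (QuotientGroup.eq_one_iff _).1 ((map_ad_iter π ..).trans (engel_ab (N := N.map π)
        (fun g => by obtain ⟨g, rfl⟩ := hs g; rw [← map_pow, he, map_one])
        (by rw [← lc_map hs, hl, Subgroup.map_bot]) (lc_map hs 1 ▸ map_mono h2)
        (by rw [← map_commutator]; exact QuotientGroup.map_mk'_self _) _ (mem_map_of_mem π hN)))
    | succ b ih =>
      have := lcs_normal N (b + 2)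
      have h6 := QuotientGroup.eq.2 (h3 _ _ (ih (by omega)))
      have h7 := h4 (p - 1)
      rw [Nat.sub_add_cancel hp.out.pos, hl, mem_bot, inv_mul_eq_one] at h7
      rw [← h7, QuotientGroup.mk_pow, QuotientGroup.mk_pow, pow_eq_pow_iff_modEq] at h6
      by_contra h
      rw [orderOf_eq_prime (p := p) (by rw [← QuotientGroup.mk_pow, he, QuotientGroup.mk_one])
        (mt (QuotientGroup.eq_one_iff _).1 h)] at h6
      exact hk _ (by omega) hb h6
  have h6 : ∀ b, N.lowerCentralSeries (b + 1) ≤ lc B (b + 2) := fun b => by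
    induction b with
    | zero =>
      have : (zpowers Y ⊔ lc B 1).Normal := Normal.of_commutator_le _ le_sup_right
      have hN : N ≤ zpowers Y ⊔ lc B 1 := normalClosure_le_normal (by
        rintro _ rfl; exact mem_sup_left (mem_zpowers _))
      refine commutator_le.2 fun a ha b hb => (QuotientGroup.eq_one_iff _).1 ?_
      obtain ⟨_, ⟨i, rfl⟩, d, hd, rfl⟩ := mem_sup_of_normal_right.1 (hN ha)
      obtain ⟨_, ⟨j, rfl⟩, e, he, rfl⟩ := mem_sup_of_normal_right.1 (hN hb)
      have h7 : ∀ x ∈ lc B 1, ∀ g : B, Commute (g : B ⧸ lc B 2) x := fun x hx g =>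
        commute_mk (comm_mem_lc' g hx)
      exact commutatorElement_eq_one_iff_commute.2 (Commute.mul_left (Commute.mul_right
        (Commute.zpow_zpow_self (Y : B ⧸ lc B 2) i j) (h7 e he _)) (h7 d hd _).symm)
    | succ b ih => exact commutator_mono ih le_top
  have := h6 _ (h5 (p - 2) (by omega))
  rwa [Nat.sub_add_cancel p2, hl] at this

theorem engel {G : Type*} [Group G] (he : ∀ g : G, g ^ p = 1) (hl : lc G p = ⊥) (x y : G) :
    (ad x)^[p - 1] y = 1 := by
  obtain ⟨k, hk⟩ := IsCyclic.exists_ofOrder_eq_natCard (α := (ZMod p)ˣ)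
  rw [Nat.card_eq_fintype_card, ZMod.card_units] at hk
  let X : (ZMod p)ˣ → G := fun _ => x
  let Y : (ZMod p)ˣ → G := fun u => y ^ (u : ZMod p).val
  let σ : ((ZMod p)ˣ → G) →* ((ZMod p)ˣ → G) := MonoidHom.pi fun u => Pi.evalMonoidHom _ (u * k)
  have hY : σ Y = Y ^ (k : ZMod p).val := funext fun u => by
    change y ^ _ = (y ^ _) ^ _
    rw [← pow_mul, Units.val_mul, ZMod.val_mul, ← pow_eq_pow_mod _ (he y)]
  let B := closure ({X, Y} : Set _)
  have mX : X ∈ B := subset_closure (.inl rfl)
  have mY : Y ∈ B := subset_closure (.inr rfl)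
  have hσ : B ≤ B.comap σ := (closure_le _).2 (by
    rintro _ (rfl | rfl)
    · exact mX
    · exact (show σ Y ∈ B from hY ▸ B.pow_mem mY _))
  have := engel_aux (B := B) (p := p) (fun g => Subtype.ext (funext fun u => he _)) (by
      rw [← map_eq_bot_iff_of_injective _ B.subtype_injective, top_subtype_lowerCentralSeries]
      refine eq_bot_iff.2 ((lowerCentralSeries_mono p le_top).trans
        ((top_lowerCentralSeries_pi_le p).trans fun f hf => funext fun u => hl.le (hf u trivial))))
    (X := ⟨X, mX⟩) (Y := ⟨Y, mY⟩) (by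
      apply map_injective B.subtype_injective
      simp [MonoidHom.map_closure, Set.image_pair, ← MonoidHom.range_eq_map, B])
    ((σ.comp B.subtype).codRestrict B fun g => hσ g.2) rfl (Subtype.ext hY) fun b h1 h2 h => by
      rw [← ZMod.natCast_eq_natCast_iff] at h
      simp only [Nat.cast_pow, ZMod.natCast_val, ZMod.cast_id', id_eq] at h
      have : k ^ b = 1 := mul_right_cancel (b := k) (Units.ext (by simpa [pow_succ] using h))
      have := Nat.le_of_dvd h1 (hk ▸ orderOf_dvd_of_pow_eq_one this)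
      omega
  have := congrArg ((Pi.evalMonoidHom _ 1).comp B.subtype) this
  rw [map_ad_iter, map_one] at this
  simpa [X, Y, ZMod.val_one] using this

end Cfsg.Agent.H3
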