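import Cfsg.Agent.H4.Dk2
import Cfsg.Agent.H18.Small
import Mathlib.NumberTheory.LSeries.PrimesInAP

/-! Sets of primes for which every finite group has a Hall subgroup. -/

set_option autoImplicit false

namespace Cfsg.Agent.H3

open Subgroup Cfsg H4 MulAction
open scoped MatrixGroups

theorem epi_of_dpi {π : Set ℕ} {G : Type*} [Group G] [Finite G] (h : IsDPiGroup π G) :
    IsEPiGroup π G := by
  have ex : ∀ K : Subgroup G, IsPiSubgroup π K → ∃ H, K ≤ H ∧ Maximal (IsPiSubgroup π) H :=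
    fun K hK => Finite.exists_le_maximal hK
  obtain ⟨H, -, hH⟩ := ex ⊥ fun p hp h => absurd (by simpa using h) hp.one_lt.ne'
  refine ⟨H, hH.1, fun p hp hπ hd => ?_⟩
  have : Fact p.Prime := ⟨hp⟩
  obtain ⟨P⟩ : Nonempty (Sylow p G) := inferInstance
  obtain ⟨K, hK, hm⟩ := ex P fun q hq h => by
    obtain ⟨k, hk⟩ := IsPGroup.iff_card.1 P.isPGroup'
    rwa [(Nat.prime_dvd_prime_iff_eq hq hp).1 (hq.dvd_of_dvd_pow (hk ▸ h))]
  obtain ⟨g, rfl⟩ := h H K hH hm
  have h1 := index_dvd_of_le hK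
  rw [index_map_of_bijective (MulAut.conj g).bijective] at h1
  exact P.not_dvd_index (hd.trans h1)

theorem not_epi {π : Set ℕ} {p q r : ℕ} (hp : p.Prime) (hq : q.Prime) (hr : r.Prime) (q2 : q ≠ 2)
    (pq : p ≠ q) (h1 : p ∈ π) (h2 : q ∈ π) (h3 : r ∉ π) :
    ∃ (l : ℕ) (_ : Fact l.Prime), ¬ IsEPiGroup π PSL(2, ZMod l) := by
  have rq : r ≠ q := fun e => h3 (e ▸ h2)
  have co : (p ^ 7 * r).Coprime q := Nat.Coprime.mul_left
    (((Nat.coprime_primes hp hq).2 pq).pow_left 7) ((Nat.coprime_primes hr hq).2 rq)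
  obtain ⟨a, ha1, ha2⟩ := Nat.chineseRemainder co 1 (q - 1)
  have q1 := hq.two_le
  obtain ⟨l, hl2, hl, hla⟩ := Nat.forall_exists_prime_gt_and_modEq 2 (q := p ^ 7 * r * q) (a := a)
    (mul_ne_zero (mul_ne_zero (pow_ne_zero _ hp.ne_zero) hr.ne_zero) hq.ne_zero)
    (Nat.Coprime.mul_right (ha1.gcd_eq.trans (Nat.gcd_one_left _)) (ha2.gcd_eq.trans
      ((Nat.coprime_self_sub_left (by omega)).2 (Nat.coprime_one_left _))))
  have hm : p ^ 7 * r ∣ l - 1 :=
    (Nat.modEq_iff_dvd' hl.one_le).1 ((hla.of_mul_right q).trans ha1).symm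
  have hq1 : q ∣ l + 1 := by
    have := ((hla.of_mul_left _).trans ha2).add_right 1
    rw [show q - 1 + 1 = q by omega] at this
    exact (Nat.modEq_zero_iff_dvd).1 (this.trans (Nat.modEq_zero_iff_dvd.2 dvd_rfl))
  have : Fact l.Prime := ⟨hl⟩
  refine ⟨l, this, fun ⟨H, hH1, hH2⟩ => ?_⟩
  obtain ⟨k, hk⟩ : ∃ k, l + 1 = 2 * k := (hl.odd_of_ne_two (by omega)).add_one.two_dvd
  have ho : l % 2 = 1 := by omega
  have hG : Nat.card PSL(2, ZMod l) = l * ((l - 1) * k) := by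
    have := card_psl (F := ZMod l)
    rw [ZMod.card, gcd_eq_two ho, sq_sub_one_eq, hk] at this
    nlinarith
  have q2' : ¬ q ∣ 2 := fun e => q2 ((Nat.prime_dvd_prime_iff_eq hq Nat.prime_two).1 e)
  have hc := H.index_mul_card
  have dp : p ^ 7 ∣ Nat.card H := by
    refine (((Nat.Prime.coprime_iff_not_dvd hp).2 (hH2 p hp h1)).pow_left 7).dvd_of_dvd_mul_left ?_
    rw [hc, hG]; exact (((Dvd.intro _ rfl).trans hm).mul_right _).mul_left _
  have dq : q ∣ Nat.card H := by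
    refine ((Nat.Prime.coprime_iff_not_dvd hq).2 (hH2 q hq h2)).dvd_of_dvd_mul_left ?_
    rw [hc, hG]
    exact ((((Nat.Prime.dvd_mul hq).1 (hk ▸ hq1)).resolve_left q2').mul_left _).mul_left _
  have nq : ¬ q ∣ l - 1 := fun e => by
    have := Nat.dvd_sub hq1 e
    rw [show l + 1 - (l - 1) = 2 by omega] at this
    exact q2' this
  have big : 128 ≤ p ^ 7 := Nat.pow_le_pow_left hp.two_le 7
  have big' : 128 ≤ Nat.card H := big.trans (Nat.le_of_dvd Nat.card_pos dp)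
  have e0 : Nat.card (H.map psl2pgl) = Nat.card H := card_map_of_injective psl2pgl_injective
  have a5 : ¬ Nonempty (H.map psl2pgl ≃* alternatingGroup (Fin 5)) := fun ⟨e⟩ => by
    have := Nat.card_congr e.toEquiv
    rw [H18.card_a5] at this; omega
  rcases dickson_pgl l (H.map psl2pgl) with ⟨x, h⟩ | ⟨g, hg, h⟩ | ⟨-, ⟨⟨e⟩⟩ | ⟨⟨e⟩⟩ | h⟩ | ⟨-, h⟩ |
    ⟨E, P, hE, h⟩
  · have := dq.trans (e0 ▸ card_dvd_of_le h)
    rw [card_stab, ZMod.card] at this
    rcases (Nat.Prime.dvd_mul hq).1 this with e | e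
    · exact hq.one_lt.ne' (Nat.dvd_one.1 ((Nat.dvd_add_right e).1 hq1))
    · exact nq e
  · have := card_dvd_of_le h
    rw [e0, card_pN hg] at this
    rcases card_pT hg with e | e <;> rw [e, ZMod.card] at this
    · have h4 := Nat.dvd_sub (dp.trans this) (((Dvd.intro _ rfl).trans hm).mul_left 2)
      rw [show 2 * (l + 1) - 2 * (l - 1) = 4 by omega] at h4
      have := Nat.le_of_dvd (by norm_num) h4; omega
    · exact nq (((Nat.Prime.dvd_mul hq).1 (dq.trans this)).resolve_left q2')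
  · have := Nat.card_congr e.toEquiv
    have h4 := H18.card_alt 4 (by norm_num)
    rw [show Nat.factorial 4 = 24 from rfl] at h4; omega
  · have := Nat.card_congr e.toEquiv
    rw [Nat.card_perm, Nat.card_fin, show Nat.factorial 4 = 24 from rfl] at this; omega
  · exact a5 h
  · exact a5 h
  · obtain ⟨m, m0, hm'⟩ := exists_card_pow E
    rw [Nat.card_zmod] at hm'
    have hE' : E = ⊤ := eq_top_of_card (by
      rw [Nat.card_zmod]
      exact ((Nat.dvd_prime hl).1 ((dvd_pow_self _ m0).trans hm'.symm.dvd)).resolve_left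
        (by omega))
    subst hE'
    have hle : pL (ZMod l) ≤ H.map psl2pgl := by
      rcases h with h | h <;> rw [h]
      · rw [pslS_top, map_conj_pL]
      · rw [pglS_top, map_top_of_surjective _ (MulAut.conj P).surjective]; exact le_top
    have h4 := card_pL (F := ZMod l)
    rw [← card_psl, hG] at h4
    have h5 := Nat.eq_of_mul_eq_mul_left (Nat.gcd_pos_of_pos_left _ (by norm_num)) h4
    refine h3 (hH1 r hr (Dvd.dvd.trans ?_ (e0 ▸ card_dvd_of_le hle)))
    rw [h5]; exact (((Dvd.intro_left _ rfl).trans hm).mul_right _).mul_left _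

theorem small_of_epi {π : Set ℕ} (h : ∀ (G : Type) [Group G] [Finite G], IsEPiGroup π G) :
    (∀ p q : ℕ, p.Prime → q.Prime → p ∈ π → q ∈ π → p = q) ∨ ∀ p : ℕ, p.Prime → p ∈ π := by
  by_contra hc
  push Not at hc
  obtain ⟨⟨p, q, hp, hq, h1, h2, pq⟩, r, hr, h3⟩ := hc
  by_cases q2 : q = 2
  · obtain ⟨l, _, hl⟩ := not_epi hq hp hr (fun e => pq (e.trans q2.symm)) pq.symm h2 h1 h3
    exact hl (h _)
  · obtain ⟨l, _, hl⟩ := not_epi hp hq hr q2 pq h1 h2 h3
    exact hl (h _)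

theorem dpi_of_small {π : Set ℕ}
    (h : (∀ p q : ℕ, p.Prime → q.Prime → p ∈ π → q ∈ π → p = q) ∨ ∀ p : ℕ, p.Prime → p ∈ π)
    (G : Type*) [Group G] [Finite G] : IsDPiGroup π G := fun H K hH hK => by
  rcases h with h | h
  · by_cases hp : ∃ p, p.Prime ∧ p ∈ π
    · obtain ⟨p, hp, hπ⟩ := hp
      have : Fact p.Prime := ⟨hp⟩
      have key : ∀ L : Subgroup G, IsPiSubgroup π L ↔ IsPGroup p L := fun L => by
        rw [IsPGroup.iff_card]
        refine ⟨fun hL => ⟨_, Nat.eq_prime_pow_of_unique_prime_dvd Nat.card_pos.ne'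
          fun {d} hd e => h d p hd hp (hL d hd e) hπ⟩, fun ⟨k, hk⟩ q hq e => ?_⟩
        rwa [(Nat.prime_dvd_prime_iff_eq hq hp).1 (hq.dvd_of_dvd_pow (hk ▸ e))]
      let S : Sylow p G := ⟨H, (key H).1 hH.1, fun h1 h2 => (hH.eq_of_le ((key _).2 h1) h2).symm⟩
      let T : Sylow p G := ⟨K, (key K).1 hK.1, fun h1 h2 => (hK.eq_of_le ((key _).2 h1) h2).symm⟩
      obtain ⟨g, hg⟩ := exists_smul_eq G S T
      exact ⟨g, (congrArg Sylow.toSubgroup hg).symm⟩
    · have key : ∀ L : Subgroup G, IsPiSubgroup π L → L = ⊥ := fun L hL => by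
        by_contra h0
        have h1 := Nat.minFac_prime ((one_lt_card_iff_ne_bot L).2 h0).ne'
        exact hp ⟨_, h1, hL _ h1 (Nat.minFac_dvd _)⟩
      exact ⟨1, by rw [key H hH.1, key K hK.1, Subgroup.map_bot]⟩
  · have key : ∀ L : Subgroup G, Maximal (IsPiSubgroup π) L → L = ⊤ := fun L hL =>
      hL.eq_of_le (fun p hp _ => h p hp) le_top
    exact ⟨1, by rw [key H hH, key K hK, map_top_of_surjective _ (MulAut.conj 1).surjective]⟩

end Cfsg.Agent.H3
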