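import Cfsg.Agent.H17.Frob
import Cfsg.Agent.H1.HallTop
import Cfsg.Prelude.Def_OddOrderLocal

/-! The Frobenius–Wielandt theorem, and TI Hall subgroups. -/

set_option autoImplicit false

open H17 Cfsg
open scoped ComplexConjugate Pointwise

namespace H3

variable {G : Type*} [Group G] {N : Subgroup G} {X : Type*} [Group X]

theorem frobExt_coe_comp [Fintype G] {π : N →* X}
    (hW : ∀ x : G, x ∉ N → ∀ h ∈ N, ∀ hm : x * h * x⁻¹ ∈ N, π ⟨_, hm⟩ = 1)
    {φ : X → ℂ} (hφ : IsClassFunction X φ) (h : N) :
    frobExt N (fun n => φ (π n)) h = φ (π h) := by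
  unfold frobExt
  rw [Pi.add_apply, indFun_apply_of_outside_zero ((hφ.comp π).sub (isClassFunction_const _))]
  · simp
  intro x hx
  by_cases hm : x * h * x⁻¹ ∈ N
  · rw [extendByZero_of_mem _ hm]; simp [hW x hx h h.2 hm]
  · exact extendByZero_of_not_mem _ hm

/-- Frobenius–Wielandt: `N ∩ Nˣ ≤ ker π` for all `x ∉ N`. -/
theorem frobenius_wielandt [Finite G] [Finite X] {π : N →* X} (hπ : Function.Surjective π)
    (hW : ∀ x : G, x ∉ N → ∀ h ∈ N, ∀ hm : x * h * x⁻¹ ∈ N, π ⟨_, hm⟩ = 1) :
    ∃ M : Subgroup G, M.Normal ∧ (∀ n : N, (n : G) ∈ M ↔ π n = 1) ∧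
      Nat.card M * Nat.card X = Nat.card G := by
  classical
  have := Fintype.ofFinite G
  have := Fintype.ofFinite N
  have := Fintype.ofFinite X
  have hirr : ∀ φ : X → ℂ, IsIrrCharacter X φ →
      IsIrrCharacter G (frobExt N fun n => φ (π n)) := fun φ hφ => by
    have h1 : (fun h : N => frobExt N (fun n => φ (π n)) h) = fun n => φ (π n) :=
      funext (frobExt_coe_comp hW hφ.isClassFunction)
    have hφ' := hφ.comp_of_surjective π hπ
    refine hφ'.isCharacter.isGen_frobExt.isIrr_of_norm_one ?_ ?_
    · rw [← hφ'.inner_self]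
      conv_lhs => lhs; unfold frobExt
      rw [classInner_add_left, frobenius_reciprocity _ (isClassFunction_frobExt _), h1,
        classInner_sub_left, const_eq_smul_one (φ (π 1)), const_eq_smul_one (φ (π 1)),
        classInner_smul_left, classInner_smul_left, ← classInner_conj_symm (frobExt N _),
        classInner_frobExt_one, classInner_conj_symm]
      ring
    · have := congrFun h1 1
      rw [OneMemClass.coe_one] at this
      obtain ⟨n, hn⟩ := hφ'.isCharacter.exists_nat_one
      rw [this, hn]; simp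
  have hreg := isCharacter_regChar (G := X)
  have hψ : IsCharacter G (frobExt N fun n => regChar X (π n)) := by
    refine hreg.induction_on (P := fun φ => IsCharacter G (frobExt N fun n => φ (π n))) ?_
      (fun ψ hψ => (hirr ψ hψ).isCharacter) ?_
    · exact (frobExt_zero (H := N)).symm ▸ isCharacter_zero
    · intro a b _ _ ha hb
      exact (frobExt_add (H := N) (fun n => a (π n)) fun n => b (π n)).symm ▸ ha.add hb
  set ψ := frobExt N fun n => regChar X (π n) with hψdef
  have hc : ∀ n : N, ψ n = regChar X (π n) := frobExt_coe_comp hW hreg.isClassFunction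
  have hψ1 : ψ 1 = Nat.card X := by
    have := hc 1
    rwa [map_one, regChar_one] at this
  have hval : ∀ g, g ∉ charKer ψ → ψ g = 0 := by
    intro g hg
    rw [hψ.mem_charKer, hψ1] at hg
    by_cases h : ∀ x : G, x⁻¹ * g * x ∉ N
    · exact absurd (by rw [hψdef, frobExt_of_not_mem _ h, map_one, regChar_one]) hg
    push Not at h
    obtain ⟨x, hx⟩ := h
    rw [← hψ.isClassFunction.conj' g x, hc ⟨_, hx⟩] at hg ⊢
    exact regChar_of_ne fun h => hg (by rw [h, regChar_one])
  refine ⟨charKer ψ, hψ.charKer_normal, fun n => ?_, ?_⟩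
  · rw [hψ.mem_charKer, hψ1, hc]
    refine ⟨fun h => ?_, fun h => by rw [h, regChar_one]⟩
    by_contra c
    rw [regChar_of_ne c] at h
    exact card_ne_zero_complex h.symm
  · have h1 := classInner_frobExt_one (G := G) (H := N) fun n => regChar X (π n)
    rw [classInner_comp_of_surjective π hπ (regChar X) (fun _ => 1), classInner_regChar_left,
      map_one, classInner_one_right, ← hψdef, inv_mul_eq_one₀ card_ne_zero_complex] at h1
    have h2 : ∀ g, ψ g = extendByZero (charKer ψ) (fun _ => (Nat.card X : ℂ)) g := by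
      intro g
      by_cases hg : g ∈ charKer ψ
      · rw [extendByZero_of_mem _ hg, apply_eq_of_mem_charKer hg, hψ1]
      · rw [extendByZero_of_not_mem _ hg, hval g hg]
    rw [Finset.sum_congr rfl (fun g _ => h2 g), sum_extendByZero] at h1
    simp only [Finset.sum_const, Finset.card_univ, nsmul_eq_mul,
      ← Nat.card_eq_fintype_card] at h1
    exact_mod_cast h1.symm

open Subgroup in
theorem coprime_index_of_ti [Finite G] {H : Subgroup G} (hTI : IsTISubset (H : Set G))
    (hHall : (Nat.card H).Coprime (H.relIndex (normalizer (H : Set G)))) :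
    (Nat.card H).Coprime H.index := by
  refine Nat.coprime_of_dvd fun p hp h1 h2 => ?_
  have := Fact.mk hp
  obtain ⟨P, hP⟩ := H1.exists_sylowOf p H
  have h0 : P ≠ ⊥ := by
    rintro rfl
    exact hP.2.2 p hp rfl (by rwa [relIndex_bot_left])
  have h3 : IsPiHallOf {p} P (normalizer (H : Set G)) :=
    H1.IsPiHallOf.trans_of_relIndex hP le_normalizer fun q hq hd e =>
      hq.one_lt.ne' (Nat.eq_one_of_dvd_coprimes hHall ((show q = p from e) ▸ h1) hd)
  have h4 : normalizer (P : Set G) ≤ normalizer (H : Set G) := fun g hg => by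
    obtain ⟨⟨x, hx⟩, hx1⟩ := ne_bot_iff_exists_ne_one.1 h0
    by_contra c
    exact hx1 (Subtype.ext (hTI g c x (hP.1 hx) (hP.1 (H1.conj_mem_of_mem_normalizer hg hx))))
  have h5 : IsPiHallOf {p} P ⊤ := H1.sylowOf_of_sylowOf_normalizer le_top
    (by rw [top_inf_eq]; exact H1.IsPiHallOf.of_le h3 le_normalizer h4)
  exact h5.2.2 p hp rfl (h2.trans (by rw [relIndex_top_right]; exact index_dvd_of_le hP.1))

end H3
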