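import Cfsg.Agent.H13.MaxCl3
import Cfsg.Agent.H7.Meta2
import Cfsg.Agent.H6.MaxCl

/-! Automorphisms of order `p` of metacyclic `p`-groups, `p` odd. -/

set_option autoImplicit false

namespace Cfsg.Agent.H3.Mca

open Subgroup H9
open scoped commutatorElement

variable {L : Type*} [Group L] [Finite L] {p : ℕ} [hp : Fact p.Prime]

theorem fac (h : H7.MC p L) (hnc : ∀ C : Subgroup L, IsCyclic C → C.index ≠ p) (hnt : ¬ IsCyclic L) :
    ∃ (a b : L) (i j : ℕ), zpowers a ⊓ zpowers b = ⊥ ∧ orderOf a = p ^ (i + 2) ∧ orderOf b = p ^ (j + 2) ∧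
      Nat.card L = p ^ (i + j + 4) := by
  obtain ⟨a, b, hab, ho⟩ := h.exists_cyclic_factorization
  have key : ∀ x y : L, orderOf x * orderOf y = Nat.card L → ∃ j, orderOf y = p ^ (j + 2) := by
    intro x y hxy
    obtain ⟨k, hk⟩ := (IsPGroup.iff_orderOf.1 h.pg) y
    have h1 : (zpowers x).index = orderOf y := by
      have := (zpowers x).card_mul_index
      rw [Nat.card_zpowers, ← hxy] at this
      exact Nat.eq_of_mul_eq_mul_left (orderOf_pos x) this
    rcases k with _ | _ | k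
    · exfalso
      rw [hk, pow_zero, index_eq_one] at h1
      exact hnt (isCyclic_iff_exists_zpowers_eq_top.2 ⟨x, h1⟩)
    · exact absurd (by rw [h1, hk]; simp) (hnc (zpowers x) inferInstance)
    · exact ⟨k, hk⟩
  obtain ⟨j, hj⟩ := key a b ho
  obtain ⟨i, hi⟩ := key b a (by rw [mul_comm, ho])
  exact ⟨a, b, i, j, hab, hi, hj, by rw [← ho, hi, hj]; ring⟩

theorem card_omega (h : H7.MC p L) (hnt : ¬ IsCyclic L) :
    Nat.card (h.wreg.omega h.pg 1) = p ^ 2 := by
  have h1 := (omega_top_of_isMetacyclic h.odd h.pg h.mc hnt).2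
  have : omegaOne p (⊤ : Subgroup L) = h.wreg.omega h.pg 1 := by
    refine le_antisymm ((closure_le _).2 fun x hx => ?_) fun x hx => Subgroup.subset_closure ⟨trivial, ?_⟩
    · exact WReg.mem_omega.2 (by rw [pow_one]; exact hx.2)
    · simpa using WReg.mem_omega.1 hx
  rwa [this] at h1

theorem comm_pow (h : H7.MC p L) {c : L} (hc : c ∈ ⁅h.wreg.omega h.pg 2, h.wreg.omega h.pg 2⁆) :
    c ^ p = 1 := by
  have : ⁅h.wreg.omega h.pg 2, h.wreg.omega h.pg 2⁆ ≤ h.wreg.omega h.pg 1 := by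
    refine commutator_le.2 fun u hu v hv => ?_
    have h1 := (h.subgroup (h.wreg.omega h.pg 2)).commutator_le
      (commutator_mem_commutator (mem_top (⟨u, hu⟩ : h.wreg.omega h.pg 2)) (mem_top ⟨v, hv⟩))
    obtain ⟨y, hy⟩ := (h.subgroup _).mem_mho.1 h1
    have h2 : ⁅u, v⁆ = (y : L) ^ p ^ 1 := congrArg Subtype.val hy
    rw [WReg.mem_omega, h2, ← pow_mul, ← pow_add]
    exact y.2
  simpa using WReg.mem_omega.1 (this hc)

theorem mul_pow2 (h : H7.MC p L) {u v : L} (hu : u ^ p ^ 2 = 1) (hv : v ^ p ^ 2 = 1) :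
    (u * v) ^ p = u ^ p * v ^ p :=
  h.wreg.mul_pow_of_exponent (K := h.wreg.omega h.pg 2) (fun _ hc => comm_pow h hc) hu hv

theorem comm2 (h : H7.MC p L) {u v : L} (hu : u ^ p ^ 2 = 1) (hv : v ^ p ^ 2 = 1) :
    Commute (u ^ p) v := by
  have := (h.wreg.commute_pow_iff h.pg 1 u v).2 (by
    rw [pow_one]; exact comm_pow h (commutator_mem_commutator hv hu))
  rwa [pow_one] at this

/-- the `p`-th power map on `Ω₂`. -/
def pw (h : H7.MC p L) : h.wreg.omega h.pg 2 →* L where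
  toFun u := (u : L) ^ p
  map_one' := by simp
  map_mul' u v := mul_pow2 h u.2 v.2

theorem exists_root (h : H7.MC p L) (hnc : ∀ C : Subgroup L, IsCyclic C → C.index ≠ p)
    (hnt : ¬ IsCyclic L) {z : L} (hz : z ^ p = 1) : ∃ u : L, u ^ p ^ 2 = 1 ∧ u ^ p = z := by
  obtain ⟨a, b, i, j, hab, hi, hj, -⟩ := fac h hnc hnt
  have hle : (pw h).range ≤ h.wreg.omega h.pg 1 := by
    rintro _ ⟨u, rfl⟩
    show ((u : L) ^ p) ^ p ^ 1 = 1
    rw [← pow_mul, pow_one, ← pow_two]; exact u.2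
  have key : ∀ (x : L) (k : ℕ), orderOf x = p ^ (k + 2) →
      x ^ p ^ (k + 1) ∈ (pw h).range ∧ orderOf (x ^ p ^ (k + 1)) = p := by
    intro x k hk
    refine ⟨⟨⟨x ^ p ^ k, ?_⟩, ?_⟩, ?_⟩
    · rw [WReg.mem_omega, ← pow_mul, ← pow_add, ← hk, pow_orderOf_eq_one]
    · show (x ^ p ^ k) ^ p = _
      rw [← pow_mul, ← pow_succ]
    · rw [orderOf_pow_of_dvd (pow_pos hp.out.pos _).ne' (by rw [hk]; exact pow_dvd_pow _ (by omega)), hk,
        Nat.pow_div (by omega) hp.out.pos]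
      simp
  obtain ⟨ha1, ha2⟩ := key a i hi
  obtain ⟨hb1, hb2⟩ := key b j hj
  have hlt : zpowers (a ^ p ^ (i + 1)) < (pw h).range := by
    refine lt_of_le_of_ne (zpowers_le.2 ha1) fun e => ?_
    have h1 : b ^ p ^ (j + 1) ∈ zpowers a ⊓ zpowers b :=
      ⟨zpowers_le.2 (pow_mem (mem_zpowers a) _) (e ▸ hb1), pow_mem (mem_zpowers b) _⟩
    rw [hab, mem_bot] at h1
    rw [h1, orderOf_one] at hb2
    exact hp.out.one_lt.ne hb2
  have h2 := H13.mul_card_le_of_lt (h.pg.to_subgroup _) hlt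
  rw [Nat.card_zpowers, ha2] at h2
  have h3 : (pw h).range = h.wreg.omega h.pg 1 :=
    eq_of_le_of_card_ge hle (by rw [card_omega h hnt, pow_two]; exact h2)
  have h4 : z ∈ (pw h).range := by rw [h3, WReg.mem_omega, pow_one]; exact hz
  obtain ⟨u, hu⟩ := h4
  exact ⟨u, u.2, hu⟩

theorem fix_pow (h : H7.MC p L) (hnc : ∀ C : Subgroup L, IsCyclic C → C.index ≠ p)
    (hnt : ¬ IsCyclic L) (a : MulAut L) (hap : a ^ p = 1)
    (huni : ∀ z : L, z ^ p = 1 → a (z⁻¹ * a z) = z⁻¹ * a z) {x0 : L} (hx0 : x0 ^ p = 1)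
    (hax : a x0 ≠ x0) {y : L} (hy : a y = y) : y ^ p = 1 := by
  by_contra hne
  have hE : ∀ {z : L}, z ∈ h.wreg.omega h.pg 1 ↔ z ^ p = 1 := by
    intro z; rw [WReg.mem_omega, pow_one]
  have h12 : ∀ {z : L}, z ^ p = 1 → z ^ p ^ 2 = 1 := by
    intro z hz; rw [pow_two, pow_mul, hz, one_pow]
  have hcomm : ∀ {z v : L}, z ^ p = 1 → v ^ p ^ 2 = 1 → Commute z v := by
    intro z v hz hv
    obtain ⟨u, hu, rfl⟩ := exists_root h hnc hnt hz
    exact comm2 h hu hv
  have hd : ∀ {z : L}, z ^ p = 1 → (z⁻¹ * a z) ^ p = 1 := by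
    intro z hz
    exact hE.1 (mul_mem (inv_mem (hE.2 hz)) (hE.2 (by rw [← map_pow, hz, map_one])))
  obtain ⟨k, hk⟩ := (IsPGroup.iff_orderOf.1 h.pg) y
  obtain ⟨k, rfl⟩ : ∃ j, k = j + 2 := by
    rcases k with _ | _ | k
    · exact absurd (orderOf_dvd_iff_pow_eq_one.1 (by rw [hk]; simp)) hne
    · exact absurd (orderOf_dvd_iff_pow_eq_one.1 (by rw [hk]; simp)) hne
    · exact ⟨k, rfl⟩
  set y1 := y ^ p ^ k with hy1
  have hy1a : a y1 = y1 := by rw [hy1, map_pow, hy]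
  have hy12 : y1 ^ p ^ 2 = 1 := by rw [hy1, ← pow_mul, ← pow_add, ← hk, pow_orderOf_eq_one]
  have hw : orderOf (y1 ^ p) = p := by
    rw [hy1, ← pow_mul, ← pow_succ,
      orderOf_pow_of_dvd (pow_pos hp.out.pos _).ne' (by rw [hk]; exact pow_dvd_pow _ (by omega)), hk,
        Nat.pow_div (by omega) hp.out.pos]
    simp
  let F : Subgroup L := (a.toMonoidHom.eqLocus (MonoidHom.id L)) ⊓ h.wreg.omega h.pg 1
  have hF : F < h.wreg.omega h.pg 1 := lt_of_le_of_ne inf_le_right fun e => by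
    have : x0 ∈ F := e ▸ hE.2 hx0
    exact hax this.1
  have hF1 := H13.mul_card_le_of_lt (h.pg.to_subgroup _) hF
  rw [card_omega h hnt, pow_two] at hF1
  have hF2 : zpowers (y1 ^ p) = F := by
    refine eq_of_le_of_card_ge (zpowers_le.2 ⟨?_, hE.2 (by rw [← pow_mul, ← pow_two, hy12])⟩) ?_
    · show a (y1 ^ p) = y1 ^ p
      rw [map_pow, hy1a]
    · rw [Nat.card_zpowers, hw]; exact Nat.le_of_mul_le_mul_left hF1 hp.out.pos
  have hz : x0⁻¹ * a x0 ∈ zpowers (y1 ^ p) := by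
    rw [hF2]; exact ⟨huni x0 hx0, hE.2 (hd hx0)⟩
  obtain ⟨i, hi⟩ := mem_zpowers_iff.1 hz
  obtain ⟨x, hx2, hx⟩ := exists_root h hnc hnt hx0
  set y2 := y1 ^ i with hy2
  have hy2a : a y2 = y2 := by rw [hy2, map_zpow, hy1a]
  have hy2p : y2 ^ p = x0⁻¹ * a x0 := by
    rw [← hi, hy2, ← zpow_natCast, ← zpow_natCast, ← zpow_mul, ← zpow_mul, mul_comm]
  have hy22 : y2 ^ p ^ 2 = 1 := by rw [pow_two, pow_mul, hy2p, hd hx0]
  set φ := (x * y2)⁻¹ * a x with hφ
  have hφp : φ ^ p = 1 := by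
    refine (h.wreg.pow_eq_iff_one h.pg _ _).1 ?_
    rw [mul_pow2 h hx2 hy22, hy2p, hx, ← map_pow, hx]; group
  set δ := φ⁻¹ * a φ with hδ
  have hδp : δ ^ p = 1 := hd hφp
  have hδa : a δ = δ := huni φ hφp
  have e1 : a x = x * y2 * φ := by rw [hφ]; group
  have e2 : a φ = φ * δ := by rw [hδ]; group
  have c1 : Commute φ y2 := hcomm hφp hy22
  have c2 : Commute φ δ := hcomm hφp (h12 hδp)
  have ind : ∀ n : ℕ, (a ^ n) x = x * y2 ^ n * φ ^ n * δ ^ n.choose 2 := by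
    intro n
    induction n with
    | zero => simp
    | succ n ih =>
      rw [pow_succ', MulAut.mul_apply, ih]
      simp only [map_mul, map_pow, e1, e2, hy2a, hδa]
      rw [c2.mul_pow, Nat.choose_succ_succ' n 1, Nat.choose_one_right, pow_add δ, pow_succ' y2, pow_succ' φ]
      simp only [mul_assoc]
      rw [← mul_assoc φ (y2 ^ n), (c1.pow_right n).eq]
      simp only [mul_assoc]
  have h3 := ind p
  obtain ⟨c, hc⟩ : p ∣ p.choose 2 := hp.out.dvd_choose_self (by norm_num)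
    (lt_of_le_of_ne hp.out.two_le (Ne.symm h.odd))
  rw [hap, hφp, hc, pow_mul, hδp, one_pow, hy2p] at h3
  simp only [MulAut.one_apply, mul_one] at h3
  apply hax
  have h4 : x0⁻¹ * a x0 = 1 := by simpa using h3
  exact (inv_mul_eq_one.1 h4).symm

variable {G : Type*} [Group G] [Finite G]

theorem uni (h : H7.MC p L) (hnt : ¬ IsCyclic L) (hG : IsPGroup p G) {f : L →* G}
    (hf : Function.Injective f) [hN : f.range.Normal] (a : MulAut L) {t : G}
    (ht : ∀ x, t * f x * t⁻¹ = f (a x)) (z : L) (hz : z ^ p = 1) : a (z⁻¹ * a z) = z⁻¹ * a z := by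
  haveI := hG.isNilpotent
  have hE : ∀ {z : L}, z ∈ h.wreg.omega h.pg 1 ↔ z ^ p = 1 := by
    intro z; rw [WReg.mem_omega, pow_one]
  set E := (h.wreg.omega h.pg 1).map f with hEd
  haveI : E.Normal := ⟨by
    rintro _ ⟨w, hw, rfl⟩ g
    obtain ⟨w', hw'⟩ := hN.conj_mem _ ⟨w, rfl⟩ g
    refine ⟨w', hE.2 (hf ?_), hw'⟩
    rw [map_pow, hw', conj_pow, ← map_pow, hE.1 hw]; simp⟩
  have hc : Nat.card E = p ^ 2 := by
    rw [hEd, card_map_of_injective hf, card_omega h hnt]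
  have h1 : ⁅E, (⊤ : Subgroup G)⁆ < E := H9.commutator_lt (by rw [normalizer_eq_top]) fun e => by
    rw [e, card_bot] at hc
    exact (Nat.one_lt_pow (by norm_num) hp.out.one_lt).ne hc
  have h2 := H13.mul_card_le_of_lt (hG.to_subgroup _) h1
  rw [hc, pow_two] at h2
  have h3 := le_center_of_card_le_prime hG (Nat.le_of_mul_le_mul_left h2 hp.out.pos)
  have h4 : f (z⁻¹ * a z) ∈ ⁅E, (⊤ : Subgroup G)⁆ := by
    have := commutator_mem_commutator (inv_mem (mem_map_of_mem f (hE.2 hz)) : (f z)⁻¹ ∈ E) (mem_top t)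
    convert this using 1
    rw [map_mul, map_inv, ← ht, commutatorElement_def]; group
  apply hf
  rw [← ht, mem_center_iff.1 (h3 h4) t]; group

theorem card_cent (h : H7.MC p L) (hnc : ∀ C : Subgroup L, IsCyclic C → C.index ≠ p)
    (hnt : ¬ IsCyclic L) (hG : IsPGroup p G) {f : L →* G}
    (hf : Function.Injective f) [hN : f.range.Normal] (hi : f.range.index = p) (a : MulAut L)
    (hap : a ^ p = 1) {t : G} (ht : ∀ x, t * f x * t⁻¹ = f (a x)) {x0 : L} (hx0 : x0 ^ p = 1)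
    (hax : a x0 ≠ x0) : Nat.card (centralizer ({t} : Set G)) ≤ p ^ 2 := by
  have hE : ∀ {z : L}, z ∈ h.wreg.omega h.pg 1 ↔ z ^ p = 1 := by
    intro z; rw [WReg.mem_omega, pow_one]
  let F : Subgroup L := a.toMonoidHom.eqLocus (MonoidHom.id L)
  have hF : F < h.wreg.omega h.pg 1 := by
    refine lt_of_le_of_ne (fun y hy => hE.2 (fix_pow h hnc hnt a hap (uni h hnt hG hf a ht) hx0 hax hy)) fun e => ?_
    have : x0 ∈ F := e ▸ hE.2 hx0
    exact hax this
  have hF1 := H13.mul_card_le_of_lt (h.pg.to_subgroup _) hF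
  rw [card_omega h hnt, pow_two] at hF1
  have hF2 := Nat.le_of_mul_le_mul_left hF1 hp.out.pos
  set C := centralizer ({t} : Set G) with hC
  have h1 : f.range ⊓ C ≤ F.map f := by
    rintro _ ⟨⟨y, rfl⟩, hy⟩
    refine ⟨y, hf ?_, rfl⟩
    show f (a y) = f y
    rw [← ht, mem_centralizer_singleton_iff.1 hy |>.symm]; group
  have h2 : Nat.card (f.range ⊓ C : Subgroup G) ≤ p :=
    (card_le_of_le h1).trans (by rw [card_map_of_injective hf]; exact hF2)
  have h3 : f.range.relIndex C ≤ p := by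
    rw [← hi]
    exact Nat.le_of_dvd (by rw [hi]; exact hp.out.pos) (relIndex_dvd_index_of_normal _ _)
  have h4 := (f.range.subgroupOf C).card_mul_index
  have h5 : Nat.card (f.range.subgroupOf C) = Nat.card (f.range ⊓ C : Subgroup G) := by
    rw [← inf_subgroupOf_right]
    exact Nat.card_congr (subgroupOfEquivOfLe inf_le_right).toEquiv
  rw [← h4, h5, pow_two]
  exact Nat.mul_le_mul h2 h3

open H13 in
theorem eq_three (h : H7.MC p L) (hnt : ¬ IsCyclic L) {m : ℕ} (hm : Nat.card L = p ^ (m + 4))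
    {f : L →* G} (hf : Function.Injective f) (hM : H13.MC p G)
    (hc : ∀ i, 1 ≤ i → Nat.card (lc G i) = p ^ (m + 4 - i)) : p = 3 := by
  by_contra h3
  have h5 : 5 ≤ p := by
    have h2 := hp.out.two_le
    have h4 : p ≠ 4 := by rintro rfl; exact absurd hp.out (by norm_num)
    have := h.odd
    omega
  haveI := hM.pg.isNilpotent
  have hQ : H13.MC p (G ⧸ lc G 4) := hM.of_surjective (QuotientGroup.mk'_surjective _)
  have hQ4 : lc (G ⧸ lc G 4) 4 = ⊥ := by
    rw [← lc_map (QuotientGroup.mk'_surjective (lc G 4)) 4, QuotientGroup.map_mk'_self]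
  have hW : WReg p (G ⧸ lc G 4) :=
    wreg_of_class_lt hQ.pg (eq_bot_iff.2 (hQ4 ▸ lc_anti (G := G ⧸ lc G 4) (by omega)))
  have hne : lc G 3 ≠ ⊥ := fun e => by
    have := hc 3 (by norm_num)
    rw [e, card_bot] at this
    exact (Nat.one_lt_pow (by omega) hp.out.one_lt).ne this
  have hQ3 : lc (G ⧸ lc G 4) 3 ≠ ⊥ := fun e => by
    refine (lc_succ_lt hne).2 fun x hx => ?_
    have : (x : G ⧸ lc G 4) ∈ lc (G ⧸ lc G 4) 3 := (mk_mem_lc (lc_anti (by norm_num))).2 hx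
    rw [e, mem_bot, QuotientGroup.eq_one_iff] at this
    exact this
  have key : ∀ x : G, x ^ p ∈ lc G 3 := by
    intro x
    rw [← mk_mem_lc (N := lc G 4) (lc_anti (by norm_num))]
    refine hQ.center_le (i := 2) hQ3 (mem_center_iff.2 fun g => ?_)
    obtain ⟨g, rfl⟩ := QuotientGroup.mk_surjective g
    have := (hW.commute_pow_iff hQ.pg 1 (x : G ⧸ lc G 4) g).2 (by
      rw [pow_one]
      have h1 : ⁅g, x⁆ ^ p ∈ lc G 4 :=
        lc_anti (by omega) (hM.pow_mem le_rfl (comm_mem_lc' (i := 0) g (mem_top x)))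
      exact (QuotientGroup.eq_one_iff _).2 h1)
    rw [pow_one] at this
    exact this.eq.symm
  have h1 : (powerClosure p 1 (⊤ : Subgroup L)).map f ≤ lc G 3 := by
    rw [map_le_iff_le_comap, powerClosure_le_iff]
    intro x _
    rw [mem_comap, pow_one, map_pow]; exact key _
  have h2 := Subgroup.card_le_of_le h1
  rw [card_map_of_injective hf, hc 3 (by norm_num)] at h2
  have h6 := h.wreg.card_omega_mul_card_powerClosure h.pg 1
  rw [card_omega h hnt, hm] at h6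
  have h7 := Nat.mul_le_mul_left (p ^ 2) h2
  rw [h6, ← pow_add, Nat.pow_le_pow_iff_right hp.out.one_lt] at h7
  omega

open H13 in
theorem moves [Fact (Nat.Prime 3)] {m : ℕ} {f : L →* G} [hN : f.range.Normal]
    (hi : f.range.index = 3) (a : MulAut L) {t : G} (ht : ∀ x, t * f x * t⁻¹ = f (a x))
    (hf : Function.Injective f) (ht3 : t ^ 3 = 1) (htN : t ∉ f.range) (hM : H13.MC 3 G)
    (hc : ∀ i, 1 ≤ i → Nat.card (lc G i) = 3 ^ (m + 4 - i)) : ∃ x : L, x ^ 3 = 1 ∧ a x ≠ x := by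
  by_contra hcon
  push Not at hcon
  have hne : ∀ i, 1 ≤ i → i ≤ m + 3 → lc G i ≠ ⊥ := fun i h1 h2 e => by
    have := hc i h1
    rw [e, card_bot] at this
    exact (Nat.one_lt_pow (by omega) (by norm_num)).ne this
  have hbot : lc G (m + 4) = ⊥ := by
    rw [← card_eq_one, hc _ (by omega)]; simp
  have h1 : lc G 1 ≤ f.range := by
    haveI : IsCyclic (G ⧸ f.range) := isCyclic_of_prime_card (p := 3) hi
    refine commutator_le.2 fun x _ y _ => ?_
    rw [← QuotientGroup.eq_one_iff, commutatorElement_def]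
    simp only [QuotientGroup.mk_mul, QuotientGroup.mk_inv]
    letI := IsCyclic.commGroup (α := G ⧸ f.range)
    rw [mul_inv_cancel_comm, mul_inv_cancel]
  have h2 : t ∈ Cs G (m + 2) := by
    intro y hy
    obtain ⟨x, rfl⟩ := h1 (lc_anti (by omega) hy)
    have h3 := hM.pow_mem (i := m + 2) (by omega) hy
    rw [show m + 2 + (3 - 1) = m + 4 by omega, hbot, mem_bot, ← map_pow] at h3
    have h4 : x ^ 3 = 1 := hf (by rw [h3, map_one])
    rw [commutatorElement_def, ht, hcon x h4, mul_inv_cancel]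
    exact one_mem _
  rw [← hM.cs_eq_of_le le_rfl (hne _ (by omega) (by omega)) (hM.cs_three (m + 2) (by omega))] at h2
  refine (hM.pow_cs (hne _ (by omega) (by omega)) hM.cs_three h2 (fun h => htN (h1 h)) (hne _ (by omega) (by omega))).2 ?_
  rw [ht3]; exact one_mem _

end Cfsg.Agent.H3.Mca
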