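import Cfsg.Agent.H25.Bochert

/-! Babai's lower bound for the minimal degree of a primitive permutation group. -/

set_option autoImplicit false

namespace Cfsg.Agent.H3.MinDeg

open MulAction Finset

variable {G Ω : Type*} [Group G] [MulAction G Ω]

theorem closed_univ (hp : IsPreprimitive G Ω) {R : Ω → Ω → Prop}
    (hR : ∀ (g : G) x y, R x y → R (g • x) (g • y)) (hs : ∀ x y, R x y → R y x) {a b : Ω}
    (hab : a ≠ b) (h : R a b) {O : Ω → Prop} {x : Ω} (hx : O x)
    (hO : ∀ u v, O u → R u v → O v) (y : Ω) : O y := by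
  have hsym : ∀ u v, Relation.ReflTransGen R u v → Relation.ReflTransGen R v u := fun u v h => by
    induction h with
    | refl => exact .refl
    | tail _ h2 ih => exact .head (hs _ _ h2) ih
  have hinv : ∀ (g : G) u v, Relation.ReflTransGen R u v →
      Relation.ReflTransGen R (g • u) (g • v) := fun g u v h => by
    induction h with
    | refl => exact .refl
    | tail _ h2 ih => exact ih.tail (hR g _ _ h2)
  have hB : IsBlock G {y | Relation.ReflTransGen R x y} := by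
    rw [isBlock_iff_smul_eq_of_mem]
    intro g c hc hgc
    ext y
    rw [Set.mem_smul_set_iff_inv_smul_mem]
    constructor
    · intro hy
      have := hinv g _ _ ((hsym _ _ hc).trans hy)
      rw [smul_inv_smul] at this
      exact Relation.ReflTransGen.trans hgc this
    · intro hy
      have := hinv g⁻¹ _ _ ((hsym _ _ hgc).trans hy)
      rw [inv_smul_smul] at this
      exact Relation.ReflTransGen.trans hc this
  rcases hp.isTrivialBlock_of_isBlock hB with h1 | h1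
  · obtain ⟨g, rfl⟩ := exists_smul_eq G a x
    exact absurd (MulAction.injective g (h1 Relation.ReflTransGen.refl
      (Relation.ReflTransGen.single (hR g _ _ h)))) hab
  · have h2 : Relation.ReflTransGen R x y := Set.eq_univ_iff_forall.1 h1 y
    induction h2 with
    | refl => exact hx
    | tail _ h2 ih => exact hO _ _ ih h2

/-- The ball of radius two. -/
def B2 (R : Ω → Ω → Prop) (x y : Ω) : Prop := ∃ v, (x = v ∨ R x v) ∧ (v = y ∨ R v y)

theorem ball (hp : IsPreprimitive G Ω) {R : Ω → Ω → Prop}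
    (hR : ∀ (g : G) x y, R x y → R (g • x) (g • y)) (hs : ∀ x y, R x y → R y x) {a b : Ω}
    (hab : a ≠ b) (h : R a b) (x : Ω) :
    (∀ y, B2 R x y) ∨ ∃ w y, B2 R x w ∧ R w y ∧ ¬ B2 R x y := by
  by_contra hn
  push Not at hn
  obtain ⟨⟨y, hy⟩, h2⟩ := hn
  exact hy (closed_univ hp hR hs hab h ⟨x, Or.inl rfl, Or.inl rfl⟩ (fun u v => h2 u v) y)

variable [Fintype Ω]

theorem card_smul (p q : Ω → Prop) [DecidablePred p] [DecidablePred q] (g : G) (h : ∀ x, p x ↔ q (g • x)) :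
    #{x | p x} = #{x | q x} :=
  Finset.card_equiv (MulAction.toPerm g) fun x => by simp [h]

open Classical in
variable (G) in
/-- The points distinguishing `x` and `y`. -/
noncomputable def E (x y : Ω) : Finset Ω := {z | ¬ ∃ h : G, h • x = y ∧ h • z = z}

theorem mem_E {x y z : Ω} : z ∈ E G x y ↔ ¬ ∃ h : G, h • x = y ∧ h • z = z := by simp [E]

theorem E_self (x : Ω) : #(E G x x) = 0 := by
  rw [card_eq_zero, eq_empty_iff_forall_notMem]
  exact fun z hz => mem_E.1 hz ⟨1, by simp, by simp⟩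

theorem E_symm (x y : Ω) : E G x y = E G y x := by
  ext z
  simp only [mem_E]
  exact not_congr ⟨fun ⟨h, h1, h2⟩ => ⟨h⁻¹, inv_smul_eq_iff.2 h1.symm, inv_smul_eq_iff.2 h2.symm⟩,
    fun ⟨h, h1, h2⟩ => ⟨h⁻¹, inv_smul_eq_iff.2 h1.symm, inv_smul_eq_iff.2 h2.symm⟩⟩

theorem E_tri (x w y : Ω) : #(E G x y) ≤ #(E G x w) + #(E G w y) := by
  classical
  refine le_trans (card_le_card fun z hz => ?_) (card_union_le _ _)
  rw [mem_union, mem_E, mem_E, ← not_and_or]
  rintro ⟨⟨h, h1, h2⟩, k, k1, k2⟩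
  exact mem_E.1 hz ⟨k * h, by rw [mul_smul, h1, k1], by rw [mul_smul, h2, k2]⟩

theorem E_smul (g : G) (x y : Ω) : #(E G x y) = #(E G (g • x) (g • y)) := by
  refine Finset.card_equiv (MulAction.toPerm g) fun z => ?_
  rw [mem_E, mem_E, toPerm_apply]
  refine not_congr ⟨fun ⟨h, h1, h2⟩ => ⟨g * h * g⁻¹, ?_, ?_⟩,
    fun ⟨h, h1, h2⟩ => ⟨g⁻¹ * h * g, ?_, ?_⟩⟩ <;> simp [mul_smul, h1, h2]

open Classical in
theorem card_paired [IsPretransitive G Ω] (x z : Ω) :
    #{y | ∃ h : G, h • x = y ∧ h • z = z} = #{y | ∃ h : G, h • z = y ∧ h • x = z} := by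
  let c : Ω → Ω → Prop := fun u v => ∃ h : G, h • z = u ∧ h • x = v
  have h1 : ∀ u, #{v | c u v} = #{y | ∃ h : G, h • x = y ∧ h • z = z} := fun u => by
    obtain ⟨g, rfl⟩ := exists_smul_eq G z u
    exact (card_smul _ _ g fun y => ⟨fun ⟨h, h1, h2⟩ => ⟨g * h, by simp [mul_smul, h2],
      by simp [mul_smul, h1]⟩, fun ⟨h, h1, h2⟩ => ⟨g⁻¹ * h, by simp [mul_smul, h2],
      by simp [mul_smul, h1]⟩⟩).symm
  have h2 : ∀ v, #{u | c u v} = #{y | ∃ h : G, h • z = y ∧ h • x = z} := fun v => by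
    obtain ⟨g, rfl⟩ := exists_smul_eq G z v
    exact (card_smul _ _ g fun y => ⟨fun ⟨h, h1, h2⟩ => ⟨g * h, by simp [mul_smul, h1],
      by simp [mul_smul, h2]⟩, fun ⟨h, h1, h2⟩ => ⟨g⁻¹ * h, by simp [mul_smul, h1],
      by simp [mul_smul, h2]⟩⟩).symm
  have h3 := Finset.sum_card_bipartiteAbove_eq_sum_card_bipartiteBelow (s := univ) (t := univ) c
  simp only [bipartiteAbove, bipartiteBelow, h1, h2, sum_const, card_univ, smul_eq_mul] at h3
  exact Nat.eq_of_mul_eq_mul_left (Fintype.card_pos_iff.2 ⟨x⟩) h3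

theorem card_B2 {R : Ω → Ω → Prop} [DecidableRel R] {x : Ω} {k : ℕ} (hk : ∀ u, #{v | R u v} ≤ k)
    (h : ∀ y, B2 R x y) : Fintype.card Ω ≤ 1 + k + k * k := by
  classical
  have h1 : (univ : Finset Ω) ⊆ ({x} ∪ ({v | R x v} : Finset Ω)) ∪
      ({v | R x v} : Finset Ω).biUnion fun u => {v | R u v} := fun y _ => by
    obtain ⟨v, rfl | h1, rfl | h2⟩ := h y
    · simp
    · simp [h2]
    · simp [h1]
    · exact mem_union_right _ (mem_biUnion.2 ⟨v, by simp [h1], by simp [h2]⟩)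
  refine (card_le_card h1).trans ((card_union_le _ _).trans (Nat.add_le_add
    ((card_union_le _ _).trans (Nat.add_le_add (by simp) (hk x))) (card_biUnion_le.trans ?_)))
  exact (sum_le_card_nsmul _ _ k fun u _ => hk u).trans (Nat.mul_le_mul_right k (hk x))

open Classical in
theorem suborbit (hp : IsPreprimitive G Ω)
    (h2 : ¬ ∀ u v u' v' : Ω, u ≠ v → u' ≠ v' → ∃ h : G, h • u = u' ∧ h • v = v') (x z : Ω) :
    Fintype.card Ω ≤ (#{y | ¬ ∃ h : G, h • x = y ∧ h • z = z} + 1) ^ 2 := by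
  have hn := card_filter_add_card_filter_not (s := univ) fun y => ∃ h : G, h • x = y ∧ h • z = z
  rw [card_univ] at hn
  set k := #{y | ¬ ∃ h : G, h • x = y ∧ h • z = z} with hk
  by_cases hxz : x = z
  · subst hxz
    have : #{y | ∃ h : G, h • x = y ∧ h • x = x} ≤ 1 :=
      card_le_one.2 fun a ha b hb => by
        obtain ⟨g, g1, g2⟩ := (mem_filter.1 ha).2
        obtain ⟨h, h1, h2⟩ := (mem_filter.1 hb).2
        rw [← g1, ← h1, g2, h2]
    nlinarith
  by_cases hs : ∃ h : G, h • z = x ∧ h • x = z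
  · obtain ⟨s, s1, s2⟩ := hs
    let Q : Ω → Ω → Prop := fun u v => u ≠ v ∧ ¬ ∃ h : G, h • z = u ∧ h • x = v
    have hQ : ∀ (g : G) u v, Q u v → Q (g • u) (g • v) := fun g u v ⟨h1, h3⟩ =>
      ⟨fun h => h1 (MulAction.injective g h), fun ⟨h, e1, e2⟩ =>
        h3 ⟨g⁻¹ * h, by simp [mul_smul, e1], by simp [mul_smul, e2]⟩⟩
    have hQs : ∀ u v, Q u v → Q v u := fun u v ⟨h1, h3⟩ =>
      ⟨h1.symm, fun ⟨h, e1, e2⟩ => h3 ⟨h * s, by rw [mul_smul, s1, e2], by rw [mul_smul, s2, e1]⟩⟩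
    obtain ⟨a, b, hab⟩ : ∃ a b, Q a b := by
      by_contra hall
      refine h2 fun u v u' v' h h' => ?_
      have e : ∀ u v, u ≠ v → ∃ h : G, h • z = u ∧ h • x = v := fun u v h => by
        by_contra h'
        exact hall ⟨u, v, h, h'⟩
      obtain ⟨g, g1, g2⟩ := e u v h
      obtain ⟨g', g1', g2'⟩ := e u' v' h'
      exact ⟨g' * g⁻¹, by rw [← g1, ← g1']; simp [mul_smul], by rw [← g2, ← g2']; simp [mul_smul]⟩
    rcases ball hp hQ hQs hab.1 hab z with h | ⟨w, y, h1, h3, h4⟩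
    · have := card_B2 (k := k) (fun u => by
        obtain ⟨g, rfl⟩ := exists_smul_eq G z u
        rw [← card_smul (Q z) (Q (g • z)) g fun y => ⟨hQ g _ _, fun h => by
          simpa using hQ g⁻¹ _ _ h⟩]
        exact card_le_card fun y hy => mem_filter.2 ⟨mem_univ _, fun ⟨h, e1, e2⟩ =>
          (mem_filter.1 hy).2.2 ⟨h, e2, e1⟩⟩) h
      nlinarith
    · exfalso
      have e : ∀ v, ¬ (z = v ∨ Q z v) → ∃ h : G, h • z = z ∧ h • x = v := fun v hv => by
        by_contra h'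
        exact hv (by_contra fun h => h (Or.inr ⟨fun h1 => h (Or.inl h1), h'⟩))
      obtain ⟨g, g1, g2⟩ := e w fun h => h4 ⟨w, h, Or.inr h3⟩
      obtain ⟨g', g1', g2'⟩ := e y fun h => h4 ⟨y, h, Or.inl rfl⟩
      obtain ⟨v, v1, v2⟩ := h1
      have f1 : (g' * g⁻¹) • z = z := by rw [mul_smul, inv_smul_eq_iff.2 g1.symm, g1']
      have f2 : (g' * g⁻¹) • w = y := by rw [mul_smul, inv_smul_eq_iff.2 g2.symm, g2']
      refine h4 ⟨(g' * g⁻¹) • v, ?_, ?_⟩
      · rw [← f1]; exact v1.imp (congrArg _) (hQ _ _ _)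
      · rw [← f2]; exact v2.imp (congrArg _) (hQ _ _ _)
  · have h3 : #{y | ∃ h : G, h • z = y ∧ h • x = z} ≤ k := card_le_card fun y hy => by
      obtain ⟨g, g1, g2⟩ := (mem_filter.1 hy).2
      refine mem_filter.2 ⟨mem_univ _, fun ⟨h, e1, e2⟩ => hs ⟨h⁻¹ * g, ?_, ?_⟩⟩
      · rw [mul_smul, g1, inv_smul_eq_iff, e1]
      · rw [mul_smul, g2, inv_smul_eq_iff, e2]
    rw [← card_paired] at h3
    nlinarith

theorem uni (hp : IsPreprimitive G Ω)
    (h2 : ¬ ∀ u v u' v' : Ω, u ≠ v → u' ≠ v' → ∃ h : G, h • u = u' ∧ h • v = v') {a b : Ω}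
    (hab : a ≠ b) : Fintype.card Ω ≤ (2 * #(E G a b) + 1) ^ 2 := by
  classical
  set D := #(E G a b) with hD
  let R : Ω → Ω → Prop := fun x y => ∃ h : G, (h • a = x ∧ h • b = y) ∨ (h • a = y ∧ h • b = x)
  have hR : ∀ (g : G) x y, R x y → R (g • x) (g • y) := fun g x y ⟨h, e⟩ =>
    ⟨g * h, by simpa [mul_smul] using e⟩
  have hs : ∀ x y, R x y → R y x := fun x y ⟨h, e⟩ => ⟨h, e.symm⟩
  have hE : ∀ x y, (x = y ∨ R x y) → #(E G x y) ≤ D := by
    rintro x y (rfl | ⟨h, ⟨rfl, rfl⟩ | ⟨rfl, rfl⟩⟩)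
    · rw [E_self]; exact Nat.zero_le _
    · exact (E_smul h a b).ge
    · rw [E_symm]; exact (E_smul h a b).ge
  have hE2 : ∀ x y, B2 R x y → #(E G x y) ≤ 2 * D := fun x y ⟨v, h1, h3⟩ => by
    have := E_tri (G := G) x v y
    have := hE _ _ h1
    have := hE _ _ h3
    omega
  have hab' : R a b := ⟨1, Or.inl (by simp)⟩
  rcases ball hp hR hs hab hab' a with h | ⟨w, y, h1, h3, h4⟩
  · by_contra hlt
    have h5 : ∀ z, 2 * D + 1 ≤ #{y | z ∈ E G a y} := fun z => by
      have h6 := suborbit hp h2 a z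
      have h8 : #{y | z ∈ E G a y} = #{y | ¬ ∃ h : G, h • a = y ∧ h • z = z} := by
        congr 1; ext y; simp [mem_E]
      by_contra h7
      exact hlt (h6.trans (Nat.pow_le_pow_left (by omega) 2))
    have h6 := Finset.sum_card_bipartiteAbove_eq_sum_card_bipartiteBelow (s := univ) (t := univ)
      fun z y => z ∈ E G a y
    have h7 := card_nsmul_le_sum univ _ _ fun z _ => h5 z
    have h8 := sum_le_card_nsmul univ (fun y => #(E G a y)) _ fun y _ => hE2 a y (h y)
    simp only [bipartiteAbove, bipartiteBelow, filter_univ_mem] at h6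
    rw [h6] at h7
    have h9 := h7.trans h8
    have : 0 < #(univ : Finset Ω) := card_pos.2 ⟨a, mem_univ _⟩
    simp only [smul_eq_mul] at h9
    nlinarith
  · have h5 : #{v | R a v} ≤ 3 * D := by
      have h6 : ({v | R a v} : Finset Ω) ⊆ E G a y := fun v hv => mem_E.2 fun ⟨g, g1, g2⟩ => by
        have h7 := (mem_filter.1 hv).2
        exact h4 ⟨v, Or.inr h7, Or.inr (hs _ _ (g1 ▸ g2 ▸ hR g _ _ h7))⟩
      have := card_le_card h6
      have := E_tri (G := G) a w y
      have := hE2 _ _ h1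
      have := hE _ _ (Or.inr h3)
      omega
    have h6 : (univ : Finset Ω) ⊆ {a} ∪ ({v | R a v} : Finset Ω).biUnion (E G a) := fun z _ => by
      by_contra hz
      simp only [mem_union, mem_singleton, mem_biUnion, mem_filter, mem_univ, true_and, mem_E,
        not_or, not_exists, not_and] at hz
      obtain ⟨g, g1, g2⟩ := closed_univ hp hR hs hab hab'
        (O := fun u => ∃ h : G, h • a = u ∧ h • z = z) (x := a) ⟨1, by simp, by simp⟩ (by
          rintro _ v ⟨g, rfl, g2⟩ hv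
          have h7 := hR g⁻¹ _ _ hv
          rw [inv_smul_smul] at h7
          by_contra h8
          refine hz.2 _ h7 fun k k1 k2 => h8 ⟨g * k, ?_, ?_⟩
          · rw [mul_smul, k1, smul_inv_smul]
          · rw [mul_smul, k2, g2]) z
      exact hz.1 (MulAction.injective g (g2.trans g1.symm))
    have h7 := (card_le_card h6).trans ((card_union_le _ _).trans (Nat.add_le_add_left
      (card_biUnion_le.trans (sum_le_card_nsmul _ _ D fun v hv =>
        hE _ _ (Or.inr (mem_filter.1 hv).2))) _))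
    rw [card_univ, card_singleton, smul_eq_mul] at h7
    nlinarith

theorem two [DecidableEq Ω] [Finite G] (hp : IsPreprimitive G Ω)
    (hA : ¬ alternatingGroup Ω ≤ (toPermHom G Ω).range)
    (h2 : ∀ u v u' v' : Ω, u ≠ v → u' ≠ v' → ∃ h : G, h • u = u' ∧ h • v = v') {g : G} {a : Ω}
    (ha : g • a ≠ a) : Fintype.card Ω ≤ #{z : Ω | g • z ≠ z} ^ 2 + 1 := by
  classical
  have := Fintype.ofFinite G
  set T : Finset Ω := ({z | g • z ≠ z} : Finset Ω).erase a with hT
  set A : Finset G := {h | h • a = a} with hAd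
  have h1 : A ⊆ (T ×ˢ T).biUnion fun p => {h ∈ A | h • p.1 = p.2} := fun h hh => by
    by_contra hn
    have hh' : h • a = a := (mem_filter.1 hh).2
    refine hA (Equiv.Perm.alternatingGroup_le_of_isPreprimitive_of_isThreeCycle_mem
      (H25.prim_range hp) (H25.isThreeCycle_commutator (x := toPermHom G Ω g)
        (y := toPermHom G Ω (h * g * h⁻¹)) (a := a) ha ?_ fun z hz => ?_) ?_)
    · change (h * g * h⁻¹) • a ≠ a
      rw [mul_smul, mul_smul, inv_smul_eq_iff.2 hh'.symm]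
      exact fun e => ha (MulAction.injective h (e.trans hh'.symm))
    · by_contra hc
      push Not at hc
      refine hn (mem_biUnion.2 ⟨(h⁻¹ • z, z), mem_product.2 ⟨?_, ?_⟩, by simp [hh]⟩)
      · refine mem_erase.2 ⟨fun e => hz (by rw [← hh', ← e, smul_inv_smul]), ?_⟩
        refine mem_filter.2 ⟨mem_univ _, fun e => hc.2 ?_⟩
        change (h * g * h⁻¹) • z = z
        rw [mul_smul, mul_smul, e, smul_inv_smul]
      · exact mem_erase.2 ⟨hz, mem_filter.2 ⟨mem_univ _, hc.1⟩⟩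
    · exact mul_mem (mul_mem (mul_mem ⟨_, rfl⟩ ⟨_, rfl⟩) (inv_mem ⟨_, rfl⟩)) (inv_mem ⟨_, rfl⟩)
  have h3 : ∀ s t, s ≠ a → t ≠ a → (Fintype.card Ω - 1) * #{h ∈ A | h • s = t} = #A := by
    intro s t hs ht
    rw [card_eq_sum_card_fiberwise (s := A) (t := univ.erase a) (f := (· • s)) fun h hh => by
      refine mem_erase.2 ⟨fun e => hs (MulAction.injective h ?_), mem_univ _⟩
      exact e.trans (mem_filter.1 hh).2.symm, sum_const_nat (m := #{h ∈ A | h • s = t}),
      card_erase_of_mem (mem_univ _), card_univ]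
    intro t' ht'
    obtain ⟨k, k1, k2⟩ := h2 a t' a t (mem_erase.1 ht').1.symm ht.symm
    refine card_equiv (Equiv.mulLeft k) fun h => ?_
    simp only [hAd, mem_filter, mem_univ, true_and, Equiv.coe_mulLeft, mul_smul]
    rw [← k2, smul_left_cancel_iff]
    conv_rhs => arg 1; rhs; rw [← k1]
    rw [smul_left_cancel_iff]
  have h4 := Nat.mul_le_mul_left (Fintype.card Ω - 1) ((card_le_card h1).trans card_biUnion_le)
  rw [mul_sum, sum_const_nat (m := #A) fun p hp => h3 _ _ (mem_erase.1 (mem_product.1 hp).1).1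
    (mem_erase.1 (mem_product.1 hp).2).1, card_product] at h4
  have h5 : Fintype.card Ω - 1 ≤ #T * #T :=
    Nat.le_of_mul_le_mul_right h4 (card_pos.2 ⟨1, by simp [hAd]⟩)
  have h6 : #T ≤ #{z : Ω | g • z ≠ z} := card_erase_le
  have := Nat.mul_le_mul h6 h6
  rw [pow_two]
  omega

theorem main [DecidableEq Ω] [Finite G] (hp : IsPreprimitive G Ω)
    (hA : ¬ alternatingGroup Ω ≤ (toPermHom G Ω).range) {g : G} {a : Ω} (ha : g • a ≠ a) :
    Fintype.card Ω ≤ (2 * #{z : Ω | g • z ≠ z} + 1) ^ 2 := by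
  by_cases h2 : ∀ u v u' v' : Ω, u ≠ v → u' ≠ v' → ∃ h : G, h • u = u' ∧ h • v = v'
  · have := two hp hA h2 ha
    have h3 : 0 < #{z : Ω | g • z ≠ z} := card_pos.2 ⟨a, mem_filter.2 ⟨mem_univ _, ha⟩⟩
    nlinarith
  · refine (uni hp h2 ha.symm).trans (Nat.pow_le_pow_left ?_ 2)
    have : E G a (g • a) ⊆ ({z | g • z ≠ z} : Finset Ω) := fun z hz =>
      mem_filter.2 ⟨mem_univ _, fun h => mem_E.1 hz ⟨g, rfl, h⟩⟩
    have := card_le_card this
    omega

end Cfsg.Agent.H3.MinDeg
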