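import Mathlib
import Cfsg.Agent.H12.SR

/-! Automorphisms of elementary abelian groups of order at most 16. -/

set_option autoImplicit false
set_option linter.unusedSectionVars false
open Subgroup

namespace Cfsg.Agent.H3.R4

variable {V : Type*} [CommGroup V] [Finite V]

/-- fixed points of an automorphism -/
def Fx {V : Type*} [Group V] (α : MulAut V) : Subgroup V where
  carrier := {v | α v = v}
  one_mem' := map_one α
  mul_mem' := fun {a b} ha hb => by
    change α (a * b) = a * b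
    rw [map_mul, show α a = a from ha, show α b = b from hb]
  inv_mem' := fun {a} ha => by
    change α a⁻¹ = a⁻¹
    rw [map_inv, show α a = a from ha]

theorem mem_Fx {V : Type*} [Group V] {α : MulAut V} {v : V} : v ∈ Fx α ↔ α v = v := Iff.rfl

theorem Fx_eq_top {V : Type*} [Group V] {α : MulAut V} (h : Fx α = ⊤) : α = 1 := by
  ext v
  exact (h.ge (mem_top v) : v ∈ Fx α)

theorem card_Fx_conj {V : Type*} [Group V] (g a : MulAut V) :
    Nat.card (Fx (g * a * g⁻¹)) = Nat.card (Fx a) := by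
  have : Fx (g * a * g⁻¹) = (Fx a).map g.toMonoidHom := by
    ext v
    rw [mem_map_equiv, mem_Fx, mem_Fx, MulAut.mul_apply, MulAut.mul_apply, ← MulEquiv.eq_symm_apply]
    rfl
  rw [this, card_map_of_injective g.injective]

theorem modEq_Fx {V : Type*} [Group V] [Finite V] {α : MulAut V} {p : ℕ} (hp : p.Prime)
    (h : α ^ p = 1) (Y : Subgroup V) (hY : ∀ y ∈ Y, α y ∈ Y) :
    Nat.card Y ≡ Nat.card ↥(Y ⊓ Fx α) [MOD p] := by
  classical
  have := Fact.mk hp
  have := Fintype.ofFinite Y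
  let f : Function.End Y := fun y => ⟨α y, hY y y.2⟩
  have hf : ∀ k : ℕ, ∀ y : Y, ((f ^ k) y : V) = (α ^ k) y := by
    intro k
    induction k with
    | zero => intro y; rfl
    | succ k ih => intro y; rw [pow_succ, pow_succ, MulAut.mul_apply]; exact ih (f y)
  have h1 := Equiv.Perm.card_fixedPoints_modEq (f := f) (p := p) (n := 1) (by
    funext y
    apply Subtype.ext
    rw [hf, pow_one, h]; rfl)
  rw [← Nat.card_eq_fintype_card, ← Nat.card_eq_fintype_card] at h1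
  convert h1 using 1
  refine Nat.card_congr ⟨fun y => ⟨⟨y.1, y.2.1⟩, Subtype.ext y.2.2⟩,
    fun y => ⟨y.1.1, y.1.2, congrArg Subtype.val y.2⟩, fun _ => rfl, fun _ => rfl⟩

theorem isP (h2 : ∀ v : V, v * v = 1) : IsPGroup 2 V := fun v => ⟨1, by rw [pow_one, pow_two, h2]⟩

theorem card_lt_of_ne {α : MulAut V} (h : α ≠ 1) : Nat.card (Fx α) < Nat.card V := by
  rw [← card_top (G := V)]
  exact H1.card_lt_of_lt (lt_top_iff_ne_top.2 fun e => h (Fx_eq_top e))

theorem five (h2 : ∀ v : V, v * v = 1) (hc : Nat.card V ≤ 16) {α : MulAut V} (h5 : α ^ 5 = 1)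
    (h : α ≠ 1) : Nat.card V = 16 ∧ Fx α = ⊥ := by
  have h1 := modEq_Fx (by norm_num) h5 ⊤ (fun _ _ => trivial)
  rw [top_inf_eq, card_top] at h1
  have h3 := card_lt_of_ne h
  obtain ⟨a, ha⟩ := (isP h2).exists_card_eq
  obtain ⟨b, hb⟩ := ((isP h2).to_subgroup (Fx α)).exists_card_eq
  rw [← card_eq_one, ha, hb]
  rw [ha, hb] at h1 h3
  rw [ha] at hc
  clear ha hb
  have ha4 : a ≤ 4 := (Nat.pow_le_pow_iff_right (a := 2) (by norm_num)).1 hc
  have hb4 : b < a := (Nat.pow_lt_pow_iff_right (a := 2) (by norm_num)).1 h3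
  interval_cases a <;> interval_cases b <;> simp_all (config := {decide := true})

/-- the commutator map -/
def dl (α : MulAut V) : V →* V := MonoidHom.mk' (fun v => α v * v) (fun a b => by
  rw [map_mul, mul_mul_mul_comm])

theorem dl_ker (h2 : ∀ v : V, v * v = 1) (α : MulAut V) : (dl α).ker = Fx α := by
  ext v
  change α v * v = 1 ↔ α v = v
  rw [mul_eq_one_iff_eq_inv, inv_eq_of_mul_eq_one_right (h2 v)]

theorem dl_card (h2 : ∀ v : V, v * v = 1) (α : MulAut V) :
    Nat.card (Fx α) * Nat.card (dl α).range = Nat.card V := by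
  rw [← dl_ker h2, ← index_ker, card_mul_index]

theorem dl_range {t : MulAut V} (ht : t * t = 1) : (dl t).range ≤ Fx t := by
  rintro _ ⟨v, rfl⟩
  change t (t v * v) = t v * v
  rw [map_mul, ← MulAut.mul_apply, ht, mul_comm]; rfl

theorem four_le (h2 : ∀ v : V, v * v = 1) (hc : Nat.card V = 16) {t : MulAut V} (ht : t * t = 1) :
    4 ≤ Nat.card (Fx t) := by
  have h1 := dl_card h2 t
  have h3 := card_le_of_le (dl_range ht)
  nlinarith

theorem transv (h2 : ∀ v : V, v * v = 1) (hc : Nat.card V = 16) {t s : MulAut V} (ht : t * t = 1)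
    (ht1 : t ≠ 1) (hs : s ^ 3 = 1) (hs1 : s ≠ 1) (hst : s * t = t * s) (hf : Fx s ≠ ⊥) :
    Nat.card (Fx t) = 8 := by
  have cm : ∀ v, s (t v) = t (s v) := fun v => by rw [← MulAut.mul_apply, hst]; rfl
  have s3 : ∀ v, s (s (s v)) = v := fun v => by
    rw [← MulAut.mul_apply, ← MulAut.mul_apply, ← pow_three', hs]; rfl
  have h1 := four_le h2 hc ht
  have h3 := card_lt_of_ne ht1
  have h4 : Nat.card (Fx t) ∣ 2 ^ 4 := by have := card_subgroup_dvd_card (Fx t); rwa [hc] at this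
  obtain ⟨k, hk, e⟩ := (Nat.dvd_prime_pow Nat.prime_two).1 h4
  rw [hc] at h3
  suffices Nat.card (Fx t) ≠ 4 by
    rw [e] at h1 h3 this ⊢
    interval_cases k <;> omega
  intro h5
  have h6 : (dl t).range = Fx t := by
    apply eq_of_le_of_card_ge (dl_range ht)
    have := dl_card h2 t
    rw [h5, hc] at this
    omega
  have h7 := modEq_Fx Nat.prime_three hs (Fx t) (fun y hy => by
    rw [mem_Fx, ← cm, show t y = y from hy])
  have h8 : Nat.card ↥(Fx t ⊓ Fx s) ∣ 2 ^ 2 := by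
    have := card_dvd_of_le (inf_le_left : Fx t ⊓ Fx s ≤ _); rwa [h5] at this
  obtain ⟨j, hj, e'⟩ := (Nat.dvd_prime_pow Nat.prime_two).1 h8
  rw [h5, e'] at h7
  have : j = 0 ∨ j = 2 := by interval_cases j <;> simp_all (config := {decide := true})
  rcases this with rfl | rfl
  · rw [pow_zero, card_eq_one] at e'
    apply hf
    rw [eq_bot_iff]
    intro u hu
    have h9 : dl t u ∈ Fx t ⊓ Fx s := ⟨dl_range ht ⟨u, rfl⟩, by
      change s (t u * u) = t u * u
      rw [map_mul, cm, show s u = u from hu]⟩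
    rw [e', mem_bot, ← MonoidHom.mem_ker, dl_ker h2] at h9
    rw [← e']; exact ⟨h9, hu⟩
  · have h9 : Fx t ⊓ Fx s = Fx t := eq_of_le_of_card_ge inf_le_left (by rw [h5, e']; norm_num)
    apply hs1
    ext v
    have a1 : s (t v * v) = t v * v := (h9.ge (dl_range ht ⟨v, rfl⟩)).2
    have a2 : s v * v ∈ Fx t := by
      rw [← dl_ker h2, MonoidHom.mem_ker, map_mul]
      change t (s v) * s v * (t v * v) = 1
      rw [← cm, ← map_mul, a1, h2]
    have a3 : s (s v * v) = s v * v := (h9.ge a2).2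
    rw [map_mul, mul_comm (s v) v] at a3
    have a4 : s (s v) = v := mul_right_cancel a3
    have := s3 v
    rw [a4] at this
    exact this

theorem tv_form (h2 : ∀ v : V, v * v = 1) (hc : Nat.card V = 16) {t : MulAut V}
    (h : Nat.card (Fx t) = 8) : ∃ w, w ≠ 1 ∧ (∀ v, t v = v ∨ t v = v * w) ∧
      ∀ a : MulAut V, a * t = t * a → a w = w := by
  have h1 := dl_card h2 t
  rw [h, hc] at h1
  have h3 : Nat.card (dl t).range = 2 := by omega
  obtain ⟨w, hw, hu⟩ := (Nat.card_eq_two_iff' (1 : (dl t).range)).1 h3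
  refine ⟨w, fun e => hw (Subtype.ext e), fun v => ?_, fun a ha => ?_⟩
  · by_cases e : dl t v = 1
    · left; rwa [← MonoidHom.mem_ker, dl_ker h2] at e
    · right
      have := congrArg Subtype.val (hu ⟨dl t v, v, rfl⟩ fun e' => e (congrArg Subtype.val e'))
      change t v * v = w at this
      rw [← this, mul_comm, mul_assoc, h2, mul_one]
  · obtain ⟨w, v, rfl⟩ := w
    have e : a (dl t v) = dl t (a v) := by
      change a (t v * v) = t (a v) * a v
      rw [map_mul, ← MulAut.mul_apply, ha]; rfl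
    refine congrArg Subtype.val (hu ⟨a (dl t v), a v, e.symm⟩ fun e' => hw (Subtype.ext ?_))
    exact (map_eq_one_iff a a.injective).1 (congrArg Subtype.val e')

theorem rank_two (hc : Nat.card V ≤ 16) {a g : MulAut V} (h : Fx (a * (g * a * g⁻¹)) = ⊥) :
    Nat.card (Fx a) ≤ 4 := by
  have h1 : Fx a ⊓ Fx (g * a * g⁻¹) = ⊥ := by
    rw [eq_bot_iff, ← h]
    rintro v ⟨h1, h2⟩
    rw [mem_Fx, MulAut.mul_apply, show (g * a * g⁻¹) v = v from h2]; exact h1
  have h3 : Nat.card (Fx a) * Nat.card (Fx (g * a * g⁻¹)) ≤ Nat.card V := by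
    rw [← Nat.card_prod]
    refine Nat.card_le_card_of_injective (fun x => x.1.1 * x.2.1) ?_
    rintro ⟨a, b⟩ ⟨c, d⟩ e
    simp only at e
    have e1 : (c.1)⁻¹ * a.1 = d.1 * b.1⁻¹ := by
      rw [inv_mul_eq_iff_eq_mul, ← mul_assoc, ← e]; simp
    have := mem_inf.2 ⟨mul_mem (inv_mem c.2) a.2, e1 ▸ mul_mem d.2 (inv_mem b.2)⟩
    rw [h1, mem_bot] at this
    have e2 : a = c := Subtype.ext (inv_mul_eq_one.1 this).symm
    rw [e2] at e
    rw [e2, Subtype.ext (mul_left_cancel e)]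
  rw [card_Fx_conj] at h3
  nlinarith

theorem fpf3 {s : MulAut V} (hs : s ^ 3 = 1) (h : Fx s = ⊥) (v : V) : v * s v * s (s v) = 1 := by
  have s3 : s (s (s v)) = v := by
    rw [← MulAut.mul_apply, ← MulAut.mul_apply, ← pow_three', hs]; rfl
  rw [← mem_bot, ← h, mem_Fx, map_mul, map_mul, s3, mul_comm, mul_assoc]

theorem dich (h2 : ∀ v : V, v * v = 1) {r s : MulAut V} (hr : r ^ 3 = 1) (hs : s ^ 3 = 1)
    (hc : r * s = s * r) (hne : r ≠ s) : Fx r ≠ ⊥ ∨ Fx s ≠ ⊥ ∨ Fx (r * s) ≠ ⊥ := by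
  by_contra hh
  push Not at hh
  obtain ⟨h1, h3, h4⟩ := hh
  have sol : ∀ a b : V, a * b = 1 → b = a := fun a b e => by
    rw [eq_inv_of_mul_eq_one_right e, inv_eq_of_mul_eq_one_right (h2 a)]
  have cm : ∀ v, r (s v) = s (r v) := fun v => by rw [← MulAut.mul_apply, hc]; rfl
  apply hne
  ext v
  have e1 := sol _ _ (fpf3 (s := r * s) (by rw [(show Commute r s from hc).mul_pow, hr, hs, mul_one])
    h4 v)
  simp only [MulAut.mul_apply] at e1
  rw [← cm (s v), sol _ _ (fpf3 hs h3 v), sol _ _ (fpf3 hr h1 _), map_mul, ← mul_assoc,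
    mul_left_inj, mul_assoc, mul_eq_left] at e1
  exact sol _ _ e1

theorem sq3 {G : Type*} [Group G] {N : Subgroup G} {a b c : G} (ha : a ∈ normalizer (N : Set G))
    (hb : b ∈ normalizer (N : Set G)) (hc : c ∈ normalizer (N : Set G)) (h1 : a ^ 2 ∈ N)
    (h2 : b ^ 2 ∈ N) (h3 : c ^ 2 ∈ N) (h4 : (a * b) ^ 2 ∈ N) (h5 : (a * c) ^ 2 ∈ N)
    (h6 : (b * c) ^ 2 ∈ N) : (a * b * c) ^ 2 ∈ N := by
  let M := normalizer (N : Set G)
  have : (N.subgroupOf M).Normal := normal_in_normalizer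
  let q := QuotientGroup.mk' (N.subgroupOf M)
  have key : ∀ x : M, (x : G) ^ 2 ∈ N ↔ q x * q x = 1 := fun x => by
    rw [← map_mul, QuotientGroup.mk'_apply, QuotientGroup.eq_one_iff, mem_subgroupOf, pow_two]; rfl
  have e1 := (key ⟨a, ha⟩).1 h1
  have e2 := (key ⟨b, hb⟩).1 h2
  have e3 := (key ⟨c, hc⟩).1 h3
  have e4 := (key (⟨a, ha⟩ * ⟨b, hb⟩)).1 h4
  have e5 := (key (⟨a, ha⟩ * ⟨c, hc⟩)).1 h5
  have e6 := (key (⟨b, hb⟩ * ⟨c, hc⟩)).1 h6
  refine (key (⟨a, ha⟩ * ⟨b, hb⟩ * ⟨c, hc⟩)).2 ?_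
  simp only [map_mul] at *
  generalize q ⟨a, ha⟩ = x at *
  generalize q ⟨b, hb⟩ = y at *
  generalize q ⟨c, hc⟩ = z at *
  have cm : ∀ x y : M ⧸ N.subgroupOf M, x * x = 1 → y * y = 1 → x * y * (x * y) = 1 →
      Commute x y := fun x y h1 h2 h3 => by
    change x * y = y * x
    rw [eq_inv_of_mul_eq_one_left h3, mul_inv_rev, inv_eq_of_mul_eq_one_right h1,
      inv_eq_of_mul_eq_one_right h2]
  rw [← pow_two, ((cm _ _ e1 e3 e5).mul_left (cm _ _ e2 e3 e6)).mul_pow, pow_two, e4, pow_two, e3,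
    mul_one]

end Cfsg.Agent.H3.R4
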