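import Cfsg.Agent.H3.R4a

/-! An extension of a faithful module of order at most 16 by `S₆` has sectional 2-rank at least 5. -/

set_option autoImplicit false
set_option linter.unusedSectionVars false
open Subgroup Equiv
open scoped IsMulCommutative

namespace Cfsg.Agent.H3.R4

/-- abstract sectional rank condition -/
def Sc (k : ℕ) (Γ : Type*) [Group Γ] : Prop :=
  ∀ H N : Subgroup Γ, (∀ h ∈ H, h ^ 2 ∈ N) → N.relIndex H ≤ 2 ^ k

theorem sc_of {k : ℕ} {Γ : Type*} [Group Γ] [Finite Γ] (h : Cfsg.SectionalPRankLE 2 k Γ) : Sc k Γ :=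
  fun H N hN => H12.SR.sec_le h H N hN

theorem Sc.of_surj {k : ℕ} {Γ Γ' : Type*} [Group Γ] [Group Γ'] (h : Sc k Γ) (f : Γ →* Γ')
    (hf : Function.Surjective f) : Sc k Γ' := fun H N hN => by
  have := h (H.comap f) (N.comap f) fun x hx => by
    rw [mem_comap, map_pow]; exact hN _ hx
  rwa [relIndex_comap, map_comap_eq_self_of_surjective hf] at this

theorem Sc.of_inj {k : ℕ} {Γ Γ' : Type*} [Group Γ] [Group Γ'] (h : Sc k Γ) (f : Γ' →* Γ)
    (hf : Function.Injective f) : Sc k Γ' := fun H N hN => by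
  have := h (H.map f) (N.map f) (by
    rintro _ ⟨x, hx, rfl⟩
    exact ⟨x ^ 2, hN x hx, map_pow _ _ _⟩)
  rwa [relIndex_map_map_of_injective _ _ hf] at this

variable {Γ K : Type*} [Group Γ] [Finite Γ] [Group K]

theorem exists_rho (π : Γ →* K) (hπ : Function.Surjective π) [IsMulCommutative π.ker]
    (hC : centralizer (π.ker : Set Γ) ≤ π.ker) :
    ∃ ρ : K →* MulAut π.ker, Function.Injective ρ ∧
      ∀ g (v : π.ker), (ρ (π g) v : Γ) = g * v * g⁻¹ := by
  have hk : π.ker ≤ (MulAut.conjNormal (H := π.ker)).ker := by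
    intro x hx
    rw [MonoidHom.mem_ker]
    ext v
    have := congrArg Subtype.val (mul_comm (⟨x, hx⟩ : π.ker) v)
    simp only [coe_mul] at this
    simp [this]
  refine ⟨π.liftOfSurjective hπ ⟨_, hk⟩, (injective_iff_map_eq_one _).2 fun k hk' => ?_,
    fun g v => ?_⟩
  · obtain ⟨g, rfl⟩ := hπ k
    rw [MonoidHom.liftOfSurjective, MonoidHom.liftOfRightInverse_comp_apply] at hk'
    refine hC fun v hv => ?_
    have := congrArg (fun f : MulAut π.ker => (f ⟨v, hv⟩ : Γ)) hk'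
    simp only [MulAut.conjNormal_apply, MulAut.one_apply] at this
    exact (mul_inv_eq_iff_eq_mul.1 this).symm
  · rw [MonoidHom.liftOfSurjective, MonoidHom.liftOfRightInverse_comp_apply]; rfl

theorem sq_fixed (π : Γ →* K) [IsMulCommutative π.ker] (h2 : ∀ v : π.ker, v * v = 1)
    (ρ : K →* MulAut π.ker) (hρ : ∀ g (v : π.ker), (ρ (π g) v : Γ) = g * v * g⁻¹)
    {x y : Γ} (hx : x ^ 2 ∈ π.ker) {w : π.ker} (hw : ∀ v, ρ (π x) v = v ∨ ρ (π x) v = v * w)
    (hc : π y * π x = π x * π y) (h3 : π y ^ 3 = 1) (hyw : ρ (π y) w = w) :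
    ρ (π y) ⟨_, hx⟩ = ⟨_, hx⟩ := by
  have hv : y * x * y⁻¹ * x⁻¹ ∈ π.ker := by
    rw [MonoidHom.mem_ker]; simp [hc]
  set u : π.ker := ⟨_, hx⟩ with hu
  set v : π.ker := ⟨_, hv⟩ with hv'
  have e : ρ (π y) u = v * ρ (π x) v * u := by
    apply Subtype.ext
    simp only [coe_mul, hρ, hu, hv', pow_two]
    group
  have s3 : ρ (π y) (ρ (π y) (ρ (π y) u)) = u := by
    rw [← MulAut.mul_apply, ← MulAut.mul_apply, ← pow_three', ← map_pow, h3, map_one]; rfl
  rcases hw v with h | h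
  · rw [e, h, h2, one_mul]
  · rw [h, ← mul_assoc, h2, one_mul] at e
    rw [e, map_mul, hyw, e, ← mul_assoc, h2, one_mul] at s3
    exact s3

theorem core (hS : Sc 4 Γ) (π : Γ →* K) (hπ : Function.Surjective π) [IsMulCommutative π.ker]
    (h2 : ∀ v : π.ker, v * v = 1) (hc : Nat.card π.ker = 16)
    (ρ : K →* MulAut π.ker) (hρ : ∀ g (v : π.ker), (ρ (π g) v : Γ) = g * v * g⁻¹)
    (t : Fin 3 → K) (E : Subgroup K) (hE : 8 ≤ Nat.card E)
    (hE' : ∀ e ∈ E, e = 1 ∨ (∃ i, e = t i) ∨ (∃ i j, i ≠ j ∧ e = t i * t j) ∨ e = t 0 * t 1 * t 2)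
    (ht : ∀ i, t i * t i = 1) (hcm : ∀ i j, t i * t j = t j * t i)
    (hT : ∀ i, Nat.card (Fx (ρ (t i))) = 8)
    (hR : ∀ i j, i ≠ j → Nat.card (Fx (ρ (t i * t j))) ≤ 4)
    (hs : ∀ i, ∃ j k s s', j ≠ k ∧ t j * t k = s * s' ∧ s ^ 3 = 1 ∧ s' ^ 3 = 1 ∧
      s * t i = t i * s ∧ s' * t i = t i * s')
    (h5 : ∃ a b, a * t 0 = t 0 * a ∧ b * t 1 = t 1 * b ∧ Fx (ρ (a * b)) = ⊥) : False := by
  choose w hw1 hw hwc using fun i => tv_form h2 hc (hT i)
  let W0 : Subgroup π.ker := ⨅ i, Fx (ρ (t i))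
  have wm : ∀ i, w i ∈ W0 := fun i => mem_iInf.2 fun j =>
    hwc i _ (by rw [← map_mul, ← map_mul, hcm])
  have hne : w 0 ≠ w 1 := by
    intro e
    obtain ⟨a, b, ha, hb, h⟩ := h5
    apply hw1 0
    rw [← mem_bot, ← h, mem_Fx, map_mul, MulAut.mul_apply, e,
      hwc 1 _ (by rw [← map_mul, ← map_mul, hb]), ← e, hwc 0 _ (by rw [← map_mul, ← map_mul, ha])]
  have c4 : 4 ≤ Nat.card W0 := by
    obtain ⟨k, hk⟩ := ((isP h2).to_subgroup W0).exists_card_eq
    have : 2 < Nat.card W0 := by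
      classical
      have := Fintype.ofFinite W0
      rw [Nat.card_eq_fintype_card, Fintype.two_lt_card_iff]
      exact ⟨1, ⟨_, wm 0⟩, ⟨_, wm 1⟩, fun e => hw1 0 (congrArg Subtype.val e).symm,
        fun e => hw1 1 (congrArg Subtype.val e).symm, fun e => hne (congrArg Subtype.val e)⟩
    rw [hk] at this ⊢
    rcases k with _ | _ | k
    · omega
    · omega
    · rw [pow_succ, pow_succ]; have := Nat.one_le_two_pow (n := k); omega
  have hW : ∀ i j, i ≠ j → W0 = Fx (ρ (t i * t j)) := fun i j hij =>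
    eq_of_le_of_card_ge (fun v hv => by
      rw [mem_Fx, map_mul, MulAut.mul_apply, show ρ (t j) v = v from mem_iInf.1 hv j]
      exact mem_iInf.1 hv i) ((hR i j hij).trans c4)
  let N : Subgroup Γ := W0.map π.ker.subtype
  have sqk : ∀ x, π x * π x = 1 → x ^ 2 ∈ π.ker := fun x h => by
    rw [MonoidHom.mem_ker, map_pow, pow_two, h]
  have P1 : ∀ x i, π x = t i → x ^ 2 ∈ N := by
    intro x i hx
    obtain ⟨j, k, s, s', hjk, e, h3, h3', c, c'⟩ := hs i
    obtain ⟨y, rfl⟩ := hπ s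
    obtain ⟨y', rfl⟩ := hπ s'
    have hx2 := sqk x (by rw [hx, ht])
    refine ⟨⟨_, hx2⟩, ?_, rfl⟩
    rw [hW j k hjk, e]
    change ρ _ _ = _
    rw [map_mul, MulAut.mul_apply,
      sq_fixed π h2 ρ hρ hx2 (hx ▸ hw i) (hx ▸ c') h3' (hwc i _ (by rw [← map_mul, ← map_mul, c'])),
      sq_fixed π h2 ρ hρ hx2 (hx ▸ hw i) (hx ▸ c) h3 (hwc i _ (by rw [← map_mul, ← map_mul, c]))]
  have P2 : ∀ x i j, i ≠ j → π x = t i * t j → x ^ 2 ∈ N := by
    intro x i j hij hx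
    have hx2 := sqk x (by rw [hx, mul_assoc, ← mul_assoc (t j), hcm j i, mul_assoc, ht, mul_one, ht])
    refine ⟨⟨_, hx2⟩, ?_, rfl⟩
    rw [hW i j hij, ← hx]
    apply Subtype.ext
    rw [hρ]; group
  have nm : ∀ x i, π x = t i → x ∈ normalizer (N : Set Γ) := by
    intro x i hx
    apply centralizer_le_normalizer
    rintro _ ⟨v, hv, rfl⟩
    have := hρ x v
    rw [hx, show ρ (t i) v = v from mem_iInf.1 hv i] at this
    change (v : Γ) * x = x * v
    rw [eq_mul_inv_iff_mul_eq] at this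
    exact this
  have key := hS (E.comap π) N fun x hx => by
    rcases hE' _ hx with e | ⟨i, e⟩ | ⟨i, j, hij, e⟩ | e
    · have := congrArg Subtype.val (h2 ⟨x, e⟩)
      rw [pow_two, show x * x = 1 from this]; exact one_mem _
    · exact P1 x i e
    · exact P2 x i j hij e
    · obtain ⟨a, ha⟩ := hπ (t 0)
      obtain ⟨c, hc⟩ := hπ (t 2)
      have hb : π (a⁻¹ * x * c⁻¹) = t 1 := by simp [ha, hc, e, mul_assoc]
      have := sq3 (nm a 0 ha) (nm _ 1 hb) (nm c 2 hc) (P1 _ _ ha) (P1 _ _ hb) (P1 _ _ hc)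
        (P2 _ 0 1 (by decide) (by rw [map_mul, ha, hb])) (P2 _ 0 2 (by decide) (by rw [map_mul, ha, hc]))
        (P2 _ 1 2 (by decide) (by rw [map_mul, hb, hc]))
      simpa [mul_assoc] using this
  have c1 : Nat.card N ≤ 4 := by
    rw [card_map_of_injective (subtype_injective _), hW 0 1 (by decide)]; exact hR 0 1 (by decide)
  have c2 : Nat.card (E.comap π) = 16 * Nat.card E := by
    have h1 : π.ker ≤ E.comap π := ker_le_comap _ _
    have h3 := relIndex_ker (E.comap π) π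
    rw [map_comap_eq_self_of_surjective hπ] at h3
    rw [← hc, ← h3, relIndex, ← Nat.card_congr (subgroupOfEquivOfLe h1).toEquiv, card_mul_index]
  have c3 := (N.subgroupOf (E.comap π)).card_mul_index
  have c5 : Nat.card (N.subgroupOf (E.comap π)) ≤ 4 :=
    le_trans (Nat.card_le_card_of_injective (fun x => (⟨x.1.1, x.2⟩ : N))
      fun a b e => Subtype.ext (Subtype.ext (Subtype.mk.inj e))) c1
  change (N.subgroupOf (E.comap π)).index ≤ 2 ^ 4 at key
  have := Nat.mul_le_mul c5 key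
  omega

theorem core6 (hS : Sc 4 Γ) (π : Γ →* K) (hπ : Function.Surjective π) [IsMulCommutative π.ker]
    (h2 : ∀ v : π.ker, v * v = 1) (hc : Nat.card π.ker ≤ 16)
    (ρ : K →* MulAut π.ker) (hρi : Function.Injective ρ)
    (hρ : ∀ g (v : π.ker), (ρ (π g) v : Γ) = g * v * g⁻¹)
    (ι : Perm (Fin 6) →* K) (hι : Function.Injective ι) (t : Fin 3 → Perm (Fin 6))
    (s : Perm (Fin 6)) (hF : Fx (ρ (ι s)) ≠ ⊥)
    (S : Finset (Perm (Fin 6))) (hS8 : S.card = 8) (hS1 : 1 ∈ S) (hSm : ∀ x ∈ S, ∀ y ∈ S, x * y ∈ S)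
    (hSi : ∀ x ∈ S, x⁻¹ ∈ S)
    (hE' : ∀ e ∈ S, e = 1 ∨ (∃ i, e = t i) ∨ (∃ i j, i ≠ j ∧ e = t i * t j) ∨ e = t 0 * t 1 * t 2)
    (ht : ∀ i, t i * t i = 1) (hcm : ∀ i j, t i * t j = t j * t i)
    (h3 : s ^ 3 = 1 ∧ s ≠ 1 ∧ s * t 0 = t 0 * s ∧ t 0 ≠ 1)
    (g1 : Fin 3 → Perm (Fin 6)) (hcj : ∀ i, t i = g1 i * t 0 * (g1 i)⁻¹)
    (g2 : Fin 3 → Fin 3 → Perm (Fin 6))
    (hR : ∀ i j, i ≠ j → (t i * t j * (g2 i j * (t i * t j) * (g2 i j)⁻¹)) ^ 5 = 1 ∧
      t i * t j * (g2 i j * (t i * t j) * (g2 i j)⁻¹) ≠ 1)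
    (hs : ∀ i, ∃ j k s s', j ≠ k ∧ t j * t k = s * s' ∧ s ^ 3 = 1 ∧ s' ^ 3 = 1 ∧
      s * t i = t i * s ∧ s' * t i = t i * s')
    (h5 : ∃ a b, a * t 0 = t 0 * a ∧ b * t 1 = t 1 * b ∧ (a * b) ^ 5 = 1 ∧ a * b ≠ 1) : False := by
  have inj : Function.Injective (ρ.comp ι) := hρi.comp hι
  have f5 : ∀ x : Perm (Fin 6), x ^ 5 = 1 → x ≠ 1 → Nat.card π.ker = 16 ∧ Fx (ρ (ι x)) = ⊥ :=
    fun x h h' => five h2 hc (by rw [← map_pow, ← map_pow, h, map_one, map_one])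
      fun e => h' ((injective_iff_map_eq_one _).1 inj x e)
  obtain ⟨a, b, ha, hb, h5, h5'⟩ := h5
  have hc' := (f5 _ h5 h5').1
  let E : Subgroup (Perm (Fin 6)) :=
    { carrier := S, one_mem' := hS1, mul_mem' := fun ha hb => hSm _ ha _ hb,
      inv_mem' := fun ha => hSi _ ha }
  refine core hS π hπ h2 hc' ρ hρ (fun i => ι (t i)) (E.map ι) ?_ ?_ ?_ ?_ ?_ ?_ ?_ ?_
  · rw [card_map_of_injective hι, ← hS8]
    exact (Nat.card_eq_finsetCard S).ge
  · rintro _ ⟨e, he, rfl⟩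
    rcases hE' e he with h | ⟨i, h⟩ | ⟨i, j, hij, h⟩ | h
    · left; rw [h, map_one]
    · right; left; exact ⟨i, by rw [h]⟩
    · right; right; left; exact ⟨i, j, hij, by rw [h, map_mul]⟩
    · right; right; right; rw [h, map_mul, map_mul]
  · intro i; rw [← map_mul, ht, map_one]
  · intro i j; rw [← map_mul, hcm, map_mul]
  · intro i
    rw [hcj i, map_mul, map_mul, map_mul, map_mul, map_inv, map_inv, card_Fx_conj]
    refine transv h2 hc' (s := ρ (ι s)) ?_ ?_ ?_ ?_ ?_ hF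
    · rw [← map_mul, ← map_mul, ht, map_one, map_one]
    · exact fun e => h3.2.2.2 ((injective_iff_map_eq_one _).1 inj _ e)
    · rw [← map_pow, ← map_pow, h3.1, map_one, map_one]
    · exact fun e => h3.2.1 ((injective_iff_map_eq_one _).1 inj _ e)
    · rw [← map_mul, ← map_mul, h3.2.2.1, map_mul, map_mul]
  · intro i j hij
    obtain ⟨h, h'⟩ := hR i j hij
    refine rank_two hc (g := ρ (ι (g2 i j))) ?_
    have := (f5 _ h h').2
    simpa only [map_mul, map_inv] using this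
  · intro i
    obtain ⟨j, k, s, s', h1, h2, h3, h4, h5, h6⟩ := hs i
    refine ⟨j, k, ι s, ι s', h1, ?_, ?_, ?_, ?_, ?_⟩
    · rw [← map_mul, h2, map_mul]
    · rw [← map_pow, h3, map_one]
    · rw [← map_pow, h4, map_one]
    · rw [← map_mul, h5, map_mul]
    · rw [← map_mul, h6, map_mul]
  · exact ⟨ι a, ι b, by rw [← map_mul, ha, map_mul], by rw [← map_mul, hb, map_mul],
      by rw [← map_mul]; exact (f5 _ h5 h5').2⟩

/-- three-cycle -/
def c3 (a b c : Fin 6) : Perm (Fin 6) := swap a c * swap a b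

theorem no_s6 (hS : Sc 4 Γ) (π : Γ →* K) (hπ : Function.Surjective π) [IsMulCommutative π.ker]
    (h2 : ∀ v : π.ker, v * v = 1) (hc : Nat.card π.ker ≤ 16)
    (hC : centralizer (π.ker : Set Γ) ≤ π.ker)
    (ι : Perm (Fin 6) →* K) (hι : Function.Injective ι) : False := by
  obtain ⟨ρ, hρi, hρ⟩ := exists_rho π hπ hC
  have inj : Function.Injective (ρ.comp ι) := hρi.comp hι
  have A : Fx (ρ (ι (c3 3 4 5))) ≠ ⊥ → False := fun hF =>
    core6 hS π hπ h2 hc ρ hρi hρ ι hι ![swap 0 1, swap 2 3, swap 4 5] _ hF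
      {1, swap 0 1, swap 2 3, swap 4 5, swap 0 1 * swap 2 3, swap 0 1 * swap 4 5,
        swap 2 3 * swap 4 5, swap 0 1 * swap 2 3 * swap 4 5}
      (by decide +kernel) (by decide +kernel) (by decide +kernel) (by decide +kernel)
      (by decide +kernel) (by decide +kernel) (by decide +kernel) (by decide +kernel)
      ![1, swap 0 2 * swap 1 3, swap 0 4 * swap 1 5 * swap 2 4 * swap 3 5]
      (by decide +kernel)
      ![![1, swap 1 2 * swap 3 4, swap 1 2 * swap 2 3 * swap 3 4],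
        ![swap 1 2 * swap 3 4, 1, swap 1 2 * swap 3 4],
        ![swap 1 2 * swap 2 3 * swap 3 4, swap 1 2 * swap 3 4, 1]]
      (by decide +kernel)
      (fun i => by
        fin_cases i
        · exact ⟨1, 2, swap 3 4 * swap 4 5, swap 2 5 * swap 3 5, by decide +kernel⟩
        · exact ⟨0, 2, swap 1 4 * swap 4 5, swap 0 5 * swap 1 5, by decide +kernel⟩
        · exact ⟨0, 1, swap 1 2 * swap 2 3, swap 0 3 * swap 1 3, by decide +kernel⟩)
      ⟨swap 3 4, swap 1 4 * swap 2 3 * swap 4 5, by decide +kernel⟩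
  have B : Fx (ρ (ι (c3 0 2 4 * c3 1 3 5))) ≠ ⊥ → False := fun hF =>
    core6 hS π hπ h2 hc ρ hρi hρ ι hι ![swap 0 1 * swap 2 3 * swap 4 5,
        swap 0 1 * swap 2 4 * swap 3 5, swap 0 1 * swap 2 5 * swap 3 4] _ hF
      {1, swap 0 1, swap 2 3 * swap 4 5, swap 2 4 * swap 3 5, swap 2 5 * swap 3 4,
        swap 0 1 * swap 2 3 * swap 4 5,
        swap 0 1 * swap 2 4 * swap 3 5, swap 0 1 * swap 2 5 * swap 3 4}
      (by decide +kernel) (by decide +kernel) (by decide +kernel) (by decide +kernel)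
      (by decide +kernel) (by decide +kernel) (by decide +kernel) (by decide +kernel)
      ![1, swap 3 4, swap 3 5 * swap 4 5]
      (by decide +kernel)
      ![![1, swap 1 2 * swap 4 5, swap 1 2 * swap 4 5],
        ![swap 1 2 * swap 4 5, 1, swap 1 2 * swap 3 4],
        ![swap 1 2 * swap 4 5, swap 1 2 * swap 3 4, 1]]
      (by decide +kernel)
      (fun i => by
        fin_cases i
        · exact ⟨1, 2, swap 0 2 * swap 1 3 * swap 2 4 * swap 3 5,
            swap 0 4 * swap 1 5 * swap 2 5 * swap 3 4, by decide +kernel⟩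
        · exact ⟨0, 2, swap 0 2 * swap 1 4 * swap 2 3 * swap 4 5,
            swap 0 3 * swap 1 5 * swap 2 5 * swap 3 4, by decide +kernel⟩
        · exact ⟨0, 1, swap 0 2 * swap 1 5 * swap 2 3 * swap 4 5,
            swap 0 3 * swap 1 4 * swap 2 4 * swap 3 5, by decide +kernel⟩)
      ⟨swap 4 5, swap 0 2 * swap 1 4 * swap 2 4, by decide +kernel⟩
  have cj : ∀ g a : Perm (Fin 6), Fx (ρ (ι a)) ≠ ⊥ → Fx (ρ (ι (g * a * g⁻¹))) ≠ ⊥ := fun g a h => by
    rw [Ne, ← card_eq_one] at h ⊢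
    rwa [map_mul, map_mul, map_mul, map_mul, map_inv, map_inv, card_Fx_conj]
  rcases dich h2 (r := ρ (ι (c3 0 2 4))) (s := ρ (ι (c3 1 3 5)))
    (by rw [← map_pow, ← map_pow, show c3 0 2 4 ^ 3 = 1 by decide +kernel, map_one, map_one])
    (by rw [← map_pow, ← map_pow, show c3 1 3 5 ^ 3 = 1 by decide +kernel, map_one, map_one])
    (by rw [← map_mul, ← map_mul, ← map_mul, ← map_mul,
      show c3 0 2 4 * c3 1 3 5 = c3 1 3 5 * c3 0 2 4 by decide +kernel])
    (fun e => absurd (inj e) (by decide +kernel)) with h | h | h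
  · obtain ⟨g, e⟩ : ∃ g, c3 3 4 5 = g * c3 0 2 4 * g⁻¹ :=
      ⟨swap 0 3 * swap 1 3 * swap 2 4 * swap 4 5, by decide +kernel⟩
    exact A (e ▸ cj g _ h)
  · obtain ⟨g, e⟩ : ∃ g, c3 3 4 5 = g * c3 1 3 5 * g⁻¹ :=
      ⟨swap 1 3 * swap 2 3 * swap 3 4, by decide +kernel⟩
    exact A (e ▸ cj g _ h)
  · exact B (by rwa [map_mul, map_mul])

end Cfsg.Agent.H3.R4
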