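import Cfsg.Agent.H3.R4a

/-! Quadratic maps invariant under an automorphism of order 5. -/

set_option autoImplicit false
set_option linter.unusedSectionVars false
open Subgroup
open scoped IsMulCommutative

namespace Cfsg.Agent.H3.R4

variable {V : Type*} [CommGroup V] [Finite V]

theorem irr5 (h2 : ∀ v : V, v * v = 1) (hc : Nat.card V ≤ 16) {γ : MulAut V} (h5 : γ ^ 5 = 1)
    (h : γ ≠ 1) (U : Subgroup V) (hU : ∀ u ∈ U, γ u ∈ U) : U = ⊥ ∨ U = ⊤ := by
  obtain ⟨c, f⟩ := five h2 hc h5 h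
  have h1 := modEq_Fx (by norm_num) h5 U hU
  rw [f, inf_bot_eq, card_bot] at h1
  have h4 : Nat.card U ∣ 2 ^ 4 := by have := card_subgroup_dvd_card U; rwa [c] at this
  obtain ⟨k, hk, e⟩ := (Nat.dvd_prime_pow Nat.prime_two).1 h4
  rw [← card_eq_one, ← card_eq_iff_eq_top, c, e]
  rw [e] at h1
  clear e
  interval_cases k <;> simp_all (config := {decide := true})

theorem fpf5 {γ : MulAut V} (h5 : γ ^ 5 = 1) (h : Fx γ = ⊥) (v : V) :
    v * γ v * γ (γ v) * γ (γ (γ v)) * γ (γ (γ (γ v))) = 1 := by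
  have s5 : γ (γ (γ (γ (γ v)))) = v := by
    have := congrArg (fun f : MulAut V => f v) h5
    simpa [pow_succ] using this
  rw [← mem_bot, ← h, mem_Fx, map_mul, map_mul, map_mul, map_mul, s5, mul_comm]
  simp only [mul_assoc]

theorem span4 (h2 : ∀ v : V, v * v = 1) (hc : Nat.card V ≤ 16) {γ : MulAut V} (h5 : γ ^ 5 = 1)
    (h : γ ≠ 1) {x : V} (hx : x ≠ 1) (v : V) : ∃ a b c d : ℕ, a < 2 ∧ b < 2 ∧ c < 2 ∧ d < 2 ∧
      v = x ^ a * γ x ^ b * γ (γ x) ^ c * γ (γ (γ x)) ^ d := by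
  have inv : ∀ v : V, v⁻¹ = v := fun v => inv_eq_of_mul_eq_one_right (h2 v)
  let U : Subgroup V :=
    { carrier := {v | ∃ a b c d : ℕ, v = x ^ a * γ x ^ b * γ (γ x) ^ c * γ (γ (γ x)) ^ d}
      one_mem' := ⟨0, 0, 0, 0, by simp⟩
      mul_mem' := by
        rintro _ _ ⟨a, b, c, d, rfl⟩ ⟨a', b', c', d', rfl⟩
        exact ⟨a + a', b + b', c + c', d + d', by simp only [pow_add]; ac_rfl⟩
      inv_mem' := fun hv => by rwa [inv] }
  have e4 := fpf5 h5 (five h2 hc h5 h).2 x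
  rw [mul_eq_one_iff_inv_eq, inv] at e4
  have hU := (irr5 h2 hc h5 h U (by
    rintro _ ⟨a, b, c, d, rfl⟩
    refine ⟨d, a + d, b + d, c + d, ?_⟩
    simp only [map_mul, map_pow, ← e4, pow_add, mul_pow]
    simp only [mul_comm, mul_left_comm, mul_assoc])).resolve_left fun e => hx (by
      rw [← mem_bot, ← e]; exact ⟨1, 0, 0, 0, by simp⟩)
  obtain ⟨a, b, c, d, rfl⟩ : v ∈ U := hU ▸ mem_top v
  have pm : ∀ (v : V) (n : ℕ), v ^ n = v ^ (n % 2) := fun v n =>
    pow_eq_pow_mod n (by rw [pow_two, h2])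
  exact ⟨a % 2, b % 2, c % 2, d % 2, by omega, by omega, by omega, by omega, by
    rw [← pm, ← pm, ← pm, ← pm]⟩

/-- quadratic map with values in an elementary abelian group -/
structure QM {Z : Type*} [CommGroup Z] (s : V → Z) (B : V → V → Z) : Prop where
  mul : ∀ v w, s (v * w) = s v * s w * B v w
  lin : ∀ u v w, B (u * v) w = B u w * B v w
  s2 : ∀ v, s v * s v = 1
  b2 : ∀ v w, B v w * B v w = 1

variable {Z : Type*} [CommGroup Z] {s : V → Z} {B : V → V → Z}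

theorem QM.symm (q : QM s B) (v w : V) : B v w = B w v := by
  have h1 := q.mul v w
  rw [mul_comm v, q.mul, mul_comm (s w)] at h1
  exact (mul_left_cancel h1).symm

theorem QM.inv (q : QM s B) {γ : MulAut V} (hγ : ∀ v, s (γ v) = s v) (v w : V) :
    B (γ v) (γ w) = B v w := by
  have h1 := q.mul (γ v) (γ w)
  rw [← map_mul, hγ, hγ, hγ, q.mul] at h1
  exact (mul_left_cancel h1).symm

theorem QM.orb (q : QM s B) (h2 : ∀ v : V, v * v = 1) (hc : Nat.card V ≤ 16) {γ : MulAut V}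
    (h5 : γ ^ 5 = 1) (h : γ ≠ 1) (hγ : ∀ v, s (γ v) = s v) {x : V} (hx : x ≠ 1) :
    s x = B x (γ x) * B x (γ (γ x)) ∧ B x (γ (γ (γ x))) = B x (γ (γ x)) ∧
    B x (γ (γ (γ (γ x)))) = B x (γ x) ∧
    ∀ v, v = 1 ∨ v = x ∨ v = γ x ∨ v = γ (γ x) ∨ v = γ (γ (γ x)) ∨ v = γ (γ (γ (γ x))) ∨
      s v = B x (γ x) ∨ s v = B x (γ (γ x)) := by
  have inv : ∀ v : V, v⁻¹ = v := fun v => inv_eq_of_mul_eq_one_right (h2 v)
  have s5 : γ (γ (γ (γ (γ x)))) = x := by
    have := congrArg (fun f : MulAut V => f x) h5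
    simpa [pow_succ] using this
  have e4 := fpf5 h5 (five h2 hc h5 h).2 x
  rw [mul_eq_one_iff_inv_eq, inv] at e4
  have b3 : B x (γ (γ (γ x))) = B x (γ (γ x)) := by
    rw [← q.inv hγ, ← q.inv hγ, s5, q.symm]
  have b4 : B x (γ (γ (γ (γ x)))) = B x (γ x) := by
    rw [← q.inv hγ, s5, q.symm]
  have a2 := q.s2 x
  have p2 := q.b2 x (γ x)
  have r2 := q.b2 x (γ (γ x))
  have e5 := congrArg s e4
  simp only [q.mul, q.lin, hγ, q.inv hγ, b3] at e5
  generalize ha : s x = a at *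
  generalize hp : B x (γ x) = p at *
  generalize hr : B x (γ (γ x)) = r at *
  have key : a = p * r := by
    rw [← e5]
    calc _ = (a * a) * (a * a) * (p * p) * (r * r) * (p * r) := by ac_rfl
      _ = _ := by rw [a2, p2, r2]; simp
  refine ⟨key, b3, b4, fun v => ?_⟩
  obtain ⟨i, j, k, l, hi, hj, hk, hl, rfl⟩ := span4 h2 hc h5 h hx v
  have c1 : p * a * (r * p) = p := by
    calc _ = (p * p) * (a * r) := by ac_rfl
      _ = _ := by rw [p2, key, mul_assoc p, r2]; simp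
  have c2 : p * a * (r * r) = r := by
    calc _ = (r * r) * (a * p) := by ac_rfl
      _ = _ := by rw [r2, key, mul_comm p, mul_assoc r, p2]; simp
  have c3 : r * a * (r * p) = r := by
    calc _ = (r * r) * (a * p) := by ac_rfl
      _ = _ := by rw [r2, key, mul_comm p, mul_assoc r, p2]; simp
  interval_cases i <;> interval_cases j <;> interval_cases k <;> interval_cases l <;>
    simp [q.mul, q.lin, hγ, q.inv hγ, b3, ha, hp, hr, a2, e4, c1, c2, c3]

theorem QM.sing (q : QM s B) (h2 : ∀ v : V, v * v = 1) (hc : Nat.card V ≤ 16) {γ : MulAut V}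
    (h5 : γ ^ 5 = 1) (h : γ ≠ 1) (hγ : ∀ v, s (γ v) = s v) {η : MulAut V} (h3 : η ^ 3 = 1)
    (h' : η ≠ 1) (hη : ∀ v, s (η v) = s v) :
    ∃ c : Z, ∀ v, s v = 1 ∨ s v = c := by
  obtain ⟨u, hu⟩ : ∃ u, η u ≠ u := by
    by_contra hh
    push Not at hh
    exact h' (MulEquiv.ext hh)
  have s3 : η (η (η u)) = u := by
    have := congrArg (fun f : MulAut V => f u) h3
    simpa [pow_succ] using this
  have s1 : s 1 = 1 := by
    have := q.mul 1 1
    have h1 := q.lin 1 1 1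
    rw [mul_one, left_eq_mul] at h1
    rw [mul_one, h1, mul_one, left_eq_mul] at this
    exact this
  obtain ⟨w, hw⟩ : ∃ w, w = u * η u := ⟨_, rfl⟩
  have inv : ∀ v : V, v⁻¹ = v := fun v => inv_eq_of_mul_eq_one_right (h2 v)
  have w1 : w ≠ 1 := by
    rw [hw, Ne, mul_eq_one_iff_inv_eq, inv]; exact hu.symm
  have w2 : w * η w = η (η w) := by
    rw [hw]
    simp only [map_mul, s3]
    calc _ = u * (η u * η u) * η (η u) := by ac_rfl
      _ = _ := by rw [h2, mul_one, mul_comm]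
  have w3 : η w ≠ w := fun e => by
    rw [e, e, h2] at w2; exact w1 w2.symm
  have w4 : B w (η w) = s w := by
    have := q.mul w (η w)
    rw [w2, hη, hη, q.s2, one_mul] at this
    exact this.symm
  obtain ⟨k1, k2, k3, k4⟩ := q.orb h2 hc h5 h hγ w1
  have hsw : s w = B w (γ w) ∨ s w = B w (γ (γ w)) := by
    rcases k4 (η w) with e | e | e | e | e | e | e | e
    · exact absurd ((map_eq_one_iff η η.injective).1 e) w1
    · exact absurd e w3
    · left; rw [← w4, e]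
    · right; rw [← w4, e]
    · right; rw [← w4, e, k2]
    · left; rw [← w4, e, k3]
    · left; rw [← e, hη]
    · right; rw [← e, hη]
  refine ⟨s w, fun v => ?_⟩
  have : (B w (γ w) = 1 ∨ B w (γ w) = s w) ∧ (B w (γ (γ w)) = 1 ∨ B w (γ (γ w)) = s w) := by
    rcases hsw with e | e
    · refine ⟨Or.inr e.symm, Or.inl ?_⟩
      rw [e, left_eq_mul] at k1; exact k1
    · refine ⟨Or.inl ?_, Or.inr e.symm⟩
      rw [e, right_eq_mul] at k1; exact k1
  rcases k4 v with e | e | e | e | e | e | e | e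
  · left; rw [e, s1]
  · right; rw [e]
  · right; rw [e, hγ]
  · right; rw [e, hγ, hγ]
  · right; rw [e, hγ, hγ, hγ]
  · right; rw [e, hγ, hγ, hγ, hγ]
  · rw [e]; exact this.1
  · rw [e]; exact this.2

theorem QM.exists_sing (q : QM s B) (h2 : ∀ v : V, v * v = 1) (hc : Nat.card V ≤ 16) {γ : MulAut V}
    (h5 : γ ^ 5 = 1) (h : γ ≠ 1) (hγ : ∀ v, s (γ v) = s v) {c : Z} (hs : ∀ v, s v = 1 ∨ s v = c)
    (hn : ∃ v, s v ≠ 1) : ∃ x, x ≠ 1 ∧ s x = 1 ∧ B x (γ x) = c ∧ B x (γ (γ x)) = c ∧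
      B x (γ (γ (γ x))) = c := by
  obtain ⟨f, hf⟩ := five h2 hc h5 h
  have inv : ∀ v : V, v⁻¹ = v := fun v => inv_eq_of_mul_eq_one_right (h2 v)
  have ex : ∃ x, x ≠ 1 ∧ s x = 1 := by
    by_contra hh
    push Not at hh
    have : Nontrivial V := Finite.one_lt_card_iff_nontrivial.1 (by omega)
    obtain ⟨x, hx⟩ := exists_ne (1 : V)
    have k1 := (q.orb h2 hc h5 h hγ hx).1
    have n1 : x * γ x ≠ 1 := by
      rw [Ne, mul_eq_one_iff_inv_eq, inv]
      intro e; apply hx; rw [← mem_bot, ← hf]; exact e.symm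
    have n2 : x * γ (γ x) ≠ 1 := by
      rw [Ne, mul_eq_one_iff_inv_eq, inv]
      intro e; apply hx; rw [← mem_bot, ← hf, mem_Fx]
      have s5 : γ (γ (γ (γ (γ x)))) = x := by
        have := congrArg (fun f : MulAut V => f x) h5
        simpa [pow_succ] using this
      rwa [← e, ← e] at s5
    have m1 := (hs _).resolve_left (hh _ n1)
    have m2 := (hs _).resolve_left (hh _ n2)
    simp only [q.mul, hγ, q.s2, one_mul] at m1 m2
    rw [m1, m2, ← m1, q.b2] at k1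
    exact hh x hx k1
  obtain ⟨x, hx, hx1⟩ := ex
  obtain ⟨k1, k2, k3, k4⟩ := q.orb h2 hc h5 h hγ hx
  have e : B x (γ (γ x)) = B x (γ x) := by
    rw [hx1, eq_comm, mul_eq_one_iff_inv_eq, inv_eq_of_mul_eq_one_right (q.b2 _ _)] at k1
    exact k1.symm
  obtain ⟨v, hv⟩ := hn
  have s1 : s 1 = 1 := by
    have := q.mul 1 1
    have h1 := q.lin 1 1 1
    rw [mul_one, left_eq_mul] at h1
    rw [mul_one, h1, mul_one, left_eq_mul] at this
    exact this
  have : B x (γ x) = c := by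
    rw [← (hs v).resolve_left hv]
    rcases k4 v with e' | e' | e' | e' | e' | e' | e' | e'
    · exact absurd (by rw [e', s1]) hv
    · exact absurd (by rw [e', hx1]) hv
    · exact absurd (by rw [e', hγ, hx1]) hv
    · exact absurd (by rw [e', hγ, hγ, hx1]) hv
    · exact absurd (by rw [e', hγ, hγ, hγ, hx1]) hv
    · exact absurd (by rw [e', hγ, hγ, hγ, hγ, hx1]) hv
    · exact e'.symm
    · rw [e', e]
  exact ⟨x, hx, hx1, this, e.trans this, k2.trans (e.trans this)⟩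

/-- the quadratic map of a central extension -/
theorem exists_qm {Q : Type*} [Group Q] (φ : Q →* V) (hφ : Function.Surjective φ)
    (h2 : ∀ v : V, v * v = 1) (hz : φ.ker ≤ center Q) (hk : ∀ k ∈ φ.ker, k * k = 1) :
    ∃ (s : V → center Q) (B : V → V → center Q), QM s B ∧ (∀ x, (s (φ x) : Q) = x * x) ∧
      ∀ x y, (B (φ x) (φ y) : Q) = x * y * x⁻¹ * y⁻¹ := by
  choose σ hσ using hφ
  have m1 : ∀ x, x * x ∈ φ.ker := fun x => by rw [MonoidHom.mem_ker, map_mul, h2]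
  have m2 : ∀ x y, x * y * x⁻¹ * y⁻¹ ∈ φ.ker := fun x y => by
    rw [MonoidHom.mem_ker]; simp
  have cz : ∀ k ∈ φ.ker, ∀ x, x * k = k * x := fun k hk x => mem_center_iff.1 (hz hk) x
  have dec : ∀ x, ∃ k ∈ φ.ker, σ (φ x) = x * k := fun x =>
    ⟨x⁻¹ * σ (φ x), by rw [MonoidHom.mem_ker]; simp [hσ], by simp⟩
  have e1 : ∀ x, σ (φ x) * σ (φ x) = x * x := fun x => by
    obtain ⟨k, h, e⟩ := dec x
    rw [e, mul_assoc, ← mul_assoc k, ← cz k h, mul_assoc, hk k h, mul_one]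
  have e2 : ∀ x y, σ (φ x) * σ (φ y) * (σ (φ x))⁻¹ * (σ (φ y))⁻¹ = x * y * x⁻¹ * y⁻¹ := fun x y => by
    obtain ⟨k, h, e⟩ := dec x
    obtain ⟨l, h', e'⟩ := dec y
    rw [e, e', mul_inv_rev, mul_inv_rev]
    calc _ = x * (k * (y * l)) * k⁻¹ * x⁻¹ * l⁻¹ * y⁻¹ := by group
      _ = x * y * (l * x⁻¹) * l⁻¹ * y⁻¹ := by rw [← cz k h]; group
      _ = _ := by rw [← cz l h']; group
  have bl : ∀ x y w : Q, x * y * w * (x * y)⁻¹ * w⁻¹ = x * w * x⁻¹ * w⁻¹ * (y * w * y⁻¹ * w⁻¹) :=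
    fun x y w => by
      calc _ = x * (y * w * y⁻¹ * w⁻¹) * (w * x⁻¹ * w⁻¹) := by simp [mul_assoc]
        _ = _ := by rw [cz _ (m2 y w) x, cz _ (m2 y w)]; simp only [mul_assoc]
  refine ⟨fun v => ⟨σ v * σ v, hz (m1 _)⟩, fun v w => ⟨σ v * σ w * (σ v)⁻¹ * (σ w)⁻¹, hz (m2 _ _)⟩,
    ⟨fun v w => Subtype.ext ?_, fun u v w => Subtype.ext ?_, fun v => Subtype.ext (hk _ (m1 _)),
      fun v w => Subtype.ext (hk _ (m2 _ _))⟩, e1, e2⟩
  · have := e1 (σ v * σ w)
    rw [map_mul, hσ, hσ] at this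
    simp only [coe_mul]
    rw [this]
    generalize σ v = x
    generalize σ w = y
    have h3 : y * x = x * y * (x * y * x⁻¹ * y⁻¹) := by
      rw [cz _ (m2 x y)]
      have := hk _ (m2 x y)
      rw [← eq_inv_iff_mul_eq_one] at this
      rw [this]; group
    calc _ = x * (y * x) * y := by group
      _ = x * x * (y * (x * y * x⁻¹ * y⁻¹) * y) := by rw [h3]; group
      _ = _ := by rw [mul_assoc y, ← cz _ (m2 x y) y]; group
  · have := e2 (σ u * σ v) (σ w)
    rw [map_mul, hσ, hσ, hσ] at this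
    simp only [coe_mul]
    rw [this, bl]

end Cfsg.Agent.H3.R4
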