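import Cfsg.Agent.H3.R4b
import Cfsg.Agent.H3.R4d
import Cfsg.Agent.H12.SR2
import Cfsg.Agent.H9.Basic
import Cfsg.Agent.H1.Solvable

/-! Extensions of 2-groups by simple groups with sectional 2-rank at most 4: framework. -/

set_option autoImplicit false
set_option linter.unusedSectionVars false
open Subgroup
open scoped IsMulCommutative

namespace Cfsg.Agent.H3.R4

universe u

variable {Y : Type u} {K : Type*} [Group Y] [Finite Y] [Group K]

/-- subgroup generated by the squares -/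
def Sq {Y : Type*} [Group Y] (Q : Subgroup Y) : Subgroup Y := closure {y | ∃ x ∈ Q, y = x ^ 2}

theorem sq_mem {Q : Subgroup Y} {x : Y} (hx : x ∈ Q) : x ^ 2 ∈ Sq Q := subset_closure ⟨x, hx, rfl⟩

theorem Sq_le_iff {Q N : Subgroup Y} : Sq Q ≤ N ↔ ∀ x ∈ Q, x ^ 2 ∈ N :=
  ⟨fun h _ hx => h (sq_mem hx), fun h => (closure_le _).2 (by rintro _ ⟨x, hx, rfl⟩; exact h x hx)⟩

theorem Sq_le (Q : Subgroup Y) : Sq Q ≤ Q := Sq_le_iff.2 fun _ hx => pow_mem hx 2

theorem map_Sq {Y' : Type*} [Group Y'] (f : Y →* Y') (Q : Subgroup Y) :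
    (Sq Q).map f = Sq (Q.map f) := by
  rw [Sq, MonoidHom.map_closure, Sq]
  congr 1
  ext y
  constructor
  · rintro ⟨_, ⟨x, hx, rfl⟩, rfl⟩; exact ⟨f x, ⟨x, hx, rfl⟩, map_pow _ _ _⟩
  · rintro ⟨_, ⟨x, hx, rfl⟩, rfl⟩; exact ⟨x ^ 2, ⟨x, hx, rfl⟩, map_pow _ _ _⟩

instance Sq_normal (Q : Subgroup Y) [hQ : Q.Normal] : (Sq Q).Normal := ⟨fun n hn g => by
  have : Sq Q ≤ (Sq Q).comap (MulAut.conj g).toMonoidHom := Sq_le_iff.2 fun x hx => by
    change g * x ^ 2 * g⁻¹ ∈ Sq Q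
    rw [← conj_pow]; exact sq_mem (hQ.conj_mem x hx g)
  exact this hn⟩

theorem Sc.card_le {k : ℕ} (h : Sc k Y) (H M : Subgroup Y) (hM : ∀ y ∈ H, y ^ 2 ∈ M) :
    Nat.card H ≤ Nat.card M * 2 ^ k := by
  have key := h H M hM
  have c3 := (M.subgroupOf H).card_mul_index
  have c5 : Nat.card (M.subgroupOf H) ≤ Nat.card M :=
    Nat.card_le_card_of_injective (fun x => (⟨x.1.1, x.2⟩ : M))
      fun a b e => Subtype.ext (Subtype.ext (Subtype.mk.inj e))
  rw [← c3]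
  exact Nat.mul_le_mul c5 key

/-- standing hypothesis -/
structure Hy (π : Y →* K) : Prop where
  surj : Function.Surjective π
  two : IsPGroup 2 π.ker
  sc : Sc 4 Y
  nc : ¬ ∀ y, ∀ x ∈ π.ker, y * x * y⁻¹ * x⁻¹ ∈ Sq π.ker

variable {π : Y →* K}

theorem ker_lift (N : Subgroup Y) [N.Normal] (hN : N ≤ π.ker) :
    (QuotientGroup.lift N π hN).ker = π.ker.map (QuotientGroup.mk' N) :=
  QuotientGroup.ker_lift N π hN

theorem Hy.quot (h : Hy π) (N : Subgroup Y) [N.Normal] (hN : N ≤ Sq π.ker) :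
    Hy (QuotientGroup.lift N π (hN.trans (Sq_le _))) where
  surj := fun k => by
    obtain ⟨y, rfl⟩ := h.surj k
    exact ⟨y, rfl⟩
  two := by rw [ker_lift]; exact h.two.map _
  sc := h.sc.of_surj _ (QuotientGroup.mk'_surjective N)
  nc := fun hh => h.nc fun y x hx => by
    have := hh (y : Y ⧸ N) (x : Y ⧸ N) hx
    rw [ker_lift, ← map_Sq] at this
    have h2 : y * x * y⁻¹ * x⁻¹ ∈ ((Sq π.ker).map (QuotientGroup.mk' N)).comap (QuotientGroup.mk' N) :=
      this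
    rwa [comap_map_eq, QuotientGroup.ker_mk', sup_eq_left.2 hN] at h2

theorem dichot [IsSimpleGroup K] (hπ : Function.Surjective π) (C : Subgroup Y) [C.Normal]
    (h : π.ker ≤ C) : C = ⊤ ∨ C = π.ker := by
  rcases IsSimpleGroup.eq_bot_or_eq_top_of_normal (C.map π) (Normal.map inferInstance π hπ) with e | e
  · right; exact le_antisymm ((Subgroup.map_eq_bot_iff _).1 e) h
  · left; rw [← comap_map_eq_self h, e, comap_top]

theorem conjNormal_eq_one {N : Subgroup Y} [N.Normal] {w : Y} :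
    MulAut.conjNormal (H := N) w = 1 ↔ w ∈ centralizer (N : Set Y) := by
  constructor
  · intro h v hv
    have := congrArg (fun f : MulAut N => (f ⟨v, hv⟩ : Y)) h
    simp only [MulAut.conjNormal_apply, MulAut.one_apply] at this
    exact (mul_inv_eq_iff_eq_mul.1 this).symm
  · intro h
    ext v
    simp [← h v v.2]

theorem Hy.frame [IsSimpleGroup K] (h : Hy π) :
    ∃ (V : Type u) (_ : CommGroup V) (_ : Finite V) (φ : π.ker →* V) (ρ : Y →* MulAut V),
      Function.Surjective φ ∧ (∀ x, φ x = 1 ↔ x.1 ∈ Sq π.ker) ∧ (∀ v : V, v * v = 1) ∧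
      Nat.card V ≤ 16 ∧ (∀ y x, φ (MulAut.conjNormal y x) = ρ y (φ x)) ∧
      ∀ w, ρ w = 1 ↔ π w = 1 := by
  have h' := h.quot (Sq π.ker) le_rfl
  set π' := QuotientGroup.lift (Sq π.ker) π (le_rfl.trans (Sq_le _)) with hπ'
  have e : Sq π'.ker = ⊥ := by
    rw [hπ', ker_lift, ← map_Sq, Subgroup.map_eq_bot_iff, QuotientGroup.ker_mk']
  have h2 : ∀ t ∈ π'.ker, t ^ 2 = 1 := fun t ht => by rw [← mem_bot, ← e]; exact sq_mem ht
  have hc := H12.SR.comm_of_sq h2
  have : IsMulCommutative π'.ker := ⟨⟨fun a b => Subtype.ext (hc b.2 a a.2)⟩⟩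
  let φ : π.ker →* π'.ker := ((QuotientGroup.mk' _).comp π.ker.subtype).codRestrict _ fun x => x.2
  refine ⟨π'.ker, inferInstance, inferInstance, φ, MulAut.conjNormal.comp (QuotientGroup.mk' _),
    ?_, fun x => ?_, fun v => Subtype.ext ?_, ?_, fun y x => rfl, fun w => ?_⟩
  · rintro ⟨v, hv⟩
    obtain ⟨x, rfl⟩ := QuotientGroup.mk_surjective v
    exact ⟨⟨x, hv⟩, rfl⟩
  · rw [← QuotientGroup.eq_one_iff, Subtype.ext_iff]; rfl
  · rw [coe_mul, ← pow_two]; exact h2 _ v.2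
  · have := h'.sc.card_le π'.ker ⊥ fun y hy => h2 y hy
    simpa using this
  · rw [MonoidHom.comp_apply, conjNormal_eq_one]
    rcases dichot h'.surj _ hc with e1 | e1
    · exfalso
      refine h'.nc fun y x hx => ?_
      have : y ∈ centralizer (π'.ker : Set (Y ⧸ Sq π.ker)) := e1 ▸ mem_top y
      rw [← this x hx]; simp
    · rw [e1]; rfl

theorem card_comap_ker {G G' : Type*} [Group G] [Group G'] [Finite G] (f : G →* G')
    (hf : Function.Surjective f) (E : Subgroup G') :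
    Nat.card (E.comap f) = Nat.card f.ker * Nat.card E := by
  have h1 : f.ker ≤ E.comap f := ker_le_comap _ _
  have h3 := relIndex_ker (E.comap f) f
  rw [map_comap_eq_self_of_surjective hf] at h3
  rw [← h3, relIndex, ← Nat.card_congr (subgroupOfEquivOfLe h1).toEquiv, card_mul_index]

theorem card_ker_phi {V : Type*} [Group V] {φ : π.ker →* V}
    (hk : ∀ x, φ x = 1 ↔ x.1 ∈ Sq π.ker) : Nat.card φ.ker = Nat.card (Sq π.ker) := by
  have : φ.ker = (Sq π.ker).subgroupOf π.ker := by ext x; exact hk x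
  rw [this, Nat.card_congr (subgroupOfEquivOfLe (Sq_le _)).toEquiv]

/-- minimal normal subgroups inside the kernel -/
theorem exists_min (hQ : IsPGroup 2 π.ker) {F : Subgroup Y} [F.Normal] (hF : F ≤ π.ker) (h0 : F ≠ ⊥) :
    ∃ N : Subgroup Y, ∃ _ : N.Normal, N ≠ ⊥ ∧ N ≤ F ∧ (∀ x ∈ N, x * x = 1) ∧
      π.ker ≤ centralizer (N : Set Y) ∧ ∀ L : Subgroup Y, L.Normal → L ≤ N → L = ⊥ ∨ L = N := by
  obtain ⟨N, hN, h1, h2, h3⟩ := H1.exists_minimal_normal_le F h0
  obtain ⟨z, hz, hc, ho⟩ := H9.exists_mem_center_orderOf_eq hQ (M := N.subgroupOf π.ker)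
    (by rwa [Ne, subgroupOf_eq_bot, disjoint_iff, inf_eq_left.2 (h2.trans hF)])
  let L : Subgroup Y :=
    { carrier := {x | x ∈ N ∧ x * x = 1 ∧ ∀ q ∈ π.ker, q * x = x * q}
      one_mem' := ⟨one_mem _, by simp, by simp⟩
      mul_mem' := by
        rintro a b ⟨a1, a2, a3⟩ ⟨b1, b2, b3⟩
        refine ⟨mul_mem a1 b1, ?_, fun q hq => by rw [← mul_assoc, a3 q hq, mul_assoc, b3 q hq, mul_assoc]⟩
        rw [mul_assoc, ← mul_assoc b, a3 b (hF (h2 b1)), mul_assoc, b2, mul_one, a2]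
      inv_mem' := by
        rintro a ⟨a1, a2, a3⟩
        rw [inv_eq_of_mul_eq_one_right a2]; exact ⟨a1, a2, a3⟩ }
  have hL : L.Normal := ⟨by
    rintro a ⟨a1, a2, a3⟩ g
    refine ⟨hN.conj_mem a a1 g, by rw [conj_mul, a2]; simp, fun q hq => ?_⟩
    have := a3 _ ((MonoidHom.normal_ker π).conj_mem q hq g⁻¹)
    calc _ = g * (g⁻¹ * q * g⁻¹⁻¹ * a) * g⁻¹ := by group
      _ = _ := by rw [this]; group⟩
  have e := (h3 L hL fun _ h => h.1).resolve_left fun e => by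
    have : z.1 ∈ L := ⟨hz, by
      have := pow_orderOf_eq_one z
      rw [ho, pow_two] at this
      exact congrArg Subtype.val this, fun q hq => congrArg Subtype.val (mem_center_iff.1 hc ⟨q, hq⟩)⟩
    rw [e, mem_bot] at this
    have h5 : z = 1 := Subtype.ext this
    rw [h5, orderOf_one] at ho; omega
  exact ⟨N, hN, h1, h2, fun x hx => (e.ge hx).2.1, fun q hq x hx => ((e.ge hx).2.2 q hq).symm, h3⟩

theorem card_two_of_central {N : Subgroup Y} (h0 : N ≠ ⊥) (h2 : ∀ x ∈ N, x * x = 1)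
    (hc : centralizer (N : Set Y) = ⊤)
    (hm : ∀ L : Subgroup Y, L.Normal → L ≤ N → L = ⊥ ∨ L = N) : Nat.card N = 2 := by
  obtain ⟨⟨x, hx⟩, hx1⟩ := (ne_bot_iff_exists_ne_one).1 h0
  have hx1' : x ≠ 1 := fun e => hx1 (Subtype.ext e)
  have hn : (zpowers x).Normal := ⟨fun n hn g => by
    have := (hc.ge (mem_top g)) n (zpowers_le_of_mem hx hn)
    rwa [← this, mul_inv_cancel_right]⟩
  rw [← (hm _ hn (zpowers_le_of_mem hx)).resolve_left (by rwa [zpowers_eq_bot]), Nat.card_zpowers]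
  exact orderOf_eq_prime (by rw [pow_two, h2 x hx]) hx1'

end Cfsg.Agent.H3.R4
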