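import Cfsg.Agent.H3.R4d
import Cfsg.Agent.H1.AutP

/-! Automorphisms of order 7 of elementary abelian groups of order 8 and 16. -/

set_option autoImplicit false
set_option linter.unusedSectionVars false
open Subgroup
open scoped IsMulCommutative

namespace Cfsg.Agent.H3.R4

variable {V : Type*} [CommGroup V] [Finite V]

theorem seven (h2 : ∀ v : V, v * v = 1) (hc : Nat.card V ≤ 16) {α : MulAut V} (h7 : α ^ 7 = 1)
    (h : α ≠ 1) : (Nat.card V = 8 ∧ Fx α = ⊥) ∨ (Nat.card V = 16 ∧ Nat.card (Fx α) = 2) := by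
  have h1 := modEq_Fx (by norm_num) h7 ⊤ (fun _ _ => trivial)
  rw [top_inf_eq, card_top] at h1
  have h3 := card_lt_of_ne h
  obtain ⟨a, ha⟩ := (isP h2).exists_card_eq
  obtain ⟨b, hb⟩ := ((isP h2).to_subgroup (Fx α)).exists_card_eq
  rw [← card_eq_one, ha, hb]
  rw [ha, hb] at h1 h3
  rw [ha] at hc
  clear ha hb
  have ha4 : a ≤ 4 := (Nat.pow_le_pow_iff_right (a := 2) (by norm_num)).1 hc
  have hb4 : b < a := (Nat.pow_lt_pow_iff_right (a := 2) (by norm_num)).1 h3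
  interval_cases a <;> interval_cases b <;> simp_all (config := {decide := true})

theorem fix_of_pow {V : Type*} [Group V] {α : MulAut V} (h7 : α ^ 7 = 1) {i : ℕ} (hi : 0 < i)
    (hi' : i < 7) {x : V} (h : (α ^ i) x = x) : α x = x := by
  have key : ∀ k : ℕ, ((α ^ i) ^ k) x = x := fun k => by
    induction k with
    | zero => rfl
    | succ k ih => rw [pow_succ, MulAut.mul_apply, h, ih]
  obtain ⟨k, hk⟩ : ∃ k, i * k % 7 = 1 := by
    interval_cases i
    exacts [⟨1, rfl⟩, ⟨4, rfl⟩, ⟨5, rfl⟩, ⟨2, rfl⟩, ⟨3, rfl⟩, ⟨6, rfl⟩]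
  have := key k
  rwa [← pow_mul, pow_eq_pow_mod _ h7, hk, pow_one] at this

theorem trans7 {V : Type*} [Group V] [Finite V] {α : MulAut V} (h7 : α ^ 7 = 1) {U : Subgroup V}
    (hU : ∀ u ∈ U, α u ∈ U) (hc : Nat.card U = 8) (hf : ∀ u ∈ U, α u = u → u = 1) {x y : V}
    (hx : x ∈ U) (hx1 : x ≠ 1) (hy : y ∈ U) (hy1 : y ≠ 1) : ∃ i < 7, (α ^ i) x = y := by
  classical
  have hm : ∀ i : ℕ, (α ^ i) x ∈ U := fun i => by
    induction i with
    | zero => exact hx
    | succ i ih => rw [pow_succ', MulAut.mul_apply]; exact hU _ ih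
  let f : Option (Fin 7) → U := fun o => o.elim 1 fun i => ⟨(α ^ i.1) x, hm i⟩
  have lt : ∀ i j : Fin 7, i < j → (α ^ i.1) x ≠ (α ^ j.1) x := fun i j hij e => by
    obtain ⟨d, hd⟩ := Nat.exists_eq_add_of_lt (show i.1 < j.1 from hij)
    rw [hd, add_assoc, pow_add, MulAut.mul_apply] at e
    exact hx1 (hf x hx (fix_of_pow h7 (by omega) (by omega) ((α ^ i.1).injective e).symm))
  have hi : Function.Injective f := by
    rintro (_ | i) (_ | j) e
    · rfl
    · exact absurd ((map_eq_one_iff _ (α ^ j.1).injective).1 (congrArg Subtype.val e).symm) hx1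
    · exact absurd ((map_eq_one_iff _ (α ^ i.1).injective).1 (congrArg Subtype.val e)) hx1
    · rcases lt_trichotomy i j with h | h | h
      · exact absurd (congrArg Subtype.val e) (lt i j h)
      · rw [h]
      · exact absurd (congrArg Subtype.val e).symm (lt j i h)
  obtain ⟨_ | i, e⟩ := (hi.bijective_of_nat_card_le (by simp [hc])).2 ⟨y, hy⟩
  · exact absurd (congrArg Subtype.val e).symm hy1
  · exact ⟨i, i.2, congrArg Subtype.val e⟩

theorem dl_facts (h2 : ∀ v : V, v * v = 1) (hc : Nat.card V ≤ 16) {α : MulAut V} (h7 : α ^ 7 = 1)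
    (h : α ≠ 1) : Nat.card (dl α).range = 8 ∧ (∀ u ∈ (dl α).range, α u ∈ (dl α).range) ∧
      (∀ u ∈ (dl α).range, α u = u → u = 1) ∧ ∀ v, ∃ u ∈ (dl α).range, ∃ z ∈ Fx α, v = z * u := by
  have h1 := dl_card h2 α
  have c8 : Nat.card (dl α).range = 8 ∧ Nat.card (Fx α) ≤ 2 := by
    rcases seven h2 hc h7 h with ⟨a, b⟩ | ⟨a, b⟩
    · rw [b, card_bot] at h1 ⊢; omega
    · rw [b] at h1 ⊢; omega
  have inv : ∀ u ∈ (dl α).range, α u ∈ (dl α).range := by
    rintro _ ⟨v, rfl⟩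
    exact ⟨α v, (map_mul α _ _).symm⟩
  have h3 := modEq_Fx (by norm_num) h7 _ inv
  have h4 := card_le_of_le (inf_le_right : (dl α).range ⊓ Fx α ≤ _)
  have h5 : (dl α).range ⊓ Fx α = ⊥ := by
    rw [← card_eq_one]
    rw [c8.1] at h3
    have := c8.2
    unfold Nat.ModEq at h3
    omega
  have fp : ∀ u ∈ (dl α).range, α u = u → u = 1 := fun u hu e => by
    rw [← mem_bot, ← h5]; exact ⟨hu, e⟩
  refine ⟨c8.1, inv, fp, fun v => ?_⟩
  let f : (dl α).range → (dl α).range := fun u => ⟨dl α u, u, rfl⟩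
  have : Function.Injective f := fun a b e => by
    have e' : dl α (a.1 * b.1⁻¹) = 1 := by
      rw [map_mul, map_inv, mul_inv_eq_one]; exact congrArg Subtype.val e
    rw [← MonoidHom.mem_ker, dl_ker h2] at e'
    exact Subtype.ext (mul_inv_eq_one.1 (fp _ (mul_mem a.2 (inv_mem b.2)) e'))
  obtain ⟨u, hu⟩ := Finite.injective_iff_surjective.1 this ⟨dl α v, v, rfl⟩
  refine ⟨u, u.2, v * (u : V)⁻¹, ?_, by simp⟩
  rw [← dl_ker h2, MonoidHom.mem_ker, map_mul, map_inv, mul_inv_eq_one]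
  exact (congrArg Subtype.val hu).symm

theorem coord3 (h2 : ∀ v : V, v * v = 1) (hc : Nat.card V = 8) :
    Nonempty (V ≃* (Fin 3 → Multiplicative (ZMod 2))) := by
  letI : Module (ZMod 2) (Additive V) := AddCommGroup.zmodModule fun x => by
    change Additive.ofMul (x.toMul ^ 2) = 0
    rw [pow_two, h2]; rfl
  have h3 : Module.finrank (ZMod 2) (Additive V) = 3 := by
    have h := Module.natCard_eq_pow_finrank (K := ZMod 2) (V := Additive V)
    rw [Nat.card_zmod, show Nat.card (Additive V) = 8 from hc] at h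
    exact Nat.pow_right_injective le_rfl (h.symm.trans (by norm_num))
  let e := (Module.finBasisOfFinrankEq (ZMod 2) (Additive V) h3).equivFun.toAddEquiv
  exact ⟨(AddEquiv.toMultiplicativeRight e).trans (MulEquiv.funMultiplicative _ _)⟩

/-- coordinates for a transvection group normalised by an element of order 3 -/
structure Co {W : Type*} [Group W] (w k : W) (τ η : MulAut W) : Prop where
  w1 : w ≠ 1
  tv : ∀ v, τ v = v ∨ τ v = v * w
  hw : η w = w
  tw : τ w = w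
  fpf : ∀ v, η v * v⁻¹ = 1 ∨ η v * v⁻¹ = w → v = 1 ∨ v = w
  mv : ∀ v, v = 1 ∨ v = w ∨ τ v ≠ v ∨ η (τ (η⁻¹ v)) ≠ v
  t2 : τ * τ = 1
  h3 : η ^ 3 = 1
  pr : τ * (η * τ * η⁻¹) * (η * (η * τ * η⁻¹) * η⁻¹) = 1
  cm : τ * (η * τ * η⁻¹) = η * τ * η⁻¹ * τ
  n1 : τ ≠ 1
  n2 : η * τ * η⁻¹ ≠ 1
  n3 : η * τ * η⁻¹ ≠ τ
  n4 : η ≠ 1
  k1 : k ≠ 1
  k2 : k ≠ w
  tk : τ k = k
  ex : ∃ x, τ x = x * w
  fx : ∀ x y, τ x = x → τ y = y → x = 1 ∨ x = w ∨ y = 1 ∨ y = w ∨ x * y = 1 ∨ x * y = w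
  gen : ∀ v, ∃ a b c : Fin 2, v = w ^ a.1 * k ^ b.1 * η k ^ c.1

/-- a transvection -/
def tau0 : MulAut (Fin 3 → Multiplicative (ZMod 2)) where
  toFun v := ![v 0 * v 1, v 1, v 2]
  invFun v := ![v 0 * v 1, v 1, v 2]
  left_inv := by decide
  right_inv := by decide
  map_mul' := by decide

/-- an element of order three -/
def eta0 : MulAut (Fin 3 → Multiplicative (ZMod 2)) where
  toFun v := ![v 0, v 2, v 1 * v 2]
  invFun v := ![v 0, v 1 * v 2, v 1]
  left_inv := by decide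
  right_inv := by decide
  map_mul' := by decide

set_option synthInstance.maxSize 1024 in
theorem co0 : Co ![Multiplicative.ofAdd 1, 1, 1] ![1, 1, Multiplicative.ofAdd 1] tau0 eta0 where
  w1 := by decide
  tv := by decide
  hw := by decide
  tw := by decide
  fpf := by decide
  mv := by decide
  t2 := MulEquiv.ext (by decide)
  h3 := MulEquiv.ext (by decide)
  pr := MulEquiv.ext (by decide)
  cm := MulEquiv.ext (by decide)
  n1 := fun h => absurd (MulEquiv.congr_fun h) (by decide)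
  n2 := fun h => absurd (MulEquiv.congr_fun h) (by decide)
  n3 := fun h => absurd (MulEquiv.congr_fun h) (by decide)
  n4 := fun h => absurd (MulEquiv.congr_fun h) (by decide)
  k1 := by decide
  k2 := by decide
  tk := by decide
  ex := by decide
  fx := by decide
  gen := by decide

theorem card_aut3 : Nat.card (MulAut (Fin 3 → Multiplicative (ZMod 2))) ≤ 168 :=
  Nat.le_of_dvd (by norm_num) (by
    simpa [Finset.prod_range_succ] using H1.card_mulAut_elab_dvd
      (E := Fin 3 → Multiplicative (ZMod 2)) (p := 2) (r := 3) inferInstance (by decide) (by simp))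

variable {Z : Type*} [CommGroup Z] {s : V → Z} {B : V → V → Z}

theorem QM.one (q : QM s B) : s 1 = 1 ∧ ∀ v, B 1 v = 1 := by
  have b : ∀ v, B 1 v = 1 := fun v => by
    have h1 := q.lin 1 1 v
    rwa [mul_one, left_eq_mul] at h1
  have := q.mul 1 1
  rw [mul_one, b, mul_one, left_eq_mul] at this
  exact ⟨this, b⟩

theorem QM.lin' (q : QM s B) (u v w : V) : B u (v * w) = B u v * B u w := by
  rw [q.symm, q.lin, q.symm v, q.symm w]

theorem QM.self (q : QM s B) (h2 : ∀ v : V, v * v = 1) (v : V) : B v v = 1 := by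
  have := q.mul v v
  rw [h2, q.one.1, q.s2, one_mul] at this
  exact this.symm

theorem QM.aniso (q : QM s B) (h2 : ∀ v : V, v * v = 1) {U : Subgroup V} (hU : Nat.card U = 8) {c : Z}
    (h : ∀ u ∈ U, u ≠ 1 → s u = c) : c = 1 := by
  classical
  have inv : ∀ v : V, v⁻¹ = v := fun v => inv_eq_of_mul_eq_one_right (h2 v)
  have ex : ∀ S : Finset V, S.card < 8 → ∃ u ∈ U, u ∉ S := fun S hS => by
    by_contra hh
    push Not at hh
    have := Nat.card_le_card_of_injective (fun u : U => (⟨u.1, hh u u.2⟩ : S))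
      fun a b e => Subtype.ext (Subtype.mk.inj e)
    rw [hU, Nat.card_eq_finsetCard] at this
    omega
  obtain ⟨u, hu, u1⟩ := ex {1} (by simp)
  obtain ⟨v, hv, v1⟩ := ex {1, u} (lt_of_le_of_lt Finset.card_le_two (by norm_num))
  obtain ⟨w, hw, w1⟩ := ex {1, u, v, u * v} (lt_of_le_of_lt Finset.card_le_four (by norm_num))
  simp only [Finset.mem_insert, Finset.mem_singleton, not_or] at u1 v1 w1
  have c2 : c * c = 1 := by rw [← h u hu u1]; exact q.s2 u
  have key : ∀ y ∈ U, y ≠ 1 → y ≠ u → B u y = c := fun y hy y1 yu => by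
    have := q.mul u y
    rw [h _ (mul_mem hu hy) (by rw [Ne, mul_eq_one_iff_inv_eq, inv]; exact yu.symm), h u hu u1,
      h y hy y1, c2, one_mul] at this
    exact this.symm
  have := q.lin' u v w
  rw [key v hv v1.1 v1.2, key w hw w1.1 w1.2.1, c2, key _ (mul_mem hv hw)
    (by rw [Ne, mul_eq_one_iff_inv_eq, inv]; exact Ne.symm w1.2.2.1)
    (fun e => w1.2.2.2 (by rw [← e, mul_comm v, mul_assoc, h2, mul_one]))] at this
  exact this

theorem QM.sev (q : QM s B) (h2 : ∀ v : V, v * v = 1) (hc : Nat.card V ≤ 16) {γ : MulAut V}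
    (h7 : γ ^ 7 = 1) (h : γ ≠ 1) (hγ : ∀ v, s (γ v) = s v) :
    (∀ u v, B u v = 1) ∧ ∀ u ∈ (dl γ).range, s u = 1 := by
  obtain ⟨c8, inv, fp, dec⟩ := dl_facts h2 hc h7 h
  have sp : ∀ (i : ℕ) v, s ((γ ^ i) v) = s v := fun i v => by
    induction i with
    | zero => rfl
    | succ i ih => rw [pow_succ', MulAut.mul_apply, hγ, ih]
  have : Nontrivial (dl γ).range := Finite.one_lt_card_iff_nontrivial.1 (by omega)
  obtain ⟨⟨x, hx⟩, hx1⟩ := exists_ne (1 : (dl γ).range)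
  have hx1' : x ≠ 1 := fun e => hx1 (Subtype.ext e)
  have cst : ∀ u ∈ (dl γ).range, u ≠ 1 → s u = s x := fun u hu u1 => by
    obtain ⟨i, -, rfl⟩ := trans7 h7 inv c8 fp hx hx1' hu u1
    exact sp i x
  have s1 : ∀ u ∈ (dl γ).range, s u = 1 := fun u hu => by
    by_cases u1 : u = 1
    · rw [u1, q.one.1]
    · rw [cst u hu u1, q.aniso h2 c8 cst]
  have b1 : ∀ u ∈ (dl γ).range, ∀ v ∈ (dl γ).range, B u v = 1 := fun u hu v hv => by
    have := q.mul u v
    rw [s1 u hu, s1 v hv, s1 _ (mul_mem hu hv), one_mul, one_mul] at this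
    exact this.symm
  have b2 : ∀ z ∈ Fx γ, ∀ u ∈ (dl γ).range, B z u = 1 := by
    rintro z hz _ ⟨u, rfl⟩
    change B z (γ u * u) = 1
    rw [q.lin']
    nth_rewrite 1 [← show γ z = z from hz]
    rw [q.inv hγ, q.b2]
  have b3 : ∀ z ∈ Fx γ, ∀ z' ∈ Fx γ, B z z' = 1 := fun z hz z' hz' => by
    by_cases e : z = 1
    · rw [e, q.one.2]
    by_cases e' : z' = 1
    · rw [e', q.symm, q.one.2]
    rcases seven h2 hc h7 h with ⟨-, b⟩ | ⟨-, b⟩
    · exact absurd (b ▸ hz) (by rwa [mem_bot])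
    · obtain ⟨w, -, hw⟩ := (Nat.card_eq_two_iff' (1 : Fx γ)).1 b
      have := (hw ⟨z, hz⟩ fun h => e (congrArg Subtype.val h)).trans
        (hw ⟨z', hz'⟩ fun h => e' (congrArg Subtype.val h)).symm
      rw [Subtype.mk.inj this, q.self h2]
  refine ⟨fun u v => ?_, s1⟩
  obtain ⟨u, hu, z, hz, rfl⟩ := dec u
  obtain ⟨u', hu', z', hz', rfl⟩ := dec v
  rw [q.lin, q.lin', q.lin', b1 u hu u' hu', b2 z hz u' hu', q.symm u, b2 z' hz' u hu, b3 z hz z' hz']
  simp

theorem red16 {Y : Type*} [Group Y] (h2 : ∀ v : V, v * v = 1) (hc : Nat.card V = 16)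
    (ρ : Y →* MulAut V) {g : Y} (h7 : ρ g ^ 7 = 1) (h : ρ g ≠ 1) (h5 : ¬ 5 ∣ Nat.card ρ.range) :
    (∀ y, ∀ z ∈ Fx (ρ g), ρ y z = z) ∨ ∀ y, ∀ u ∈ (dl (ρ g)).range, ρ y u ∈ (dl (ρ g)).range := by
  obtain ⟨c8, inv, fp, dec⟩ := dl_facts h2 hc.le h7 h
  have c2 := ((seven h2 hc.le h7 h).resolve_left (by omega)).2
  obtain ⟨⟨v0, hv0⟩, v1, hu⟩ := (Nat.card_eq_two_iff' (1 : Fx (ρ g))).1 c2
  have v1' : v0 ≠ 1 := fun e => v1 (Subtype.ext e)
  have fz : ∀ z ∈ Fx (ρ g), z = 1 ∨ z = v0 := fun z hz => or_iff_not_imp_left.2 fun e =>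
    Subtype.mk.inj (hu ⟨z, hz⟩ fun h => e (congrArg Subtype.val h))
  set W := (dl (ρ g)).range
  have v0W : v0 ∉ W := fun e => v1' (fp _ e hv0)
  have dec' : ∀ v, v ∈ W ∨ ∃ u ∈ W, v = v0 * u := fun v => by
    obtain ⟨u, hu, z, hz, rfl⟩ := dec v
    rcases fz z hz with e | e
    · left; rwa [e, one_mul]
    · right; exact ⟨u, hu, by rw [e]⟩
  have pw : ∀ i : ℕ, (ρ g ^ i) v0 = v0 := fun i => by
    induction i with
    | zero => rfl
    | succ i ih => rw [pow_succ, MulAut.mul_apply, show ρ g v0 = v0 from hv0, ih]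
  have ne1 : ∀ y, ρ y v0 ≠ 1 := fun y e => v1' ((map_eq_one_iff _ (ρ y).injective).1 e)
  have P1 : ∀ y, ρ y v0 ∈ W → ∀ u ∈ W, u ≠ 1 → ∃ y, ρ y v0 = u := fun y hy u hu u1 => by
    obtain ⟨i, -, e⟩ := trans7 h7 inv c8 fp hy (ne1 y) hu u1
    exact ⟨g ^ i * y, by rw [map_mul, map_pow, MulAut.mul_apply, e]⟩
  have P2 : ∀ y, ∀ u0 ∈ W, u0 ≠ 1 → ρ y v0 = v0 * u0 → ∀ u ∈ W, ∃ y, ρ y v0 = v0 * u :=
    fun y u0 h0 h1 hy u hu => by
    by_cases u1 : u = 1
    · exact ⟨1, by simp [u1]⟩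
    obtain ⟨i, -, e⟩ := trans7 h7 inv c8 fp h0 h1 hu u1
    exact ⟨g ^ i * y, by rw [map_mul, map_pow, MulAut.mul_apply, hy, map_mul, e, pw]⟩
  have back : ∀ y y' u, ρ y u = ρ y' v0 → ∃ y, ρ y v0 = u := fun y y' u e =>
    ⟨y⁻¹ * y', by rw [map_mul, MulAut.mul_apply, ← e, map_inv]; simp⟩
  by_cases a1 : ∃ y, ρ y v0 ∈ W
  · obtain ⟨y1, hy1⟩ := a1
    by_cases a2 : ∃ y, ∃ u0 ∈ W, u0 ≠ 1 ∧ ρ y v0 = v0 * u0
    · exfalso
      obtain ⟨y2, u0, b0, b1, b2⟩ := a2
      apply h5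
      have e : MulAction.orbit ρ.range v0 = {1}ᶜ := by
        ext v
        constructor
        · rintro ⟨⟨_, y, rfl⟩, rfl⟩; exact ne1 y
        · intro hv
          rcases dec' v with hw | ⟨u, hw, rfl⟩
          · obtain ⟨y, e⟩ := P1 y1 hy1 v hw hv
            exact ⟨⟨_, y, rfl⟩, e⟩
          · obtain ⟨y, e⟩ := P2 y2 u0 b0 b1 b2 u hw
            exact ⟨⟨_, y, rfl⟩, e⟩
      have := (MulAction.stabilizer ρ.range v0).index_dvd_card
      rw [MulAction.index_stabilizer, e, Set.ncard_compl, Set.ncard_singleton, hc] at this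
      exact (by norm_num : 5 ∣ 16 - 1).trans this
    · right
      push Not at a2
      have O2 : ∀ y, ∀ u ∈ W, u ≠ 1 → ρ y (v0 * u) ∉ W := fun y u hu u1 e => by
        by_cases e1 : ρ y (v0 * u) = 1
        · rw [map_eq_one_iff _ (ρ y).injective, mul_eq_one_iff_eq_inv] at e1
          exact v0W (e1 ▸ inv_mem hu)
        obtain ⟨y', e'⟩ := P1 y1 hy1 _ e e1
        obtain ⟨y'', e''⟩ := back y y' _ e'.symm
        exact a2 y'' u hu u1 e''
      intro y u hu
      obtain ⟨u', hu', n1, n2⟩ : ∃ u' ∈ W, u' ≠ 1 ∧ u * u' ≠ 1 := by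
        classical
        by_contra hh
        push Not at hh
        have := Nat.card_le_card_of_injective (fun x : W => decide (x.1 = 1)) fun a b e => by
          by_cases ha : a.1 = 1
          · simp only [ha, decide_true, true_eq_decide_iff] at e
            exact Subtype.ext (ha.trans e.symm)
          · simp only [ha, decide_false, false_eq_decide_iff] at e
            exact Subtype.ext (mul_left_cancel ((hh a a.2 ha).trans (hh b b.2 e).symm))
        rw [c8] at this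
        simp at this
      obtain ⟨a, ha, e1⟩ := (dec' _).resolve_left (O2 y u' hu' n1)
      obtain ⟨b, hb, e2⟩ := (dec' _).resolve_left (O2 y _ (mul_mem hu hu') n2)
      have : u = v0 * u' * (v0 * (u * u')) := by
        rw [mul_mul_mul_comm, h2, one_mul, mul_left_comm, h2, mul_one]
      rw [this, map_mul, e1, e2, mul_mul_mul_comm, h2, one_mul]
      exact mul_mem ha hb
  · push Not at a1
    by_cases a2 : ∃ y, ∃ u0 ∈ W, u0 ≠ 1 ∧ ρ y v0 = v0 * u0
    · right
      obtain ⟨y2, u0, b0, b1, b2⟩ := a2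
      intro y u hu
      refine (dec' _).resolve_right ?_
      rintro ⟨a, ha, e⟩
      obtain ⟨y', e'⟩ := P2 y2 u0 b0 b1 b2 a ha
      obtain ⟨y'', e''⟩ := back y y' u (e.trans e'.symm)
      exact a1 y'' (e'' ▸ hu)
    · left
      push Not at a2
      intro y z hz
      rcases fz z hz with rfl | rfl
      · exact map_one _
      obtain ⟨a, ha, e⟩ := (dec' _).resolve_left (a1 y)
      by_cases a3 : a = 1
      · rw [e, a3, mul_one]
      · exact absurd e (a2 y a ha a3)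

end Cfsg.Agent.H3.R4
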