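import Mathlib

/-! The faithful irreducible modules over `F₂` of the group `3² : D₈`. -/

set_option autoImplicit false

namespace Cfsg.Agent.H3.S3Wr

open DihedralGroup

section grp

variable {A : Type*} [CommGroup A] [Finite A]

theorem gen (h9 : Nat.card A = 9) (h3 : ∀ x : A, x ^ 3 = 1) {a b : A} (ha : a ≠ 1)
    (hb : b ∉ Subgroup.zpowers a) (x : A) : ∃ i j : ℕ, i < 3 ∧ j < 3 ∧ x = a ^ i * b ^ j := by
  have : Fact (Nat.Prime 3) := ⟨Nat.prime_three⟩
  have hb1 : b ≠ 1 := by rintro rfl; exact hb (one_mem _)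
  have oa : orderOf a = 3 := orderOf_eq_prime (h3 a) ha
  have ob : orderOf b = 3 := orderOf_eq_prime (h3 b) hb1
  have htop : Subgroup.zpowers a ⊔ Subgroup.zpowers b = ⊤ := by
    set K := Subgroup.zpowers a ⊔ Subgroup.zpowers b with hK
    have h1 : Nat.card K ∣ 3 ^ 2 := (Subgroup.card_subgroup_dvd_card K).trans h9.dvd
    have h2 : 3 ∣ Nat.card K := by
      rw [← oa, ← Nat.card_zpowers]; exact Subgroup.card_dvd_of_le le_sup_left
    obtain ⟨k, hk, hk'⟩ := (Nat.dvd_prime_pow Nat.prime_three).1 h1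
    interval_cases k
    · rw [hk'] at h2; norm_num at h2
    · exfalso
      have : Subgroup.zpowers a = K := Subgroup.eq_of_le_of_card_ge le_sup_left (by
        rw [hk', Nat.card_zpowers, oa]; norm_num)
      apply hb
      rw [this]
      exact (le_sup_right : _ ≤ K) (Subgroup.mem_zpowers b)
    · exact Subgroup.eq_top_of_card_eq _ (by rw [hk', h9]; norm_num)
  classical
  obtain ⟨y, hy, w, hw, rfl⟩ := Subgroup.mem_sup.1 (htop ▸ Subgroup.mem_top x)
  rw [mem_zpowers_iff_mem_range_orderOf, Finset.mem_image] at hy hw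
  obtain ⟨i, hi, rfl⟩ := hy
  obtain ⟨j, hj, rfl⟩ := hw
  exact ⟨i, j, by simpa [oa] using hi, by simpa [ob] using hj, rfl⟩

omit [Finite A] in
theorem eq_one_of_inv (h3 : ∀ x : A, x ^ 3 = 1) {x : A} (h : x⁻¹ = x) : x = 1 := by
  have := h3 x
  rw [pow_succ, pow_two] at this
  nth_rewrite 1 [← h] at this
  simpa using this

theorem inv_of_faithful (h9 : Nat.card A = 9) (h3 : ∀ x : A, x ^ 3 = 1)
    (σ : MulAut A) (h4 : ∀ x, σ (σ (σ (σ x))) = x) (hne : ∃ x, σ (σ x) ≠ x) (x : A) :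
    σ (σ x) = x⁻¹ := by
  by_contra hx
  obtain ⟨y, hy⟩ := hne
  set c := x * σ (σ x) with hc
  set d := y * (σ (σ y))⁻¹ with hd
  have hc1 : c ≠ 1 := fun h => hx (eq_inv_of_mul_eq_one_right h)
  have hd1 : d ≠ 1 := fun h => hy (mul_inv_eq_one.1 h).symm
  have hc2 : σ (σ c) = c := by rw [hc, map_mul, map_mul, h4, mul_comm]
  have hd2 : σ (σ d) = d⁻¹ := by
    rw [hd, map_mul, map_mul, map_inv, map_inv, h4, mul_inv_rev, inv_inv]
  have hdc : d ∉ Subgroup.zpowers c := by
    rintro ⟨k, hk⟩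
    apply hd1
    apply eq_one_of_inv h3
    rw [← hd2, ← hk]
    simp only [map_zpow, hc2]
  obtain ⟨i, j, -, hj, h⟩ := gen h9 h3 hc1 hdc (σ d)
  have h5 : c ^ i = 1 := by
    apply eq_one_of_inv h3
    have h6 : σ (σ (σ d)) = (σ d)⁻¹ := by rw [hd2, map_inv]
    rw [h] at h6
    simp only [map_mul, map_pow, hc2, hd2, mul_inv, inv_pow] at h6
    exact (mul_right_cancel h6).symm
  rw [h5, one_mul] at h
  have h7 : d⁻¹ = d ^ (j * j) := by rw [← hd2, h, map_pow, h, ← pow_mul]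
  apply hd1
  interval_cases j
  · simpa using h7
  · exact eq_one_of_inv h3 (by simpa using h7)
  · exact eq_one_of_inv h3 (by rw [h7, show 2 * 2 = 3 + 1 by rfl, pow_succ, h3, one_mul])

theorem gen' (h9 : Nat.card A = 9) (h3 : ∀ x : A, x ^ 3 = 1)
    (σ : MulAut A) (hσ : ∀ x, σ (σ x) = x⁻¹) {a : A} (ha : a ≠ 1) (x : A) :
    ∃ i j : ℕ, i < 3 ∧ j < 3 ∧ x = a ^ i * σ a ^ j := by
  classical
  have : Fact (Nat.Prime 3) := ⟨Nat.prime_three⟩
  refine gen h9 h3 ha (fun h => ?_) x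
  rw [mem_zpowers_iff_mem_range_orderOf, Finset.mem_image, orderOf_eq_prime (h3 a) ha] at h
  obtain ⟨j, hj, h⟩ := h
  rw [Finset.mem_range] at hj
  have h7 : a⁻¹ = a ^ (j * j) := by rw [← hσ, ← h, map_pow, ← h, ← pow_mul]
  apply ha
  interval_cases j
  · simpa using h7
  · exact eq_one_of_inv h3 (by simpa using h7)
  · exact eq_one_of_inv h3 (by rw [h7, show 2 * 2 = 3 + 1 by rfl, pow_succ, h3, one_mul])

theorem exists_refl (h9 : Nat.card A = 9) (h3 : ∀ x : A, x ^ 3 = 1)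
    (σ τ : MulAut A) (hσ : ∀ x, σ (σ x) = x⁻¹) (hτ : ∀ x, τ (τ x) = x)
    (hστ : ∀ x, σ (τ (σ x)) = τ x) {a : A} (ha : a ≠ 1) :
    τ a = a ∨ τ (σ a) = a ∨ τ (σ (σ a)) = a ∨ τ (σ (σ (σ a))) = a := by
  obtain ⟨i, j, hi, hj, h⟩ := gen' h9 h3 σ hσ ha (τ a)
  have h1 : τ (σ a) = (σ a ^ i)⁻¹ * a ^ j := by
    apply σ.injective
    rw [hστ, h, map_mul, map_inv, map_pow, map_pow, hσ, inv_pow, inv_inv]
  have h2 : a = a ^ (i * i + j * j) := by
    conv_lhs => rw [← hτ a, h, map_mul, map_pow, map_pow, h, h1]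
    rw [mul_pow, mul_pow, ← pow_mul, ← pow_mul, ← pow_mul, inv_pow, ← pow_mul, pow_add,
      mul_comm j i, mul_assoc, mul_inv_cancel_left]
  have hsq : ∀ x : A, x ^ 2 = x⁻¹ := fun x => by
    rw [eq_inv_iff_mul_eq_one, ← pow_succ, h3]
  have hne : ∀ n, a = a ^ (3 * n + 2) → False := fun n hn => by
    rw [pow_add, pow_mul, h3, one_pow, one_mul, hsq] at hn
    exact ha (eq_one_of_inv h3 hn.symm)
  interval_cases i <;> interval_cases j
  · exact absurd (by simpa using h2) ha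
  · right; left; simpa using h1
  · right; right; right
    rw [hσ, map_inv, h1, hsq]; simp
  · left; simpa using h
  · exact (hne 0 h2).elim
  · exact (hne 1 h2).elim
  · right; right; left
    rw [hσ, map_inv, h, hsq]; simp
  · exact (hne 1 h2).elim
  · exact (hne 2 h2).elim

end grp

section lin

variable {M : Type*} [AddCommGroup M] [Module (ZMod 2) M]

theorem add_self' (m : M) : m + m = 0 := by
  rw [← two_smul (ZMod 2) m]
  exact (show (2 : ZMod 2) = 0 from rfl) ▸ zero_smul _ m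

theorem exists_fixed (α β : Module.End (ZMod 2) M) (hα : ∀ m, α (α (α m)) = m)
    (hβ : ∀ m, β (β (β m)) = m) (hc : ∀ m, α (β m) = β (α m)) [Nontrivial M] :
    ∃ m ≠ 0, α m = m ∨ β m = m ∨ α (β m) = m ∨ α (β (β m)) = m := by
  by_contra hall
  push Not at hall
  have h1 : ∀ m, α (α m) + α m + m = 0 := fun m => by
    by_contra h
    exact (hall _ h).1 (by simp only [map_add, hα]; abel)
  have h2 : ∀ m, β (β m) + β m + m = 0 := fun m => by
    by_contra h
    exact (hall _ h).2.1 (by simp only [map_add, hβ]; abel)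
  obtain ⟨m, hm⟩ := exists_ne (0 : M)
  by_cases h : α m - β (β m) = 0
  · exact (hall m hm).2.2.1 (by rw [hc, sub_eq_zero.1 h, hβ])
  · refine (hall _ h).2.2.2 ?_
    have h3 : α (α m - β (β m)) = β (α m - β (β m)) := by
      have h4 := congrArg α (h2 m)
      have h5 := h1 m
      simp only [map_add, map_zero] at h4
      rw [map_sub, map_sub, hβ, ← hc]
      linear_combination (norm := abel1) h5 - h4
    rw [hc, hc, h3, hβ]

theorem lin [Finite M] (α β R T : Module.End (ZMod 2) M)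
    (hα : ∀ m, α (α (α m)) = m) (hβ : ∀ m, β (β (β m)) = m) (hc : ∀ m, α (β m) = β (α m))
    (hRα : ∀ m, R (α m) = β (R m)) (hRβ : ∀ m, R (β m) = α (α (R m)))
    (hTα : ∀ m, T (α m) = α (T m)) (hTβ : ∀ m, T (β m) = β (β (T m)))
    (hT : ∀ m, T (T m) = m) (hR : ∀ m, R (R (R (R m))) = m) (hTR : ∀ m, T (R m) = R (R (R (T m))))
    (hirr : ∀ N : Submodule (ZMod 2) M,
      (∀ m ∈ N, α m ∈ N ∧ β m ∈ N ∧ R m ∈ N ∧ T m ∈ N) → N = ⊥ ∨ N = ⊤)
    (hne : ∃ m, α m ≠ m) (hfix : ∃ m ≠ 0, α m = m) :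
    Nat.card M = 16 ∧ Nat.card {m : M // R (R m) = m ∧ T (R m) = m} = 2 ∧
      Nat.card {m : M // R (R m) = m ∧ T m = m} ≠ 2 := by
  have h0 : ∀ m, α m = m → β m = m → m = 0 := by
    intro m h1 h2
    rcases hirr (LinearMap.eqLocus α 1 ⊓ LinearMap.eqLocus β 1) (by
      rintro m ⟨h1, h2⟩
      change α m = m at h1
      change β m = m at h2
      have h3 : β (R m) = R m := by rw [← hRα, h1]
      have h4 : α (R m) = R m := by
        have := hRβ m
        rw [h2] at this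
        conv_lhs => rw [this]
        rw [hα]
      have h5 : β (T m) = T m := by
        have := hTβ m
        rw [h2] at this
        conv_lhs => rw [this]
        rw [hβ]
      refine ⟨⟨?_, ?_⟩, ⟨?_, ?_⟩, ⟨h4, h3⟩, ⟨?_, h5⟩⟩
      · change α (α m) = α m; rw [h1, h1]
      · change β (α m) = α m; rw [h1, h2]
      · change α (β m) = β m; rw [h2, h1]
      · change β (β m) = β m; rw [h2, h2]
      · change α (T m) = T m; rw [← hTα, h1]) with h | h
    · have : m ∈ LinearMap.eqLocus α 1 ⊓ LinearMap.eqLocus β 1 := ⟨h1, h2⟩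
      rwa [h] at this
    · obtain ⟨x, hx⟩ := hne
      have : x ∈ LinearMap.eqLocus α 1 ⊓ LinearMap.eqLocus β 1 := h ▸ Submodule.mem_top
      exact absurd this.1 hx
  have hTZ : ∀ m, T (R (R m)) = R (R (T m)) := fun m => by rw [hTR, hTR, hR]
  obtain ⟨u, hu0, huα, huT, huZ⟩ : ∃ u ≠ 0, α u = u ∧ T u = u ∧ R (R u) = u := by
    obtain ⟨m, hm0, hm⟩ := hfix
    obtain ⟨v, hv0, hvα, hvT⟩ : ∃ v ≠ 0, α v = v ∧ T v = v := by
      by_cases h : T m = m
      · exact ⟨m, hm0, hm, h⟩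
      · refine ⟨m + T m, fun h' => h ?_, by rw [map_add, ← hTα, hm], by rw [map_add, hT, add_comm]⟩
        rw [← add_self' m] at h'
        exact add_left_cancel h'
    by_cases h : R (R v) = v
    · exact ⟨v, hv0, hvα, hvT, h⟩
    · refine ⟨v + R (R v), fun h' => h ?_, ?_, by rw [map_add, hTZ, hvT],
        by rw [map_add, map_add, hR, add_comm]⟩
      · rw [← add_self' v] at h'
        exact add_left_cancel h'
      · have h1 : R (R v) = α (α (R (R v))) := by rw [← hRβ, ← hRα, hvα]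
        rw [map_add, hvα]
        conv_lhs => rw [h1]
        rw [hα]
  have hββ : β (β u) = β u + u := by
    have := h0 (β (β u) + β u + u) (by simp only [map_add, hc, huα])
      (by simp only [map_add, hβ]; abel)
    rw [← add_self' (β (β u)), add_assoc] at this
    exact (add_left_cancel this).symm
  have hαR : ∀ m, α (R (β m)) = R m := fun m => by rw [hRβ, hα]
  have e1 : α (R u) = R (β u) + R u := by rw [← map_add, ← hββ, ← hαR (β (β u)), hβ]
  have e2 : β (R u) = R u := by rw [← hRα, huα]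
  have e3 : β (R (β u)) = R (β u) := by rw [← hRα, hc, huα]
  have e4 : R (R (β u)) = β u + u := by rw [hRβ, hRα, hRα, huZ, hββ]
  have e5 : T (β u) = β u + u := by rw [hTβ, huT, hββ]
  have e6 : T (R u) = R u := by rw [hTR, huT, huZ]
  have e7 : T (R (β u)) = R (β u) := by
    rw [hTR, e5, map_add R, map_add R, e4, huZ, add_assoc, add_self', add_zero]
  let f : ZMod 2 × ZMod 2 × ZMod 2 × ZMod 2 → M := fun c =>
    c.1 • u + c.2.1 • β u + c.2.2.1 • R u + c.2.2.2 • R (β u)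
  have hsurj : Function.Surjective f := by
    set N := Submodule.span (ZMod 2) ({u, β u, R u, R (β u)} : Set M) with hN
    have m1 : u ∈ N := Submodule.subset_span (by simp)
    have m2 : β u ∈ N := Submodule.subset_span (by simp)
    have m3 : R u ∈ N := Submodule.subset_span (by simp)
    have m4 : R (β u) ∈ N := Submodule.subset_span (by simp)
    have hinv : ∀ g : Module.End (ZMod 2) M, g u ∈ N → g (β u) ∈ N → g (R u) ∈ N →
        g (R (β u)) ∈ N → ∀ m ∈ N, g m ∈ N := by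
      intro g g1 g2 g3 g4
      have : N ≤ N.comap g := by
        conv_lhs => rw [hN]
        rw [Submodule.span_le]
        rintro x (rfl | rfl | rfl | rfl) <;> assumption
      exact this
    rcases hirr N (fun m hm => ⟨
      hinv α (by rwa [huα]) (by rwa [hc, huα]) (by rw [e1]; exact add_mem m4 m3) (by rwa [hαR]) m hm,
      hinv β m2 (by rw [hββ]; exact add_mem m2 m1) (by rwa [e2]) (by rwa [e3]) m hm,
      hinv R m3 m4 (by rwa [huZ]) (by rw [e4]; exact add_mem m2 m1) m hm,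
      hinv T (by rwa [huT]) (by rw [e5]; exact add_mem m2 m1) (by rwa [e6]) (by rwa [e7]) m hm⟩)
      with h | h
    · rw [h] at m1; exact absurd m1 hu0
    · intro m
      have hm : m ∈ N := h ▸ Submodule.mem_top
      rw [hN] at hm
      obtain ⟨c1, x1, h1, rfl⟩ := Submodule.mem_span_insert.1 hm
      obtain ⟨c2, x2, h2, rfl⟩ := Submodule.mem_span_insert.1 h1
      obtain ⟨c3, x3, h3, rfl⟩ := Submodule.mem_span_insert.1 h2
      obtain ⟨c4, rfl⟩ := Submodule.mem_span_singleton.1 h3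
      exact ⟨(c1, c2, c3, c4), by simp only [f]; abel⟩
  have hz2 : ∀ c : ZMod 2, c = 0 ∨ c = 1 := by decide
  have hind : ∀ c d : ZMod 2, c • u + d • β u = 0 → c = 0 ∧ d = 0 := by
    intro c d h
    rcases hz2 c with rfl | rfl <;> rcases hz2 d with rfl | rfl
    · exact ⟨rfl, rfl⟩
    · exfalso
      apply hu0
      rw [zero_smul, one_smul, zero_add] at h
      rw [← hβ u, h]; simp
    · exact absurd (by simpa using h) hu0
    · exfalso
      rw [one_smul, one_smul, ← add_self' u] at h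
      exact hu0 (h0 u huα (add_left_cancel h))
  have hinj : Function.Injective f := by
    rintro ⟨c1, c2, c3, c4⟩ ⟨d1, d2, d3, d4⟩ h
    simp only [f] at h
    have h1 : (c1 - d1) • u + (c2 - d2) • β u = R ((d3 - c3) • u + (d4 - c4) • β u) := by
      simp only [map_add, map_smul]
      linear_combination (norm := module) h
    have h2 : (c1 - d1) • u + (c2 - d2) • β u = 0 := by
      apply h0
      · simp only [map_add, map_smul, hc, huα]
      · rw [h1]; simp only [map_add, map_smul, e2, e3]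
    have h3 : (d3 - c3) • u + (d4 - c4) • β u = 0 := by
      rw [← hR (_ + _), ← h1, h2]; simp
    obtain ⟨h4, h5⟩ := hind _ _ h2
    obtain ⟨h6, h7⟩ := hind _ _ h3
    rw [sub_eq_zero] at h4 h5 h6 h7
    rw [h4, h5, h6, h7]
  let E := Equiv.ofBijective f ⟨hinj, hsurj⟩
  have fZ : ∀ c, R (R (f c)) = f (c.1 + c.2.1, c.2.1, c.2.2.1 + c.2.2.2, c.2.2.2) := fun c => by
    simp only [f, map_add, map_smul, huZ, e4, smul_add, add_smul]; abel
  have fT : ∀ c, T (f c) = f (c.1 + c.2.1, c.2.1, c.2.2.1, c.2.2.2) := fun c => by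
    simp only [f, map_add, map_smul, huT, e5, e6, e7, smul_add, add_smul]; abel
  have fR : ∀ c, R (f c) = f (c.2.2.1 + c.2.2.2, c.2.2.2, c.1, c.2.1) := fun c => by
    simp only [f, map_add, map_smul, huZ, e4, smul_add, add_smul]; abel
  refine ⟨?_, ?_, ?_⟩
  · rw [← Nat.card_congr E]; simp
  · rw [← Nat.card_congr (E.subtypeEquiv (p := fun c =>
      (c.1 + c.2.1, c.2.1, c.2.2.1 + c.2.2.2, c.2.2.2) = c ∧
      (c.2.2.1 + c.2.2.2 + c.2.2.2, c.2.2.2, c.1, c.2.1) = c) fun c => by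
        change _ ↔ R (R (f c)) = f c ∧ T (R (f c)) = f c
        rw [fZ, fR, fT, hinj.eq_iff, hinj.eq_iff]), Nat.card_eq_fintype_card]
    decide
  · rw [← Nat.card_congr (E.subtypeEquiv (p := fun c =>
      (c.1 + c.2.1, c.2.1, c.2.2.1 + c.2.2.2, c.2.2.2) = c ∧
      (c.1 + c.2.1, c.2.1, c.2.2.1, c.2.2.2) = c) fun c => by
        change _ ↔ R (R (f c)) = f c ∧ T (f c) = f c
        rw [fZ, fT, hinj.eq_iff, hinj.eq_iff]), Nat.card_eq_fintype_card]
    decide

end lin

/-- The four-group containing `sr 0`. -/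
def V1 : Subgroup (DihedralGroup 4) where
  carrier := {x | x = 1 ∨ x = r 2 ∨ x = sr 0 ∨ x = sr 2}
  one_mem' := Or.inl rfl
  mul_mem' := by
    rintro a b (rfl | rfl | rfl | rfl) (rfl | rfl | rfl | rfl) <;>
      simp only [Set.mem_ofPred_eq] <;> decide
  inv_mem' := by
    rintro a (rfl | rfl | rfl | rfl) <;> simp only [Set.mem_ofPred_eq] <;> decide

/-- The four-group containing `sr 1`. -/
def V2 : Subgroup (DihedralGroup 4) where
  carrier := {x | x = 1 ∨ x = r 2 ∨ x = sr 1 ∨ x = sr 3}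
  one_mem' := Or.inl rfl
  mul_mem' := by
    rintro a b (rfl | rfl | rfl | rfl) (rfl | rfl | rfl | rfl) <;>
      simp only [Set.mem_ofPred_eq] <;> decide
  inv_mem' := by
    rintro a (rfl | rfl | rfl | rfl) <;> simp only [Set.mem_ofPred_eq] <;> decide

theorem mem_V1 {x : DihedralGroup 4} : x ∈ V1 ↔ x = 1 ∨ x = r 2 ∨ x = sr 0 ∨ x = sr 2 := Iff.rfl
theorem mem_V2 {x : DihedralGroup 4} : x ∈ V2 ↔ x = 1 ∨ x = r 2 ∨ x = sr 1 ∨ x = sr 3 := Iff.rfl

theorem card_V1 : Nat.card V1 = 4 := by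
  change Nat.card {x : DihedralGroup 4 // x = 1 ∨ x = r 2 ∨ x = sr 0 ∨ x = sr 2} = 4
  rw [Nat.card_eq_fintype_card]; decide

theorem card_V2 : Nat.card V2 = 4 := by
  change Nat.card {x : DihedralGroup 4 // x = 1 ∨ x = r 2 ∨ x = sr 1 ∨ x = sr 3} = 4
  rw [Nat.card_eq_fintype_card]; decide

theorem eq_V (B : Subgroup (DihedralGroup 4)) (h4 : Nat.card B = 4) (h2 : ∀ b ∈ B, b ^ 2 = 1) :
    B = V1 ∨ B = V2 := by
  have key : ∀ x y : DihedralGroup 4, ¬ (x = 1 ∨ x = r 2 ∨ x = sr 0 ∨ x = sr 2) →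
      ¬ (y = 1 ∨ y = r 2 ∨ y = sr 1 ∨ y = sr 3) → x ^ 2 = 1 → y ^ 2 = 1 → (x * y) ^ 2 ≠ 1 := by
    decide
  by_cases h : B ≤ V1
  · exact Or.inl (Subgroup.eq_of_le_of_card_ge h (by rw [h4, card_V1]))
  · refine Or.inr (Subgroup.eq_of_le_of_card_ge (fun y hy => ?_) (by rw [h4, card_V2]))
    obtain ⟨x, hx, hx'⟩ := SetLike.not_le_iff_exists.1 h
    by_contra hy'
    exact key x y hx' hy' (h2 x hx) (h2 y hy) (h2 _ (mul_mem hx hy))

/-- Rotating the reflections of the dihedral group. -/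
def rot (i : ZMod 4) : DihedralGroup 4 →* DihedralGroup 4 :=
  MonoidHom.mk' (fun x => match x with | r j => r j | sr j => sr (i + j)) (by
    rintro (a | a) (b | b) <;> simp <;> ring)

theorem rot_bij (i : ZMod 4) : Function.Bijective (rot i) := by
  rw [← Finite.injective_iff_bijective]
  rintro (a | a) (b | b) h <;> simpa [rot] using h

open scoped IsMulCommutative in
theorem core {S : Type*} [Group S] [Finite S] (A : Subgroup S) [A.Normal] [IsMulCommutative A]
    (h3 : ∀ a ∈ A, a ^ 3 = 1) (h9 : Nat.card A = 9) (e : DihedralGroup 4 →* S)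
    (he : Function.Injective e) (hAX : A ⊔ e.range = ⊤)
    (hσ : ∀ x : A, MulAut.conjNormal (e (r 1)) (MulAut.conjNormal (e (r 1)) x) = x⁻¹)
    {M : Type*} [AddCommGroup M] [Module (ZMod 2) M] [Finite M] (ρ : Representation (ZMod 2) S M)
    (hfaith : Function.Injective ρ)
    (hirr : ∀ N : Submodule (ZMod 2) M, (∀ s : S, ∀ m ∈ N, ρ s m ∈ N) → N = ⊥ ∨ N = ⊤)
    (a : A) (ha : a ≠ 1) (hsa : MulAut.conjNormal (e (sr 0)) a = a) (hfix : ∃ m ≠ 0, ρ a m = m) :
    Nat.card M = 16 ∧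
      ∃! B : Subgroup S, B ≤ e.range ∧ Nat.card ↥B = 4 ∧ (∀ b ∈ B, b ^ 2 = 1) ∧
        Nat.card {m : M // ∀ b ∈ B, ρ b m = m} = 2 := by
  have h3' : ∀ x : A, x ^ 3 = 1 := fun x => Subtype.ext (h3 x x.2)
  set σ : MulAut A := MulAut.conjNormal (e (r 1)) with hσd
  set τ : MulAut A := MulAut.conjNormal (e (sr 0)) with hτd
  have mul : ∀ (g h : S) m, ρ g (ρ h m) = ρ (g * h) m := fun g h m => by rw [map_mul]; rfl
  have conj : ∀ (g : S) (x : A) m, ρ g (ρ x m) = ρ (MulAut.conjNormal g x : A) (ρ g m) :=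
    fun g x m => by rw [mul, mul, MulAut.conjNormal_apply, inv_mul_cancel_right]
  have cube : ∀ (x : A) m, ρ x (ρ x (ρ x m)) = m := fun x m => by
    rw [mul, mul, ← pow_three', h3 x x.2, map_one]; rfl
  have hinv : ∀ x : A, ((x⁻¹ : A) : S) = x * x := fun x => by
    rw [Subgroup.coe_inv, inv_eq_iff_mul_eq_one, ← pow_three, h3 x x.2]
  have hτσ : τ (σ a) = (σ a)⁻¹ := by
    have h1 : τ * σ = σ * σ * σ * τ := by
      rw [hσd, hτd, ← map_mul, ← map_mul, ← map_mul, ← map_mul, ← map_mul, ← map_mul, ← map_mul,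
        ← map_mul]
      rfl
    have h2 := congrArg (fun φ : MulAut A => φ a) h1
    simp only [MulAut.mul_apply] at h2
    rw [h2, hsa, hσ]
  obtain ⟨c16, c2, c1⟩ := lin (ρ a) (ρ (σ a)) (ρ (e (r 1))) (ρ (e (sr 0))) (cube _) (cube _)
    (fun m => by rw [mul, mul, setLike_mul_comm a.2 (σ a).2])
    (fun m => conj _ _ _) (fun m => by rw [conj, hσ, hinv, ← mul])
    (fun m => by rw [conj, hsa]) (fun m => by rw [conj, hτσ, hinv, ← mul])
    (fun m => by rw [mul, ← map_mul, show sr (0 : ZMod 4) * sr 0 = 1 from rfl, map_one, map_one]; rfl)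
    (fun m => by
      rw [mul, mul, mul, ← map_mul, ← map_mul, ← map_mul,
        show r (1 : ZMod 4) * r 1 * r 1 * r 1 = 1 from rfl, map_one, map_one]; rfl)
    (fun m => by
      rw [mul, mul, mul, mul, ← map_mul, ← map_mul, ← map_mul, ← map_mul]; rfl)
    (fun N hN => hirr N fun s => by
      let K : Subgroup S := 
        { carrier := {s | ∀ m ∈ N, ρ s m ∈ N}
          one_mem' := fun m hm => by rwa [map_one]
          mul_mem' := fun {x y} hx hy m hm => by rw [← mul]; exact hx _ (hy _ hm)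
          inv_mem' := fun {x} hx m hm => by
            have hpow : ∀ n : ℕ, ∀ m ∈ N, ρ (x ^ n) m ∈ N := by
              intro n
              induction n with
              | zero => intro m hm; rwa [pow_zero, map_one]
              | succ n ih => intro m hm; rw [pow_succ, ← mul]; exact ih _ (hx _ hm)
            have : x⁻¹ = x ^ (orderOf x - 1) := by
              rw [inv_eq_iff_mul_eq_one, ← pow_succ', Nat.sub_add_cancel (orderOf_pos x),
                pow_orderOf_eq_one]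
            rw [this]; exact hpow _ m hm }
      have k1 : (a : S) ∈ K := fun m hm => (hN m hm).1
      have k2 : (σ a : S) ∈ K := fun m hm => (hN m hm).2.1
      have k3 : e (r 1) ∈ K := fun m hm => (hN m hm).2.2.1
      have k4 : e (sr 0) ∈ K := fun m hm => (hN m hm).2.2.2
      have : (⊤ : Subgroup S) ≤ K := by
        rw [← hAX]
        refine sup_le (fun x hx => ?_) ?_
        · obtain ⟨i, j, -, -, h⟩ := gen' h9 h3' σ hσ ha ⟨x, hx⟩
          have : x = (a : S) ^ i * (σ a : S) ^ j := congrArg Subtype.val h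
          rw [this]
          exact mul_mem (pow_mem k1 _) (pow_mem k2 _)
        · have k5 : ∀ i : ZMod 4, e (r i) ∈ K := fun i => by
            rw [← ZMod.natCast_zmod_val i, ← r_one_pow, map_pow]; exact pow_mem k3 _
          rintro _ ⟨i | i, rfl⟩
          · exact k5 i
          · have := mul_mem k4 (k5 i)
            rwa [← map_mul, sr_mul_r, zero_add] at this
      exact this (Subgroup.mem_top s))
    (by
      by_contra hall
      push Not at hall
      apply ha
      have : ρ a = ρ 1 := by rw [map_one]; exact LinearMap.ext hall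
      exact Subtype.ext (hfaith this))
    hfix
  have z2 : ∀ m, ρ (e (r 1)) (ρ (e (r 1)) m) = ρ (e (r 2)) m := fun m => by
    rw [mul, ← map_mul]; rfl
  have s1 : ∀ m, ρ (e (sr 0)) (ρ (e (r 1)) m) = ρ (e (sr 1)) m := fun m => by
    rw [mul, ← map_mul]; rfl
  have s2 : ∀ m, ρ (e (sr 0)) (ρ (e (r 2)) m) = ρ (e (sr 2)) m := fun m => by
    rw [mul, ← map_mul]; rfl
  have s3 : ∀ m, ρ (e (sr 1)) (ρ (e (r 2)) m) = ρ (e (sr 3)) m := fun m => by
    rw [mul, ← map_mul]; rfl
  simp only [z2, s1] at c2 c1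
  have f1 : ∀ m, (∀ b ∈ V1.map e, ρ b m = m) ↔ ρ (e (r 2)) m = m ∧ ρ (e (sr 0)) m = m := by
    refine fun m => ⟨fun h => ⟨h _ ⟨_, by simp [mem_V1], rfl⟩, h _ ⟨_, by simp [mem_V1], rfl⟩⟩, ?_⟩
    rintro ⟨h1, h2⟩ _ ⟨_, rfl | rfl | rfl | rfl, rfl⟩
    · simp
    · exact h1
    · exact h2
    · rw [← s2, h1, h2]
  have f2 : ∀ m, (∀ b ∈ V2.map e, ρ b m = m) ↔ ρ (e (r 2)) m = m ∧ ρ (e (sr 1)) m = m := by
    refine fun m => ⟨fun h => ⟨h _ ⟨_, by simp [mem_V2], rfl⟩, h _ ⟨_, by simp [mem_V2], rfl⟩⟩, ?_⟩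
    rintro ⟨h1, h2⟩ _ ⟨_, rfl | rfl | rfl | rfl, rfl⟩
    · simp
    · exact h1
    · exact h2
    · rw [← s3, h1, h2]
  refine ⟨c16, V2.map e, ⟨Subgroup.map_le_range _ _, ?_, ?_, ?_⟩, ?_⟩
  · rw [Subgroup.card_map_of_injective he, card_V2]
  · rintro _ ⟨_, rfl | rfl | rfl | rfl, rfl⟩ <;> rw [← map_pow, ← map_one e] <;> rfl
  · simp only [f2]; exact c2
  · rintro B ⟨hB, hB4, hB2, hBc⟩
    have hBe : (B.comap e).map e = B := Subgroup.map_comap_eq_self hB
    rcases eq_V (B.comap e) (by rw [← Subgroup.card_map_of_injective he, hBe, hB4])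
      (fun b hb => he (by rw [map_pow, map_one]; exact hB2 _ hb)) with h | h
    · rw [← hBe, h] at hBc
      simp only [f1] at hBc
      exact absurd hBc c1
    · rw [← hBe, h]

open scoped IsMulCommutative in
theorem main {S : Type*} [Group S] [Finite S] (A : Subgroup S) [A.Normal] [IsMulCommutative A]
    (h3 : ∀ a ∈ A, a ^ 3 = 1) (h9 : Nat.card A = 9) (hAC : Subgroup.centralizer (A : Set S) = A)
    (e : DihedralGroup 4 →* S) (he : Function.Injective e) (hAX : A ⊔ e.range = ⊤)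
    {M : Type*} [AddCommGroup M] [Module (ZMod 2) M] [Finite M] (ρ : Representation (ZMod 2) S M)
    (hfaith : Function.Injective ρ)
    (hirr : ∀ N : Submodule (ZMod 2) M, (∀ s : S, ∀ m ∈ N, ρ s m ∈ N) → N = ⊥ ∨ N = ⊤)
    [Nontrivial M] :
    Nat.card M = 16 ∧
      ∃! B : Subgroup S, B ≤ e.range ∧ Nat.card ↥B = 4 ∧ (∀ b ∈ B, b ^ 2 = 1) ∧
        Nat.card {m : M // ∀ b ∈ B, ρ b m = m} = 2 := by
  have h3' : ∀ x : A, x ^ 3 = 1 := fun x => Subtype.ext (h3 x x.2)
  let ψ : DihedralGroup 4 →* MulAut A := MulAut.conjNormal.comp e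
  have hψ : ∀ g h x, ψ g (ψ h x) = ψ (g * h) x := fun g h x => by rw [map_mul]; rfl
  have hσ : ∀ x : A, ψ (r 1) (ψ (r 1) x) = x⁻¹ := by
    refine inv_of_faithful h9 h3' (ψ (r 1)) (fun x => ?_) ?_
    · rw [hψ, hψ, hψ, show r (1 : ZMod 4) * r 1 * r 1 * r 1 = 1 from rfl, map_one]; rfl
    · by_contra hall
      push Not at hall
      have h1 : e (r 2) ∈ A := by
        rw [← hAC, Subgroup.mem_centralizer_iff]
        intro x hx
        have h2 := hall ⟨x, hx⟩
        rw [hψ] at h2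
        have h4 : e (r 2) * x * (e (r 2))⁻¹ = x := congrArg Subtype.val h2
        rw [mul_inv_eq_iff_eq_mul] at h4
        exact h4.symm
      have h5 := h3 _ h1
      rw [← map_pow, ← map_one e] at h5
      exact absurd (he h5) (by decide)
  have mul : ∀ (g h : S) m, ρ g (ρ h m) = ρ (g * h) m := fun g h m => by rw [map_mul]; rfl
  have cube : ∀ (x : A) m, ρ x (ρ x (ρ x m)) = m := fun x m => by
    rw [mul, mul, ← pow_three', h3 x x.2, map_one]; rfl
  obtain ⟨a, ha, hfix⟩ : ∃ a : A, a ≠ 1 ∧ ∃ m ≠ 0, ρ a m = m := by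
    have : Nontrivial A := Finite.one_lt_card_iff_nontrivial.1 (by omega)
    obtain ⟨a, ha⟩ := exists_ne (1 : A)
    have hne : ∀ x : A, ψ (r 1) x = x → x = 1 := fun x hx =>
      eq_one_of_inv h3' (by rw [← hσ, hx, hx])
    obtain ⟨m, hm, h | h | h | h⟩ := exists_fixed (ρ a) (ρ (ψ (r 1) a)) (cube _) (cube _)
      (fun m => by rw [mul, mul, setLike_mul_comm a.2 (ψ (r 1) a).2])
    · exact ⟨a, ha, m, hm, h⟩
    · exact ⟨ψ (r 1) a, by simpa using ha, m, hm, h⟩
    · refine ⟨a * ψ (r 1) a, fun h1 => ha ?_, m, hm, by rw [Subgroup.coe_mul, ← mul, h]⟩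
      have h2 : ψ (r 1) a = a⁻¹ := eq_inv_of_mul_eq_one_right h1
      apply eq_one_of_inv h3'
      rw [← hσ, h2, map_inv, h2, inv_inv]
    · refine ⟨a * (ψ (r 1) a * ψ (r 1) a), fun h1 => ha (hne a ?_), m, hm,
        by rw [Subgroup.coe_mul, Subgroup.coe_mul, ← mul, ← mul, h]⟩
      have h2 := h3' (ψ (r 1) a)
      rw [pow_three, ← h1] at h2
      exact mul_right_cancel h2
  obtain ⟨i, hi⟩ : ∃ i : ZMod 4, ψ (sr i) a = a := by
    rcases exists_refl h9 h3' (ψ (r 1)) (ψ (sr 0)) hσ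
      (fun x => by rw [hψ, show sr (0 : ZMod 4) * sr 0 = 1 from rfl, map_one]; rfl)
      (fun x => by rw [hψ, hψ]; rfl) ha with h | h | h | h
    · exact ⟨0, h⟩
    · exact ⟨1, by rw [hψ] at h; exact h⟩
    · exact ⟨2, by rw [hψ, hψ] at h; exact h⟩
    · exact ⟨3, by rw [hψ, hψ, hψ] at h; exact h⟩
  have hr : (e.comp (rot i)).range = e.range := by
    rw [MonoidHom.range_comp, MonoidHom.range_eq_top.2 (rot_bij i).2, ← MonoidHom.range_eq_map]
  rw [← hr]
  refine core A h3 h9 (e.comp (rot i)) (he.comp (rot_bij i).1) (by rw [hr, hAX]) hσ ρ hfaith hirr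
    a ha ?_ hfix
  have : (e.comp (rot i)) (sr 0) = e (sr i) := by simp [rot]
  rw [this]
  exact hi

end Cfsg.Agent.H3.S3Wr
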