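import Cfsg.Agent.H3.S8h

/-! In the symmetric case the centralizer of `t` is large. -/

set_option autoImplicit false
open Subgroup Equiv

namespace H3S

variable {G : Type*} [Group G] [Finite G] {φ : P →* G} {σ : G}

theorem c0 (h : Hy φ σ) (hc : σ * φ r0 * σ = φ r1)
    (ct : ∀ g, g * φ t0 = φ t0 * g → g ∈ φ.range ∨ σ * g ∈ φ.range) : False := by
  have si : σ⁻¹ = σ := inv_eq_of_mul_eq_one_right h.ss
  let f : P := (1, swap 0 1 * swap 1 2 * swap 2 3 * swap 3 4)
  let k : G := φ v0 * σ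
  have e1 : k * φ r0 * k⁻¹ = φ t0 := by
    calc _ = φ v0 * (σ * φ r0 * σ) * (φ v0)⁻¹ := by simp only [k, mul_inv_rev, si, mul_assoc]
      _ = _ := by rw [hc, ← map_inv, ← map_mul, ← map_mul]; exact congrArg φ (by decide)
  have e2 : φ f * φ r0 = φ r0 * φ f := by rw [← map_mul, ← map_mul]; exact congrArg φ (by decide)
  have e5 : (k * φ f * k⁻¹) ^ 5 = 1 := by
    rw [conj_pow, ← map_pow, show f ^ 5 = 1 by decide, map_one, mul_one, mul_inv_cancel]
  have e1' : k * φ f * k⁻¹ ≠ 1 := fun e =>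
    absurd (h.inj ((conj_eq_one_iff.1 e).trans (map_one φ).symm)) (by decide)
  have e3 : k * φ f * k⁻¹ * φ t0 = φ t0 * (k * φ f * k⁻¹) := by
    rw [← e1, conj_mul, conj_mul, e2]
  generalize k * φ f * k⁻¹ = g at e5 e1' e3
  have key : ∀ x, x * φ t0 = φ t0 * x → x ∈ φ.range → x ^ 6 = 1 := by
    rintro _ e ⟨p, rfl⟩
    rw [← map_mul, ← map_mul] at e
    have : ∀ p : P, p * t0 = t0 * p → p ^ 6 = 1 := by decide +kernel
    rw [← map_pow, this p (h.inj e), map_one]
  have cm : ∀ n : ℕ, g ^ n * φ t0 = φ t0 * g ^ n := fun n => (show Commute g _ from e3).pow_left n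
  have fin : ∀ n : ℕ, g ^ n ∈ φ.range → g ^ (n * 6) = 1 := fun n e => by
    rw [pow_mul, key _ (cm n) e]
  have o5 : orderOf g = 5 := by
    have : Fact (Nat.Prime 5) := ⟨by norm_num⟩
    exact orderOf_eq_prime e5 e1'
  have fin' : ∀ n : ℕ, g ^ n ∈ φ.range → 5 ∣ n * 6 := fun n e =>
    o5 ▸ orderOf_dvd_of_pow_eq_one (fin n e)
  rcases ct _ (cm 1) with a | a
  · exact absurd (fin' 1 a) (by norm_num)
  rcases ct _ (cm 2) with b | b
  · exact absurd (fin' 2 b) (by norm_num)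
  refine absurd (fin' 1 ?_) (by norm_num)
  have := mul_mem (inv_mem a) b
  rwa [show (σ * g ^ 1)⁻¹ * (σ * g ^ 2) = g ^ 1 by group] at this

end H3S
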