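import Mathlib

/-! Set-up for the 3-local identification of `Sym(8)`. -/

set_option autoImplicit false
open Subgroup Equiv

namespace H3S

abbrev P := Perm (Fin 3) × Perm (Fin 5)
def z0 : P := (swap 0 1 * swap 1 2, 1)
def z1 : P := (1, swap 0 1 * swap 1 2)
def r0 : P := (swap 0 1, 1)
def r1 : P := (1, swap 0 1)
def t0 : P := (1, swap 3 4)
def v0 : P := (1, swap 0 3 * swap 1 4)

abbrev A5 := alternatingGroup (Fin 5)
def c5 : A5 := ⟨swap 0 1 * swap 1 2, by rw [Perm.mem_alternatingGroup]; decide⟩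
def e5 : A5 := ⟨swap 0 1 * swap 3 4, by rw [Perm.mem_alternatingGroup]; decide⟩
def f5 : A5 := ⟨swap 0 3 * swap 1 4, by rw [Perm.mem_alternatingGroup]; decide⟩
def τ : MulAut A5 := MulAut.conjNormal (swap (3 : Fin 5) 4)
def V4 : Subgroup A5 := closure {e5, f5}

variable {G : Type*} [Group G]

structure Hy (φ : P →* G) (σ : G) : Prop where
  inj : Function.Injective φ
  nz : ∀ g, g * φ z0 * g⁻¹ ∈ zpowers (φ z0) → g ∈ φ.range
  ss : σ * σ = 1
  sz : σ * φ z0 * σ = φ z1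
  st : σ * φ t0 * σ = φ t0
  n27 : ¬ 27 ∣ Nat.card G
  cy : Nat.card (centralizer ({φ z0 * φ z1} : Set G)) = 36

structure Ps (φ : P →* G) (σ : G) (ψ : Perm (Fin 6) →* G) : Prop where
  inj : Function.Injective ψ
  ct : ∀ g, g * φ t0 = φ t0 * g ↔ ∃ s, g = ψ s ∨ g = φ t0 * ψ s
  nt : ∀ s, ψ s ≠ φ t0
  z : ψ (swap 0 1 * swap 1 2) = φ z0
  z' : ψ (swap 3 4 * swap 4 5) = φ z1
  r : ψ (swap 0 1) = φ r0
  r' : ψ (swap 3 4) = σ * φ r0 * σ

def In (θ : A5 × A5 →* G) (t σ g : G) : Prop :=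
  ∃ m, g = θ m ∨ g = θ m * t ∨ g = θ m * σ ∨ g = θ m * t * σ

structure H2 (θ : A5 × A5 →* G) (t σ : G) : Prop where
  inj : Function.Injective θ
  tt : t * t = 1
  ss : σ * σ = 1
  ts : t * σ = σ * t
  ta : ∀ a b, t * θ (a, b) * t = θ (τ a, τ b)
  sa : ∀ a b, σ * θ (a, b) * σ = θ (b, a)
  ct : ∀ g, g * t = t * g → In θ t σ g
  nz : ∀ g, g * θ (c5, 1) * g⁻¹ ∈ zpowers (θ (c5, 1)) → ∃ m, g = θ m ∨ g = θ m * t
  cy : ∀ g, g * θ (c5, c5) = θ (c5, c5) * g → In θ t σ g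
  n27 : ¬ 27 ∣ Nat.card G

def U (θ : A5 × A5 →* G) : Subgroup G := (V4.prod V4).map θ

def NU (θ : A5 × A5 →* G) (N : Subgroup G) : Prop :=
  ∀ n ∈ N, n ∈ normalizer (U θ : Set G) → ∃ a ∈ normalizer (V4 : Set A5),
    ∃ b ∈ normalizer (V4 : Set A5), ∀ u ∈ U θ, n * u * n⁻¹ = θ (a, b) * u * (θ (a, b))⁻¹

/-- If `27 ∤ |G|` and `9 ∣ |H|`, every element of order 3 of `H` has centralizer in `H` of order
divisible by 9. -/
theorem nine [Finite G] (n27 : ¬ 27 ∣ Nat.card G) {H : Subgroup G} {x : G} (hx : x ∈ H)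
    (x3 : x ^ 3 = 1) (h9 : 9 ∣ Nat.card H) : 9 ∣ Nat.card ↥(H ⊓ centralizer {x}) := by
  have : Fact (Nat.Prime 3) := ⟨by norm_num⟩
  have hp : IsPGroup 3 (zpowers (⟨x, hx⟩ : H)) := by
    rintro ⟨_, k, rfl⟩
    refine ⟨1, Subtype.ext (Subtype.ext ?_)⟩
    simp only [pow_one, SubmonoidClass.mk_pow, SubmonoidClass.coe_pow, SubgroupClass.coe_zpow,
      OneMemClass.coe_one]
    rw [← zpow_natCast, ← zpow_mul, mul_comm, zpow_mul, zpow_natCast, x3, one_zpow]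
  obtain ⟨S, hS⟩ := hp.exists_le_sylow
  have h1 : Nat.card S = 3 ^ 2 := by
    rw [S.card_eq_multiplicity]
    congr 1
    have a := (Nat.Prime.pow_dvd_iff_le_factorization (p := 3) (k := 2) (by norm_num)
      (Nat.card_pos (α := H)).ne').1 h9
    have b := mt (Nat.Prime.pow_dvd_iff_le_factorization (p := 3) (k := 3) (by norm_num)
      (Nat.card_pos (α := H)).ne').2 fun e => n27 (e.trans (card_subgroup_dvd_card H))
    omega
  have h2 := IsPGroup.isMulCommutative_of_card_eq_prime_sq h1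
  rw [show 9 = 3 ^ 2 from rfl, ← h1, ← card_subtype]
  refine card_dvd_of_le ?_
  rintro _ ⟨y, hy, rfl⟩
  exact ⟨y.2, mem_centralizer_singleton_iff.2 (congrArg (fun a : S => (a.1 : G))
    (h2.1.1 ⟨y, hy⟩ ⟨_, hS (mem_zpowers _)⟩))⟩

end H3S
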