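import Mathlib
import Cfsg.Prelude.Def_TwoFusion

/-! Direct decomposability of Sylow 2-subgroups of symmetric and alternating groups: the core. -/

set_option autoImplicit false
open Subgroup Equiv Equiv.Perm

namespace Cfsg.Agent.H3.SyA

/-- `H` is a direct product of two nontrivial subgroups. -/
def DecS {G : Type*} [Group G] (H : Subgroup G) : Prop :=
  ∃ A B : Subgroup G, A ≠ ⊥ ∧ B ≠ ⊥ ∧ Cfsg.IsInternalDirectProduct A B H

theorem DecS.map {G G' : Type*} [Group G] [Group G'] {H : Subgroup G} (h : DecS H) (f : G →* G')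
    (hf : Function.Injective f) : DecS (H.map f) := by
  obtain ⟨A, B, hA, hB, h1, h2, h3, h4, h5⟩ := h
  refine ⟨A.map f, B.map f, ?_, ?_, map_mono h1, map_mono h2, ?_, ?_, ?_⟩
  · rwa [Ne, map_eq_bot_iff_of_injective _ hf]
  · rwa [Ne, map_eq_bot_iff_of_injective _ hf]
  · rintro _ ⟨a, ha, rfl⟩ _ ⟨b, hb, rfl⟩
    rw [← map_mul, ← map_mul, h3 a ha b hb]
  · rw [← map_inf _ _ _ hf, h4, Subgroup.map_bot]
  · rw [← Subgroup.map_sup, h5]

theorem DecS.of_map {G G' : Type*} [Group G] [Group G'] {H : Subgroup G} (f : G →* G')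
    (hf : Function.Injective f) (h : DecS (H.map f)) : DecS H := by
  obtain ⟨A, B, hA, hB, h1, h2, h3, h4, h5⟩ := h
  have r1 : A ≤ f.range := h1.trans (map_le_range _ _)
  have r2 : B ≤ f.range := h2.trans (map_le_range _ _)
  have e1 : (A.comap f).map f = A := map_comap_eq_self r1
  have e2 : (B.comap f).map f = B := map_comap_eq_self r2
  refine ⟨A.comap f, B.comap f, ?_, ?_, ?_, ?_, ?_, ?_, ?_⟩
  · intro h; apply hA; rw [← e1, h, Subgroup.map_bot]
  · intro h; apply hB; rw [← e2, h, Subgroup.map_bot]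
  · rw [← comap_map_eq_self_of_injective hf H]; exact comap_mono h1
  · rw [← comap_map_eq_self_of_injective hf H]; exact comap_mono h2
  · intro a ha b hb
    apply hf
    rw [map_mul, map_mul]; exact h3 _ ha _ hb
  · rw [← comap_inf, h4, MonoidHom.comap_bot, (MonoidHom.ker_eq_bot_iff f).2 hf]
  · apply map_injective hf
    rw [Subgroup.map_sup, e1, e2, h5]

theorem decS_map_iff {G G' : Type*} [Group G] [Group G'] (H : Subgroup G) (f : G →* G')
    (hf : Function.Injective f) : DecS (H.map f) ↔ DecS H :=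
  ⟨fun h => h.of_map f hf, fun h => h.map f hf⟩

theorem decS_sylow {G G' : Type*} [Group G] [Group G'] [Finite G] [Finite G'] (f : G →* G')
    (hf : Function.Injective f) (hodd : ¬ 2 ∣ f.range.index) (P : Sylow 2 G) (Q : Sylow 2 G') :
    DecS (Q : Subgroup G') ↔ DecS (P : Subgroup G) := by
  have hc : Nat.card ((P : Subgroup G).map f) = 2 ^ (Nat.card G').factorization 2 := by
    rw [card_map_of_injective hf, P.card_eq_multiplicity]
    congr 1
    have h1 : Nat.card f.range = Nat.card G := by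
      rw [MonoidHom.range_eq_map, card_map_of_injective hf, card_top]
    have h2 := f.range.card_mul_index
    rw [← h2, h1, Nat.factorization_mul Nat.card_pos.ne' (index_ne_zero_of_finite), Finsupp.add_apply,
      Nat.factorization_eq_zero_of_not_dvd hodd, add_zero]
  let R : Sylow 2 G' := Sylow.ofCard _ hc
  obtain ⟨g, hg⟩ := MulAction.exists_smul_eq G' R Q
  rw [← decS_map_iff (P : Subgroup G) f hf]
  have : (Q : Subgroup G') = ((P : Subgroup G).map f).map (MulAut.conj g).toMonoidHom := by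
    rw [← hg]; rfl
  rw [this, decS_map_iff _ _ (MulAut.conj g).injective]

theorem DecS.exists_mul {G : Type*} [Group G] {A B H : Subgroup G}
    (h3 : ∀ a ∈ A, ∀ b ∈ B, a * b = b * a) (h5 : A ⊔ B = H) {g : G} (hg : g ∈ H) :
    ∃ a ∈ A, ∃ b ∈ B, g = a * b := by
  rw [← h5, sup_eq_closure] at hg
  induction hg using closure_induction with
  | mem x hx =>
    rcases hx with hx | hx
    · exact ⟨x, hx, 1, B.one_mem, by simp⟩
    · exact ⟨1, A.one_mem, x, hx, by simp⟩
  | one => exact ⟨1, A.one_mem, 1, B.one_mem, by simp⟩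
  | mul x y _ _ ihx ihy =>
    obtain ⟨a, ha, b, hb, rfl⟩ := ihx
    obtain ⟨a', ha', b', hb', rfl⟩ := ihy
    refine ⟨a * a', A.mul_mem ha ha', b * b', B.mul_mem hb hb', ?_⟩
    rw [mul_assoc, ← mul_assoc b, ← h3 a' ha' b hb]; group
  | inv x _ ih =>
    obtain ⟨a, ha, b, hb, rfl⟩ := ih
    refine ⟨a⁻¹, A.inv_mem ha, b⁻¹, B.inv_mem hb, ?_⟩
    rw [h3 a ha b hb, mul_inv_rev]

/-- a nontrivial 2-subgroup has a central element -/
theorem exists_cent {G : Type*} [Group G] [Finite G] {A : Subgroup G} (hA : IsPGroup 2 A)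
    (h : A ≠ ⊥) : ∃ a ∈ A, a ≠ 1 ∧ ∀ x ∈ A, x * a = a * x := by
  haveI : Nontrivial A := (nontrivial_iff_ne_bot A).2 h
  haveI := hA.center_nontrivial
  obtain ⟨a, ha⟩ := exists_ne (1 : center A)
  refine ⟨a.1.1, a.1.2, fun h => ha (Subtype.ext (Subtype.ext h)), fun x hx => ?_⟩
  exact congrArg Subtype.val (mem_center_iff.1 a.2 ⟨x, hx⟩)

theorem not_decS_of_center {G : Type*} [Group G] [Finite G] {H : Subgroup G} (hH : IsPGroup 2 H)
    (z : G) (hz : ∀ g ∈ H, (∀ x ∈ H, x * g = g * x) → g = 1 ∨ g = z) : ¬ DecS H := by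
  rintro ⟨A, B, hA, hB, h1, h2, h3, h4, h5⟩
  obtain ⟨a, ha, ha1, hac⟩ := exists_cent (hH.to_le h1) hA
  obtain ⟨b, hb, hb1, hbc⟩ := exists_cent (hH.to_le h2) hB
  have e1 : a = z := by
    refine (hz a (h1 ha) fun x hx => ?_).resolve_left ha1
    obtain ⟨a', ha', b', hb', rfl⟩ := DecS.exists_mul h3 h5 hx
    rw [mul_assoc, ← h3 a ha b' hb', ← mul_assoc, hac a' ha', mul_assoc]
  have e2 : b = z := by
    refine (hz b (h2 hb) fun x hx => ?_).resolve_left hb1
    obtain ⟨a', ha', b', hb', rfl⟩ := DecS.exists_mul h3 h5 hx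
    rw [mul_assoc, hbc b' hb', ← mul_assoc, h3 a' ha' b hb, mul_assoc]
  apply ha1
  have : a ∈ A ⊓ B := ⟨ha, by rw [e1, ← e2]; exact hb⟩
  rwa [h4] at this

variable {Ω : Type*} [Fintype Ω] [DecidableEq Ω]

/-- restriction of a permutation to an invariant set -/
noncomputable def rs (p : Ω → Prop) (g : Perm Ω) : Perm Ω := by
  classical
  exact if h : ∀ x, p (g x) ↔ p x then ofSubtype (g.subtypePerm h) else 1

theorem rs_pos {p : Ω → Prop} {g : Perm Ω} (h : ∀ x, p (g x) ↔ p x) {x : Ω} (hx : p x) :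
    rs p g x = g x := by
  classical
  unfold rs
  rw [dif_pos h]
  exact ofSubtype_subtypePerm_of_mem h hx

theorem rs_neg {p : Ω → Prop} (g : Perm Ω) {x : Ω} (hx : ¬ p x) : rs p g x = x := by
  classical
  unfold rs
  split_ifs with h
  · exact ofSubtype_subtypePerm_of_not_mem h hx
  · rfl

theorem rs_mul {p : Ω → Prop} {g g' : Perm Ω} (h : ∀ x, p (g x) ↔ p x)
    (h' : ∀ x, p (g' x) ↔ p x) : rs p (g * g') = rs p g * rs p g' := by
  have h2 : ∀ x, p ((g * g') x) ↔ p x := fun x => by rw [Perm.mul_apply, h, h']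
  ext x
  by_cases hx : p x
  · rw [rs_pos h2 hx, Perm.mul_apply, Perm.mul_apply, rs_pos h' hx, rs_pos h ((h' x).2 hx)]
  · rw [rs_neg _ hx, Perm.mul_apply, rs_neg _ hx, rs_neg _ hx]

theorem rs_mul_not {p : Ω → Prop} {g : Perm Ω} (h : ∀ x, p (g x) ↔ p x) :
    rs p g * rs (fun x => ¬ p x) g = g := by
  have h' : ∀ x, ¬ p (g x) ↔ ¬ p x := fun x => by rw [h]
  ext x
  by_cases hx : p x
  · rw [Perm.mul_apply, rs_neg (p := fun x => ¬ p x) _ (not_not.2 hx), rs_pos h hx]
  · rw [Perm.mul_apply, rs_pos (p := fun x => ¬ p x) h' hx, rs_neg _ ((h' x).2 hx)]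

/-- invariant predicate -/
def Inv (T : Subgroup (Perm Ω)) (p : Ω → Prop) : Prop := ∀ t ∈ T, ∀ x, p (t x) ↔ p x

theorem inv_of {T : Subgroup (Perm Ω)} {p : Ω → Prop} (h : ∀ t ∈ T, ∀ x, p x → p (t x)) :
    Inv T p := fun t ht x =>
  ⟨fun hx => by simpa using h t⁻¹ (T.inv_mem ht) _ hx, h t ht x⟩

theorem rs_mem (T : Sylow 2 (Perm Ω)) {p : Ω → Prop} (hp : Inv T p) {t : Perm Ω}
    (ht : t ∈ (T : Subgroup (Perm Ω))) : rs p t ∈ (T : Subgroup (Perm Ω)) := by
  let ρ : (T : Subgroup (Perm Ω)) →* Perm Ω := MonoidHom.mk' (fun t => rs p t.1)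
    (fun a b => rs_mul (hp _ a.2) (hp _ b.2))
  have h1 : IsPGroup 2 ρ.range := by
    rw [MonoidHom.range_eq_map]
    exact (T.isPGroup'.to_subgroup ⊤).map ρ
  have key : ∀ s ∈ (T : Subgroup (Perm Ω)), ∀ g ∈ ρ.range, s * g * s⁻¹ ∈ ρ.range := by
    rintro s hs _ ⟨u, rfl⟩
    refine ⟨⟨s * u * s⁻¹, mul_mem (mul_mem hs u.2) (inv_mem hs)⟩, ?_⟩
    ext x
    change rs p (s * u * s⁻¹) x = s (rs p u.1 (s⁻¹ x))
    by_cases hx : p x
    · rw [rs_pos (hp _ (mul_mem (mul_mem hs u.2) (inv_mem hs))) hx,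
        rs_pos (hp _ u.2) ((hp _ (inv_mem hs) x).2 hx)]
      rfl
    · rw [rs_neg _ hx, rs_neg _ (fun h => hx ((hp _ (inv_mem hs) x).1 h))]
      simp
  have h2 : (T : Subgroup (Perm Ω)) ≤ normalizer (ρ.range : Set (Perm Ω)) := by
    intro s hs
    rw [mem_normalizer_iff]
    intro g
    refine ⟨key s hs g, fun h => ?_⟩
    have := key s⁻¹ (inv_mem hs) _ h
    simpa [mul_assoc] using this
  have h3 := IsPGroup.to_sup_of_normal_right' T.isPGroup' h1 h2
  have h4 := T.is_maximal' h3 le_sup_left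
  rw [← h4]
  exact mem_sup_right ⟨⟨t, ht⟩, rfl⟩

theorem swap_mem (T : Sylow 2 (Perm Ω)) {z : Perm Ω} (hz : ∀ x, z (z x) = x)
    (hc : ∀ t ∈ (T : Subgroup (Perm Ω)), ∀ x, t (z x) = z (t x)) (y : Ω) :
    swap y (z y) ∈ (T : Subgroup (Perm Ω)) := by
  let E : Subgroup (Perm Ω) :=
    { carrier := {g | (∀ x, g (z x) = z (g x)) ∧ ∀ x, g x = x ∨ g x = z x}
      one_mem' := ⟨fun _ => rfl, fun _ => Or.inl rfl⟩
      mul_mem' := by
        rintro a b ⟨ha, ha'⟩ ⟨hb, hb'⟩
        refine ⟨fun x => by rw [Perm.mul_apply, Perm.mul_apply, hb, ha], fun x => ?_⟩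
        rw [Perm.mul_apply]
        rcases hb' x with h | h
        · rw [h]; exact ha' x
        · rw [h, ha]
          rcases ha' x with h | h
          · right; rw [h]
          · left; rw [h, hz]
      inv_mem' := by
        rintro a ⟨ha, ha'⟩
        refine ⟨fun x => ?_, fun x => ?_⟩
        · rw [Perm.inv_eq_iff_eq, ha]; simp
        · rw [Perm.inv_eq_iff_eq, Perm.inv_eq_iff_eq, ha]
          rcases ha' x with h | h
          · left; exact h.symm
          · right; rw [h, hz] }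
  have h1 : IsPGroup 2 E := by
    rintro ⟨g, hg, hg'⟩
    refine ⟨1, Subtype.ext ?_⟩
    ext x
    change (g ^ (2 ^ 1)) x = x
    rw [pow_one, pow_two, Perm.mul_apply]
    rcases hg' x with h | h
    · rw [h, h]
    · rw [h, hg, h, hz]
  have key : ∀ s ∈ (T : Subgroup (Perm Ω)), ∀ g ∈ E, s * g * s⁻¹ ∈ E := by
    rintro s hs g ⟨hg, hg'⟩
    refine ⟨fun x => ?_, fun x => ?_⟩
    · simp only [Perm.mul_apply]
      rw [hc _ (inv_mem hs), hg, hc _ hs]
    · simp only [Perm.mul_apply]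
      rcases hg' (s⁻¹ x) with h | h
      · left; rw [h]; simp
      · right; rw [h, hc _ hs]; simp
  have h2 : (T : Subgroup (Perm Ω)) ≤ normalizer (E : Set (Perm Ω)) := by
    intro s hs
    rw [mem_normalizer_iff]
    intro g
    refine ⟨key s hs g, fun h => ?_⟩
    have := key s⁻¹ (inv_mem hs) _ h
    simpa [mul_assoc] using this
  have h3 := IsPGroup.to_sup_of_normal_right' T.isPGroup' h1 h2
  have h4 := T.is_maximal' h3 le_sup_left
  rw [← h4]
  refine mem_sup_right ⟨fun x => ?_, fun x => ?_⟩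
  · by_cases h1 : x = y
    · subst h1; rw [swap_apply_right, swap_apply_left, hz]
    by_cases h2 : x = z y
    · subst h2; rw [hz, swap_apply_right, swap_apply_left]
    rw [swap_apply_of_ne_of_ne h1 h2, swap_apply_of_ne_of_ne]
    · intro h; apply h2; rw [← h, hz]
    · intro h; exact h1 (z.injective h)
  · by_cases h1 : x = y
    · subst h1; right; rw [swap_apply_left]
    by_cases h2 : x = z y
    · subst h2; right; rw [hz, swap_apply_right]
    left; rw [swap_apply_of_ne_of_ne h1 h2]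

end Cfsg.Agent.H3.SyA
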