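import Cfsg.Agent.H3.SyA1
import Cfsg.Agent.H9.Basic

/-! Direct decomposability of Sylow 2-subgroups of symmetric and alternating groups: setting. -/

set_option autoImplicit false
open Subgroup Equiv Equiv.Perm

namespace Cfsg.Agent.H3.SyA

theorem exists_conj_mem {G : Type*} [Group G] [Finite G] (T : Sylow 2 G) {c : G} {k : ℕ}
    (hc : c ^ 2 ^ k = 1) : ∃ g : G, g * c * g⁻¹ ∈ (T : Subgroup G) := by
  have h1 : IsPGroup 2 (zpowers c) := by
    rintro ⟨x, n, rfl⟩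
    refine ⟨k, Subtype.ext ?_⟩
    change (c ^ n) ^ 2 ^ k = 1
    rw [← zpow_natCast, ← zpow_mul, mul_comm, zpow_mul, zpow_natCast, hc, one_zpow]
  obtain ⟨Q, hQ⟩ := h1.exists_le_sylow
  obtain ⟨g, hg⟩ := MulAction.exists_smul_eq G Q T
  refine ⟨g, ?_⟩
  rw [← hg]
  exact ⟨c, hQ (mem_zpowers c), rfl⟩

theorem exists_central_inv {G : Type*} [Group G] [Finite G] {T N : Subgroup G} (hT : IsPGroup 2 T)
    (hN : N ≤ T) (hne : N ≠ ⊥) (hn : ∀ x ∈ N, ∀ g ∈ T, g * x * g⁻¹ ∈ N) :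
    ∃ z ∈ N, z ≠ 1 ∧ z * z = 1 ∧ ∀ s ∈ T, s * z = z * s := by
  have : (N.subgroupOf T).Normal := ⟨fun x hx g => hn _ hx _ g.2⟩
  obtain ⟨x, hx, hc, ho⟩ := H9.exists_mem_center_orderOf_eq hT (M := N.subgroupOf T)
    (by rwa [Ne, subgroupOf_eq_bot, disjoint_iff, inf_eq_left.2 hN])
  refine ⟨x, hx, fun h => ?_, ?_, fun s hs => ?_⟩
  · have : x = 1 := Subtype.ext h
    rw [this, orderOf_one] at ho; omega
  · have := pow_orderOf_eq_one x
    rw [ho, pow_two] at this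
    exact congrArg Subtype.val this
  · exact congrArg Subtype.val (mem_center_iff.1 hc ⟨s, hs⟩)

variable {Ω : Type*} [Fintype Ω] [DecidableEq Ω]

theorem exists_c0 {m : ℕ} (h : Fintype.card Ω = 4 * m) :
    ∃ c : Perm Ω, c ^ 2 ^ 2 = 1 ∧ ∀ x, c (c x) ≠ x := by
  obtain ⟨e⟩ : Nonempty (ZMod 4 × Fin m ≃ Ω) := by
    rw [← Fintype.card_eq]; simp [h]
  let c : Perm (ZMod 4 × Fin m) := Equiv.prodCongr (Equiv.addRight 1) (Equiv.refl _)
  refine ⟨e.permCongr c, ?_, fun x hx => ?_⟩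
  · ext x
    have : ∀ a : ZMod 4, a + 1 + 1 + 1 + 1 = a := by decide
    simp [pow_succ, c, Prod.map, this]
  · have : ∀ a : ZMod 4, a + 1 + 1 ≠ a := by decide
    simp only [permCongr_apply, symm_apply_apply, c] at hx
    rw [← e.eq_symm_apply] at hx
    exact this _ (congrArg Prod.fst hx)

theorem isConj_fpf {a b : Perm Ω} (ha : a * a = 1) (hb : b * b = 1) (ha' : ∀ x, a x ≠ x)
    (hb' : ∀ x, b x ≠ x) : IsConj a b := by
  apply isConj_of_cycleType_eq
  have h1 := cycleType_of_pow_prime_eq_one (σ := a) (p := 2) (by rw [pow_two, ha])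
  have h2 := cycleType_of_pow_prime_eq_one (σ := b) (p := 2) (by rw [pow_two, hb])
  have s1 : a.support = Finset.univ := by ext x; simp [ha' x]
  have s2 : b.support = Finset.univ := by ext x; simp [hb' x]
  have e1 := a.sum_cycleType
  have e2 := b.sum_cycleType
  rw [h1, Multiset.sum_replicate, s1, smul_eq_mul] at e1
  rw [h2, Multiset.sum_replicate, s2, smul_eq_mul] at e2
  rw [h1, h2]
  congr 1
  omega

theorem exists_z (T : Sylow 2 (Perm Ω)) {c : Perm Ω} (hc : c ∈ (T : Subgroup (Perm Ω)))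
    (hf : ∀ x, c x ≠ x) : ∃ z ∈ (T : Subgroup (Perm Ω)), z * z = 1 ∧ (∀ x, z x ≠ x) ∧
      ∀ s ∈ (T : Subgroup (Perm Ω)), s * z = z * s := by
  obtain ⟨z, ⟨hz, hz2, hzc⟩, hmax⟩ := Set.exists_max_image
    {z : Perm Ω | z ∈ (T : Subgroup (Perm Ω)) ∧ z * z = 1 ∧
      ∀ s ∈ (T : Subgroup (Perm Ω)), s * z = z * s} (fun z => z.support.card) (Set.toFinite _)
      ⟨1, one_mem _, by simp, by simp⟩
  refine ⟨z, hz, hz2, fun x hx => ?_, hzc⟩
  have hp : Inv T (fun y => z y = y) := inv_of fun t ht y hy => by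
    have := congrArg (fun f : Perm Ω => f y) (hzc t ht)
    simp only [Perm.mul_apply] at this
    rw [← this, hy]
  let N : Subgroup (Perm Ω) :=
    { carrier := {t | t ∈ (T : Subgroup (Perm Ω)) ∧ ∀ y, z y ≠ y → t y = y}
      one_mem' := ⟨one_mem _, fun _ _ => rfl⟩
      mul_mem' := by
        rintro a b ⟨ha, ha'⟩ ⟨hb, hb'⟩
        exact ⟨mul_mem ha hb, fun y hy => by rw [Perm.mul_apply, hb' y hy, ha' y hy]⟩
      inv_mem' := by
        rintro a ⟨ha, ha'⟩
        exact ⟨inv_mem ha, fun y hy => by rw [Perm.inv_eq_iff_eq, ha' y hy]⟩ }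
  obtain ⟨w, ⟨hw, hw'⟩, hw1, hw2, hwc⟩ := exists_central_inv (N := N) T.isPGroup' (fun _ h => h.1)
    (by
      intro h
      have h1 : rs (fun y => z y = y) c ∈ N := ⟨rs_mem T hp hc, fun y hy => rs_neg _ hy⟩
      rw [h, mem_bot] at h1
      have := rs_pos (p := fun y => z y = y) (hp c hc) hx
      rw [h1] at this
      exact hf x this.symm)
    (by
      rintro a ⟨ha, ha'⟩ g hg
      refine ⟨mul_mem (mul_mem hg ha) (inv_mem hg), fun y hy => ?_⟩
      simp only [Perm.mul_apply]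
      rw [ha' _ (fun h => hy ((hp _ (inv_mem hg) y).1 h))]
      simp)
  have h1 := hmax (z * w) ⟨mul_mem hz hw, by
    rw [mul_assoc, ← mul_assoc w, hzc w hw, mul_assoc, hw2, mul_one, hz2], fun s hs => by
    rw [← mul_assoc, hzc s hs, mul_assoc, hwc s hs, mul_assoc]⟩
  obtain ⟨y, hy⟩ : ∃ y, w y ≠ y := by
    by_contra h
    push Not at h
    exact hw1 (Equiv.ext h)
  have hzy : z y = y := by by_contra h; exact hy (hw' y h)
  have h2 : z.support ⊂ (z * w).support := by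
    refine ⟨fun u hu => ?_, fun h => ?_⟩
    · rw [mem_support] at hu ⊢
      rwa [Perm.mul_apply, hw' u hu]
    · have : y ∈ (z * w).support := by
        rw [mem_support, Perm.mul_apply, (hp w hw y).2 hzy]; exact hy
      exact mem_support.1 (h this) hzy
  exact absurd (Finset.card_lt_card h2) (not_lt.2 h1)

/-- The setting: a central fixed-point-free involution `z` with a square root `c`. -/
structure St (T : Sylow 2 (Perm Ω)) (c z : Perm Ω) : Prop where
  mem : c ∈ (T : Subgroup (Perm Ω))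
  sq : c * c = z
  zz : ∀ x, z (z x) = x
  fpf : ∀ x, z x ≠ x
  cen : ∀ t ∈ (T : Subgroup (Perm Ω)), ∀ x, t (z x) = z (t x)

theorem exists_st (T : Sylow 2 (Perm Ω)) {m : ℕ} (h : Fintype.card Ω = 4 * m) :
    ∃ c z, St T c z := by
  obtain ⟨c0, h0, h0'⟩ := exists_c0 h
  obtain ⟨g, hg⟩ := exists_conj_mem T h0
  obtain ⟨z, hz, hz2, hzf, hzc⟩ := exists_z T hg (fun x hx => by
    simp only [Perm.mul_apply] at hx
    rw [← Perm.eq_inv_iff_eq] at hx
    exact h0' (g⁻¹ x) (by rw [hx, hx]))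
  have h4 : c0 * c0 * (c0 * c0) = 1 := by rw [← h0]; simp [pow_succ, mul_assoc]
  obtain ⟨u, hu⟩ := isConj_iff.1 (isConj_fpf h4 hz2 h0' hzf)
  have hc2 : (u * c0 * u⁻¹) * (u * c0 * u⁻¹) = z := by rw [← hu]; group
  have hle : (T : Subgroup (Perm Ω)) ≤ centralizer {z} := fun s hs => by
    rw [mem_centralizer_singleton_iff]; exact hzc s hs
  have hm : u * c0 * u⁻¹ ∈ centralizer {z} := by
    rw [mem_centralizer_singleton_iff, ← hc2]; group
  obtain ⟨v, hv⟩ := exists_conj_mem (T.subtype hle) (c := ⟨_, hm⟩) (k := 2) (by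
    apply Subtype.ext
    change (u * c0 * u⁻¹) ^ 2 ^ 2 = 1
    rw [conj_pow, h0]; simp)
  refine ⟨v.1 * (u * c0 * u⁻¹) * v.1⁻¹, z, hv, ?_, fun x => ?_, hzf, fun t ht x => ?_⟩
  · have := mem_centralizer_singleton_iff.1 v.2
    calc _ = v.1 * ((u * c0 * u⁻¹) * (u * c0 * u⁻¹)) * v.1⁻¹ := by group
      _ = z := by rw [hc2, this]; group
  · rw [← Perm.mul_apply, hz2]; rfl
  · rw [← Perm.mul_apply, hzc t ht]; rfl

end Cfsg.Agent.H3.SyA
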