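import Cfsg.Agent.H3.SyA2

/-! Direct decomposability of Sylow 2-subgroups of symmetric and alternating groups: main part. -/

set_option autoImplicit false
set_option linter.unusedSectionVars false
open Subgroup Equiv Equiv.Perm

namespace Cfsg.Agent.H3.SyA

variable {Ω : Type*} [Fintype Ω] [DecidableEq Ω] {T : Sylow 2 (Perm Ω)} {c z : Perm Ω}

theorem St.zmem (h : St T c z) : z ∈ (T : Subgroup (Perm Ω)) := h.sq ▸ mul_mem h.mem h.mem

theorem St.tau (h : St T c z) (y : Ω) : swap y (z y) ∈ (T : Subgroup (Perm Ω)) :=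
  swap_mem T h.zz h.cen y

theorem St.one_or (h : St T c z) {H : Subgroup (Perm Ω)} (hH : H ≤ T)
    (tr : ∀ x y, ∃ t ∈ H, t x = y ∨ t x = z y) {g : Perm Ω} (hg : g ∈ H)
    (hc : ∀ t ∈ H, t * g = g * t) (h1 : ∀ x, g x = x ∨ g x = z x) : g = 1 ∨ g = z := by
  by_cases hx : ∃ x, g x = x
  · obtain ⟨x, hx⟩ := hx
    left
    ext y
    obtain ⟨t, ht, e⟩ := tr x y
    have e2 : g (t x) = t x := by rw [← Perm.mul_apply, ← hc t ht, Perm.mul_apply, hx]
    rcases e with e | e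
    · rw [e] at e2; exact e2
    · rw [e, h.cen g (hH hg)] at e2; exact z.injective e2
  · right
    ext y
    exact (h1 y).resolve_left fun h => hx ⟨y, h⟩

theorem St.not_dec_sym (h : St T c z) (tr : ∀ x y, ∃ t ∈ (T : Subgroup (Perm Ω)), t x = y) :
    ¬ DecS (T : Subgroup (Perm Ω)) := by
  refine not_decS_of_center T.isPGroup' z fun g hg hc => h.one_or le_rfl
    (fun x y => (tr x y).imp fun t ht => ⟨ht.1, Or.inl ht.2⟩) hg hc fun x => ?_
  by_contra hx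
  push Not at hx
  have := congrArg (fun f : Perm Ω => f x) (hc _ (h.tau x))
  simp only [Perm.mul_apply, swap_apply_left] at this
  rw [swap_apply_of_ne_of_ne hx.1 hx.2, h.cen g hg] at this
  exact h.fpf _ this.symm

theorem St.dec_sym (h : St T c z) {x y : Ω} (ntr : ¬ ∃ t ∈ (T : Subgroup (Perm Ω)), t x = y) :
    DecS (T : Subgroup (Perm Ω)) := by
  let p : Ω → Prop := fun u => ∃ t ∈ (T : Subgroup (Perm Ω)), t x = u
  have hp : Inv T p := inv_of fun t ht u ⟨s, hs, e⟩ => ⟨t * s, mul_mem ht hs, by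
    rw [Perm.mul_apply, e]⟩
  have hp' : Inv T (fun u => ¬ p u) := fun t ht u => not_congr (hp t ht u)
  let F : (Ω → Prop) → Subgroup (Perm Ω) := fun q =>
    { carrier := {t | t ∈ (T : Subgroup (Perm Ω)) ∧ ∀ y, ¬ q y → t y = y}
      one_mem' := ⟨one_mem _, fun _ _ => rfl⟩
      mul_mem' := by
        rintro a b ⟨ha, ha'⟩ ⟨hb, hb'⟩
        exact ⟨mul_mem ha hb, fun y hy => by rw [Perm.mul_apply, hb' y hy, ha' y hy]⟩
      inv_mem' := by
        rintro a ⟨ha, ha'⟩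
        exact ⟨inv_mem ha, fun y hy => by rw [Perm.inv_eq_iff_eq, ha' y hy]⟩ }
  have hF : ∀ q, Inv T q → ∀ t ∈ (T : Subgroup (Perm Ω)), rs q t ∈ F q := fun q hq t ht =>
    ⟨rs_mem T hq ht, fun y hy => rs_neg _ hy⟩
  have hne : ∀ q, Inv T q → ∀ u, q u → F q ≠ ⊥ := fun q hq u hu e => by
    have h1 := hF q hq z h.zmem
    rw [e, mem_bot] at h1
    have := rs_pos (hq z h.zmem) hu
    rw [h1] at this
    exact h.fpf u this.symm
  refine ⟨F p, F (fun u => ¬ p u), hne p hp x ⟨1, one_mem _, rfl⟩, hne _ hp' y ntr,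
    fun _ h => h.1, fun _ h => h.1, ?_, ?_, ?_⟩
  · rintro a ⟨ha, ha'⟩ b ⟨hb, hb'⟩
    ext u
    simp only [Perm.mul_apply]
    by_cases hu : p u
    · rw [hb' u (not_not.2 hu), hb' _ (not_not.2 ((hp a ha u).2 hu))]
    · rw [ha' u hu, ha' _ (fun h => hu ((hp b hb u).1 h))]
  · rw [eq_bot_iff]
    rintro a ⟨⟨-, h1⟩, -, h2⟩
    rw [mem_bot]
    ext u
    by_cases hu : p u
    · exact h2 u (not_not.2 hu)
    · exact h1 u hu
  · refine le_antisymm (sup_le (fun _ h => h.1) fun _ h => h.1) fun t ht => ?_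
    rw [← rs_mul_not (hp t ht)]
    exact mul_mem_sup (hF p hp t ht) (hF _ hp' t ht)

theorem St.sign_tau (h : St T c z) (y : Ω) : sign (swap y (z y)) = -1 :=
  sign_swap (h.fpf y).symm

theorem St.not_dec_alt_tr (h : St T c z) (hn : 5 ≤ Fintype.card Ω)
    (tr : ∀ x y, ∃ t ∈ (T : Subgroup (Perm Ω)), t x = y) :
    ¬ DecS ((T : Subgroup (Perm Ω)) ⊓ alternatingGroup Ω) := by
  refine not_decS_of_center (T.isPGroup'.to_le inf_le_left) z fun g hg hc => h.one_or inf_le_left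
    (fun x y => ?_) hg hc fun x => ?_
  · obtain ⟨t, ht, e⟩ := tr x y
    rcases Int.units_eq_one_or (sign t) with s | s
    · exact ⟨t, ⟨ht, s⟩, Or.inl e⟩
    · refine ⟨t * swap x (z x), ⟨mul_mem ht (h.tau x), ?_⟩, Or.inr ?_⟩
      · change sign _ = 1
        rw [map_mul, s, h.sign_tau]; simp
      · rw [Perm.mul_apply, swap_apply_left, h.cen t ht, e]
  · by_contra hx
    push Not at hx
    obtain ⟨y, hy⟩ : ∃ y, y ∉ ({x, z x, g x, z (g x)} : Finset Ω) := by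
      by_contra hy
      push Not at hy
      have : (Finset.univ : Finset Ω) ⊆ {x, z x, g x, z (g x)} := fun y _ => hy y
      have h1 := Finset.card_le_card this
      have h2 : ({x, z x, g x, z (g x)} : Finset Ω).card ≤ 4 := Finset.card_le_four
      rw [Finset.card_univ] at h1
      omega
    simp only [Finset.mem_insert, Finset.mem_singleton, not_or] at hy
    obtain ⟨y1, y2, y3, y4⟩ := hy
    have hm : swap x (z x) * swap y (z y) ∈ (T : Subgroup (Perm Ω)) ⊓ alternatingGroup Ω :=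
      ⟨mul_mem (h.tau x) (h.tau y), by
        change sign _ = 1
        rw [map_mul, h.sign_tau, h.sign_tau]; simp⟩
    have := congrArg (fun f : Perm Ω => f x) (hc _ hm)
    simp only [Perm.mul_apply] at this
    rw [swap_apply_of_ne_of_ne (Ne.symm y3) (fun e => y4 (by rw [e, h.zz])),
      swap_apply_of_ne_of_ne hx.1 hx.2,
      swap_apply_of_ne_of_ne (Ne.symm y1) (fun e => y2 (by rw [e, h.zz])), swap_apply_left,
      h.cen g hg.1] at this
    exact h.fpf _ this.symm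

/-- local lemma on one orbit -/
theorem St.lemW (h : St T c z) {A B : Subgroup (Perm Ω)} (hA : A ≤ T) (hB : B ≤ T)
    (h3 : ∀ a ∈ A, ∀ b ∈ B, a * b = b * a) {p : Ω → Prop} (hp : Inv T p) {x : Ω} (hx : p x)
    {a0 b0 : Perm Ω} (ha0 : a0 ∈ A) (hb0 : b0 ∈ B)
    (e0 : ∀ y, p y → a0 (b0 y) = swap x (z x) y) :
    (∀ a ∈ A, a x = x ∨ a x = z x) ∨ (∀ b ∈ B, b x = x ∨ b x = z x) := by
  by_contra hh
  push Not at hh
  obtain ⟨⟨a, ha, a1, a2⟩, ⟨b, hb, b1, b2⟩⟩ := hh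
  have cm : ∀ a ∈ A, ∀ b ∈ B, ∀ y, a (b y) = b (a y) := fun a ha b hb y => by
    rw [← Perm.mul_apply, h3 a ha b hb, Perm.mul_apply]
  have pa : p (a x) := (hp a (hA ha) x).2 hx
  have pb : p (b x) := (hp b (hB hb) x).2 hx
  have ex : a0 (b0 x) = z x := by rw [e0 x hx, swap_apply_left]
  have eb : a0 (b0 (b x)) = b x := by rw [e0 _ pb, swap_apply_of_ne_of_ne b1 b2]
  have ea : a0 (b0 (a x)) = a x := by rw [e0 _ pa, swap_apply_of_ne_of_ne a1 a2]
  -- `a0 x ∈ {x, z x}`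
  have f1 : a0 x = x ∨ a0 x = z x := by
    by_contra hh
    push Not at hh
    have := e0 (a0 x) ((hp a0 (hA ha0) x).2 hx)
    rw [swap_apply_of_ne_of_ne hh.1 hh.2, ← cm a0 ha0 b0 hb0, ex, h.cen a0 (hA ha0)] at this
    exact h.fpf _ this
  -- `b x ∈ {a x, z a x}`
  have f2 : b x = a x ∨ b x = z (a x) := by
    by_contra hh
    push Not at hh
    -- the element `w = a a0 a⁻¹ a0⁻¹ ∈ A` acts on `p` as `τ (a x) τ x`
    have hw : a * a0 * a⁻¹ * a0⁻¹ ∈ A := mul_mem (mul_mem (mul_mem ha ha0) (inv_mem ha)) (inv_mem ha0)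
    have e1 : ∀ y, p y → (a * a0 * a⁻¹ * a0⁻¹) y = a (swap x (z x) (a⁻¹ (swap x (z x) y))) := by
      intro y hy
      have hs : p (swap x (z x) y) := (hp _ (h.tau x) y).2 hy
      have i1 : a0 (b0 (swap x (z x) y)) = y := by rw [e0 _ hs, swap_apply_self]
      rw [← e0 _ ((hp _ (inv_mem (hA ha)) _).2 hs), ← cm a⁻¹ (inv_mem ha) b0 hb0]
      simp only [Perm.mul_apply]
      congr 3
      rw [Perm.inv_eq_iff_eq, i1]
    have e2 := cm _ hw b hb x
    rw [e1 _ pb, e1 _ hx, swap_apply_of_ne_of_ne b1 b2, swap_apply_left,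
      swap_apply_of_ne_of_ne (x := a⁻¹ (b x)), swap_apply_of_ne_of_ne (x := a⁻¹ (z x))] at e2
    · have k : ∀ y, a (a⁻¹ y) = y := fun y => by simp
      rw [k, k] at e2
      exact h.fpf x (b.injective e2).symm
    · rw [Ne, Perm.inv_eq_iff_eq]; exact fun e => a2 e.symm
    · rw [Ne, Perm.inv_eq_iff_eq, h.cen a (hA ha)]; exact fun e => a1 (z.injective e).symm
    · rw [Ne, Perm.inv_eq_iff_eq]; exact hh.1
    · rw [Ne, Perm.inv_eq_iff_eq, h.cen a (hA ha)]; exact hh.2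
  rcases f1 with f1 | f1
  · -- b0 x = z x
    have g1 : b0 x = z x := by rw [cm a0 ha0 b0 hb0, f1] at ex; exact ex
    have g2 : b0 (a x) = z (a x) := by rw [← cm a ha b0 hb0, g1, h.cen a (hA ha)]
    have g3 : a0 (b x) = b x := by rw [cm a0 ha0 b hb, f1]
    have g4 : a0 (a x) = a x := by
      rcases f2 with f2 | f2
      · rwa [f2] at g3
      · rw [f2, h.cen a0 (hA ha0)] at g3; exact z.injective g3
    rw [g2, h.cen a0 (hA ha0), g4] at ea
    exact h.fpf _ ea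
  · have g1 : b0 x = x := by
      rw [cm a0 ha0 b0 hb0, f1, h.cen b0 (hB hb0)] at ex; exact z.injective ex
    have g2 : b0 (a x) = a x := by rw [← cm a ha b0 hb0, g1]
    have g3 : a0 (b x) = z (b x) := by rw [cm a0 ha0 b hb, f1, h.cen b (hB hb)]
    have g4 : b0 (b x) = b x := by
      rcases f2 with f2 | f2
      · rw [f2, g2]
      · rw [f2, h.cen b0 (hB hb0), g2]
    rw [g4, g3] at eb
    exact h.fpf _ eb

section NonTrans

variable {A B : Subgroup (Perm Ω)}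

theorem St.p_tr (h : St T c z)
    (ntr : ∀ x, ∃ y, ¬ ∃ t ∈ (T : Subgroup (Perm Ω)), t x = y) {t : Perm Ω}
    (ht : t ∈ (T : Subgroup (Perm Ω))) (x : Ω) :
    ∃ s ∈ (T : Subgroup (Perm Ω)) ⊓ alternatingGroup Ω, s x = t x := by
  rcases Int.units_eq_one_or (sign t) with s | s
  · exact ⟨t, ⟨ht, s⟩, rfl⟩
  · obtain ⟨y, hy⟩ := ntr x
    refine ⟨t * swap y (z y), ⟨mul_mem ht (h.tau y), ?_⟩, ?_⟩
    · change sign _ = 1
      rw [map_mul, s, h.sign_tau]; simp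
    · rw [Perm.mul_apply, swap_apply_of_ne_of_ne]
      · exact fun e => hy ⟨1, one_mem _, e⟩
      · exact fun e => hy ⟨z, h.zmem, by rw [e, h.zz]⟩

theorem St.loc (h : St T c z) (ntr : ∀ x, ∃ y, ¬ ∃ t ∈ (T : Subgroup (Perm Ω)), t x = y)
    (hA : A ≤ T) (hB : B ≤ T) (h3 : ∀ a ∈ A, ∀ b ∈ B, a * b = b * a)
    (h5 : A ⊔ B = (T : Subgroup (Perm Ω)) ⊓ alternatingGroup Ω) (x : Ω) :
    (∀ a ∈ A, a x = x ∨ a x = z x) ∨ (∀ b ∈ B, b x = x ∨ b x = z x) := by
  obtain ⟨y, hy⟩ := ntr x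
  let p : Ω → Prop := fun u => ∃ t ∈ (T : Subgroup (Perm Ω)), t x = u
  have hp : Inv T p := inv_of fun t ht u ⟨s, hs, e⟩ => ⟨t * s, mul_mem ht hs, by
    rw [Perm.mul_apply, e]⟩
  have hm : swap x (z x) * swap y (z y) ∈ (T : Subgroup (Perm Ω)) ⊓ alternatingGroup Ω :=
    ⟨mul_mem (h.tau x) (h.tau y), by
      change sign _ = 1
      rw [map_mul, h.sign_tau, h.sign_tau]; simp⟩
  obtain ⟨a, ha, b, hb, e⟩ := DecS.exists_mul h3 h5 hm
  refine h.lemW hA hB h3 hp (x := x) ⟨1, one_mem _, rfl⟩ ha hb fun u hu => ?_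
  rw [← Perm.mul_apply, ← e, Perm.mul_apply, swap_apply_of_ne_of_ne (x := u)]
  · rintro rfl; exact hy hu
  · rintro rfl; exact hy ((hp z h.zmem y).1 hu)

/-- the predicate "B acts at x as 1 or z" is invariant -/
theorem St.inv_p (h : St T c z) (ntr : ∀ x, ∃ y, ¬ ∃ t ∈ (T : Subgroup (Perm Ω)), t x = y)
    (hA : A ≤ T) (hB : B ≤ T) (h3 : ∀ a ∈ A, ∀ b ∈ B, a * b = b * a)
    (h5 : A ⊔ B = (T : Subgroup (Perm Ω)) ⊓ alternatingGroup Ω) :
    Inv T (fun x => ∀ b ∈ B, b x = x ∨ b x = z x) := by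
  refine inv_of fun t ht x hx b hb => ?_
  obtain ⟨s, hs, e⟩ := h.p_tr ntr ht x
  obtain ⟨a, ha, b', hb', rfl⟩ := DecS.exists_mul h3 h5 hs
  rw [← e, Perm.mul_apply, ← Perm.mul_apply b a, ← h3 a ha b hb, Perm.mul_apply,
    ← h.cen a (hA ha), a.injective.eq_iff, a.injective.eq_iff]
  rcases hx b' hb' with e1 | e1
  · rw [e1]; exact hx b hb
  · rw [e1, h.cen b (hB hb), z.injective.eq_iff, z.injective.eq_iff]; exact hx b hb

/-- on an invariant set where `B` acts as `1` or `z`, each `b` is a restriction of `z` -/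
theorem St.rs_eq (h : St T c z) (ntr : ∀ x, ∃ y, ¬ ∃ t ∈ (T : Subgroup (Perm Ω)), t x = y)
    (hB : B ≤ T) (h3 : ∀ a ∈ A, ∀ b ∈ B, a * b = b * a)
    (h5 : A ⊔ B = (T : Subgroup (Perm Ω)) ⊓ alternatingGroup Ω) {q : Ω → Prop} (hq : Inv T q)
    (hqB : ∀ x, q x → ∀ b ∈ B, b x = x ∨ b x = z x) {b : Perm Ω} (hb : b ∈ B) :
    ∃ r : Ω → Prop, Inv T r ∧ (∀ x, r x → q x) ∧ rs q b = rs r c * rs r c := by
  have hr : Inv T (fun x => q x ∧ b x ≠ x) := by
    refine inv_of fun t ht x hx => ⟨(hq t ht x).2 hx.1, ?_⟩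
    obtain ⟨s, hs, e⟩ := h.p_tr ntr ht x
    obtain ⟨a, ha, b', hb', rfl⟩ := DecS.exists_mul h3 h5 hs
    rw [← e, Perm.mul_apply, ← Perm.mul_apply b a, ← h3 a ha b hb, Perm.mul_apply,
      a.injective.ne_iff]
    rcases hqB x hx.1 b' hb' with e1 | e1
    · rw [e1]; exact hx.2
    · rw [e1, h.cen b (hB hb), z.injective.ne_iff]; exact hx.2
  refine ⟨_, hr, fun x hx => hx.1, ?_⟩
  rw [← rs_mul (hr c h.mem) (hr c h.mem), h.sq]
  ext x
  by_cases hx : q x
  · rw [rs_pos (hq b (hB hb)) hx]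
    by_cases hx' : b x = x
    · rw [rs_neg (p := fun x => q x ∧ b x ≠ x) _ (fun h => h.2 hx'), hx']
    · rw [rs_pos (p := fun x => q x ∧ b x ≠ x) (hr z h.zmem) ⟨hx, hx'⟩]
      exact (hqB x hx b hb).resolve_left hx'
  · rw [rs_neg _ hx, rs_neg (p := fun x => q x ∧ b x ≠ x) _ (fun h => hx h.1)]

theorem St.bot_of_all (h : St T c z) (ntr : ∀ x, ∃ y, ¬ ∃ t ∈ (T : Subgroup (Perm Ω)), t x = y)
    (hB : B ≤ T) (h3 : ∀ a ∈ A, ∀ b ∈ B, a * b = b * a) (h4 : A ⊓ B = ⊥)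
    (h5 : A ⊔ B = (T : Subgroup (Perm Ω)) ⊓ alternatingGroup Ω)
    (hall : ∀ x, ∀ b ∈ B, b x = x ∨ b x = z x) : B = ⊥ := by
  have sqA : ∀ u ∈ (T : Subgroup (Perm Ω)) ⊓ alternatingGroup Ω, u * u ∈ A := by
    intro u hu
    obtain ⟨a, ha, b, hb, rfl⟩ := DecS.exists_mul h3 h5 hu
    have : b * b = 1 := by
      ext x
      rw [Perm.mul_apply]
      rcases hall x b hb with e | e
      · rw [e, e]; rfl
      · rw [e, h.cen b (hB hb), e, h.zz]; rfl
    have e : a * b * (a * b) = a * a := by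
      rw [mul_assoc, ← mul_assoc b, ← h3 a ha b hb, mul_assoc, this, mul_one]
    rw [e]; exact mul_mem ha ha
  have key : ∀ r : Ω → Prop, Inv T r → ∀ y, ¬ r y → rs r c * rs r c ∈ A := by
    intro r hr y hy
    have hu := rs_mem T hr h.mem
    rcases Int.units_eq_one_or (sign (rs r c)) with s | s
    · exact sqA _ ⟨hu, s⟩
    · have h1 := sqA (rs r c * swap y (z y)) ⟨mul_mem hu (h.tau y), by
        change sign _ = 1
        rw [map_mul, s, h.sign_tau]; simp⟩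
      have hy' : ¬ r (z y) := fun e => hy ((hr z h.zmem y).1 e)
      have h2 : swap y (z y) * rs r c = rs r c * swap y (z y) := by
        rw [Equiv.mul_swap_eq_swap_mul, rs_neg _ hy, rs_neg _ hy']
      rwa [mul_assoc, ← mul_assoc (swap y (z y)), h2, mul_assoc, swap_mul_self, mul_one] at h1
  rw [eq_bot_iff]
  intro b hb
  rw [← h4]
  refine ⟨?_, hb⟩
  by_cases hb1 : b = 1
  · rw [hb1]; exact one_mem _
  obtain ⟨x, -⟩ : ∃ x, b x ≠ x := by
    by_contra hh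
    push Not at hh
    exact hb1 (Equiv.ext hh)
  obtain ⟨y, hy⟩ := ntr x
  let p : Ω → Prop := fun u => ∃ t ∈ (T : Subgroup (Perm Ω)), t x = u
  have hp : Inv T p := inv_of fun t ht u ⟨s, hs, e⟩ => ⟨t * s, mul_mem ht hs, by
    rw [Perm.mul_apply, e]⟩
  have hp' : Inv T (fun u => ¬ p u) := fun t ht u => not_congr (hp t ht u)
  obtain ⟨r, hr, hr', e⟩ := h.rs_eq ntr hB h3 h5 hp (fun x _ => hall x) hb
  obtain ⟨r2, hr2, hr2', e2⟩ := h.rs_eq ntr hB h3 h5 hp' (fun x _ => hall x) hb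
  rw [← rs_mul_not (hp b (hB hb)), e, e2]
  exact mul_mem (key r hr y fun e => hy (hr' y e))
    (key r2 hr2 x fun e => hr2' x e ⟨1, one_mem _, rfl⟩)

end NonTrans

theorem St.not_dec_alt_ntr (h : St T c z)
    (ntr : ∀ x, ∃ y, ¬ ∃ t ∈ (T : Subgroup (Perm Ω)), t x = y) :
    ¬ DecS ((T : Subgroup (Perm Ω)) ⊓ alternatingGroup Ω) := by
  rintro ⟨A, B, hA, hB, h1, h2, h3, h4, h5⟩
  have hA' : A ≤ T := h1.trans inf_le_left
  have hB' : B ≤ T := h2.trans inf_le_left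
  have h3' : ∀ b ∈ B, ∀ a ∈ A, b * a = a * b := fun b hb a ha => (h3 a ha b hb).symm
  have h4' : B ⊓ A = ⊥ := by rw [inf_comm, h4]
  have h5' : B ⊔ A = (T : Subgroup (Perm Ω)) ⊓ alternatingGroup Ω := by rw [sup_comm, h5]
  obtain ⟨x, hx⟩ : ∃ x, ¬ ∀ a ∈ A, a x = x ∨ a x = z x := by
    by_contra hh
    push Not at hh
    exact hA (h.bot_of_all ntr hA' h3' h4' h5' hh)
  obtain ⟨y, hy⟩ : ∃ x, ¬ ∀ b ∈ B, b x = x ∨ b x = z x := by
    by_contra hh
    push Not at hh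
    exact hB (h.bot_of_all ntr hB' h3 h4 h5 hh)
  let p : Ω → Prop := fun x => ∀ a ∈ A, a x = x ∨ a x = z x
  have hp : Inv T p := h.inv_p ntr hB' hA' h3' h5'
  have hp' : Inv T (fun u => ¬ p u) := fun t ht u => not_congr (hp t ht u)
  have py : p y := (h.loc ntr hA' hB' h3 h5 y).resolve_right hy
  have hm : swap x (z x) * swap y (z y) ∈ (T : Subgroup (Perm Ω)) ⊓ alternatingGroup Ω :=
    ⟨mul_mem (h.tau x) (h.tau y), by
      change sign _ = 1
      rw [map_mul, h.sign_tau, h.sign_tau]; simp⟩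
  obtain ⟨a, ha, b, hb, e⟩ := DecS.exists_mul h3 h5 hm
  obtain ⟨r, -, -, e1⟩ := h.rs_eq ntr hA' h3' h5' hp (fun x hx => hx) ha
  obtain ⟨r2, -, -, e2⟩ := h.rs_eq ntr hB' h3 h5 hp'
    (fun x hx => (h.loc ntr hA' hB' h3 h5 x).resolve_left hx) hb
  have s1 : sign (rs p a) = 1 := by rw [e1, map_mul, Int.units_mul_self]
  have s2 : sign (rs (fun u => ¬ p u) b) = 1 := by rw [e2, map_mul, Int.units_mul_self]
  have s3 : sign a = 1 := (h1 ha).2
  have s4 : sign (rs (fun u => ¬ p u) a) = 1 := by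
    rw [← rs_mul_not (hp a (hA' ha)), map_mul, s1, one_mul] at s3; exact s3
  have s5 : rs (fun u => ¬ p u) (a * b) = swap x (z x) := by
    rw [← e]
    ext u
    by_cases hu : p u
    · rw [rs_neg (p := fun u => ¬ p u) _ (not_not.2 hu), swap_apply_of_ne_of_ne]
      · rintro rfl; exact hx hu
      · rintro rfl; exact hx ((hp z h.zmem x).1 hu)
    · rw [rs_pos (p := fun u => ¬ p u) (hp' _ hm.1) hu, Perm.mul_apply,
        swap_apply_of_ne_of_ne (x := u)]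
      · rintro rfl; exact hu py
      · rintro rfl; exact hu ((hp z h.zmem y).2 py)
  have := h.sign_tau x
  rw [← s5, rs_mul (hp' a (hA' ha)) (hp' b (hB' hb)), map_mul, s4, s2] at this
  exact absurd this (by decide)

theorem St.not_dec_alt (h : St T c z) (hn : 5 ≤ Fintype.card Ω) :
    ¬ DecS ((T : Subgroup (Perm Ω)) ⊓ alternatingGroup Ω) := by
  by_cases tr : ∀ x y, ∃ t ∈ (T : Subgroup (Perm Ω)), t x = y
  · exact h.not_dec_alt_tr hn tr
  · refine h.not_dec_alt_ntr fun x => ?_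
    by_contra hh
    push Not at hh
    apply tr
    intro u v
    obtain ⟨s, hs, rfl⟩ := hh u
    obtain ⟨t, ht, rfl⟩ := hh v
    exact ⟨t * s⁻¹, mul_mem ht (inv_mem hs), by simp⟩

end Cfsg.Agent.H3.SyA
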