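import Cfsg.Agent.H3.SyA3

/-! Direct decomposability of Sylow 2-subgroups of symmetric and alternating groups: assembly. -/

set_option autoImplicit false
set_option linter.unusedSectionVars false
open Subgroup Equiv Equiv.Perm

namespace Cfsg.Agent.H3.SyA

variable {Ω : Type*} [Fintype Ω] [DecidableEq Ω]

theorem tr_iff [Nonempty Ω] (T : Sylow 2 (Perm Ω)) :
    (∀ x y, ∃ t ∈ (T : Subgroup (Perm Ω)), t x = y) ↔ ∃ r, Fintype.card Ω = 2 ^ r := by
  constructor
  · intro tr
    obtain ⟨x⟩ := ‹Nonempty Ω›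
    obtain ⟨r, hr⟩ := T.isPGroup'.card_orbit x
    refine ⟨r, ?_⟩
    rw [← hr]
    have : MulAction.orbit (T : Subgroup (Perm Ω)) x = Set.univ := by
      rw [Set.eq_univ_iff_forall]
      intro y
      obtain ⟨t, ht, e⟩ := tr x y
      exact ⟨⟨t, ht⟩, e⟩
    rw [this, Nat.card_congr (Equiv.Set.univ Ω), Nat.card_eq_fintype_card]
  · rintro ⟨r, hr⟩
    have : NeZero (2 ^ r) := ⟨by positivity⟩
    obtain ⟨e⟩ : Nonempty (ZMod (2 ^ r) ≃ Ω) := by
      rw [← Fintype.card_eq]; simp [hr]
    have hp : ∀ (k : ℕ) x, (e.permCongr (Equiv.addRight 1) ^ k) x = e (e.symm x + k) := by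
      intro k
      induction k with
      | zero => intro x; simp
      | succ k ih => intro x; rw [pow_succ', Perm.mul_apply, ih]; simp [add_assoc]
    obtain ⟨g, hg⟩ := exists_conj_mem T (c := e.permCongr (Equiv.addRight 1)) (k := r) (by
      ext x
      rw [hp, ZMod.natCast_self]; simp)
    intro x y
    refine ⟨_, pow_mem hg (e.symm (g⁻¹ y) - e.symm (g⁻¹ x)).val, ?_⟩
    rw [conj_pow]
    simp only [Perm.mul_apply]
    rw [hp]
    simp

theorem dec_sym_iff {m : ℕ} (hm : 1 ≤ m) (h : Fintype.card Ω = 4 * m) (T : Sylow 2 (Perm Ω)) :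
    DecS (T : Subgroup (Perm Ω)) ↔ ∀ r, 4 * m ≠ 2 ^ r := by
  have : Nonempty Ω := Fintype.card_pos_iff.1 (by omega)
  obtain ⟨c, z, hs⟩ := exists_st T h
  have := tr_iff T
  rw [h] at this
  constructor
  · intro hd r hr
    exact hs.not_dec_sym (this.2 ⟨r, hr⟩) hd
  · intro hr
    have h2 : ¬ ∀ x y, ∃ t ∈ (T : Subgroup (Perm Ω)), t x = y := fun h => by
      obtain ⟨r, e⟩ := this.1 h
      exact hr r e
    push Not at h2
    obtain ⟨x, y, h2⟩ := h2
    refine hs.dec_sym (x := x) (y := y) ?_
    rintro ⟨t, ht, e⟩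
    exact h2 t ht e

theorem not_dec_alt {m : ℕ} (hm : 2 ≤ m) (h : Fintype.card Ω = 4 * m)
    (P : Sylow 2 (alternatingGroup Ω)) : ¬ DecS (P : Subgroup (alternatingGroup Ω)) := by
  obtain ⟨T, hT⟩ := P.exists_comap_subtype_eq
  obtain ⟨c, z, hs⟩ := exists_st T h
  rw [← decS_map_iff _ (alternatingGroup Ω).subtype (subtype_injective _), ← hT,
    Subgroup.map_comap_eq, range_subtype, inf_comm]
  exact hs.not_dec_alt (by omega)

theorem dec_four (h : Fintype.card Ω = 4) (P : Sylow 2 (alternatingGroup Ω)) :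
    DecS (P : Subgroup (alternatingGroup Ω)) := by
  have h' : Nat.card Ω = 4 := by rw [Nat.card_eq_fintype_card, h]
  rw [alternatingGroup.two_sylow_eq_kleinFour_of_card_eq_four h']
  have := alternatingGroup.kleinFour_isKleinFour h'
  obtain ⟨e⟩ := IsKleinFour.nonempty_mulEquiv (G₁ := Multiplicative (ZMod 2 × ZMod 2))
    (G₂ := alternatingGroup.kleinFour Ω)
  have h1 : DecS (⊤ : Subgroup (Multiplicative (ZMod 2 × ZMod 2))) := by
    refine ⟨zpowers (Multiplicative.ofAdd (1, 0)), zpowers (Multiplicative.ofAdd (0, 1)), ?_, ?_,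
      le_top, le_top, fun a _ b _ => mul_comm a b, ?_, ?_⟩
    · rw [Ne, zpowers_eq_bot]; decide
    · rw [Ne, zpowers_eq_bot]; decide
    · rw [eq_bot_iff]
      rintro x ⟨⟨k, hk⟩, ⟨l, hl⟩⟩
      rw [mem_bot]
      have e1 := congrArg (fun y => (Multiplicative.toAdd y).2) hk
      have e2 := congrArg (fun y => (Multiplicative.toAdd y).1) hl
      simp at e1 e2
      exact Prod.ext e2.symm e1.symm
    · rw [eq_top_iff]
      intro x _
      have : ∀ x : Multiplicative (ZMod 2 × ZMod 2), ∃ k l : Fin 2,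
          x = Multiplicative.ofAdd (1, 0) ^ k.1 * Multiplicative.ofAdd (0, 1) ^ l.1 := by decide
      obtain ⟨k, l, rfl⟩ := this x
      exact mul_mem_sup (pow_mem (mem_zpowers _) _) (pow_mem (mem_zpowers _) _)
  have h2 := h1.map ((alternatingGroup.kleinFour Ω).subtype.comp e.toMonoidHom)
    ((subtype_injective _).comp e.injective)
  rwa [← Subgroup.map_map, ← MonoidHom.range_eq_map e.toMonoidHom,
    MonoidHom.range_eq_top.2 e.surjective, ← MonoidHom.range_eq_map, range_subtype] at h2

theorem sign_via {α β : Type*} [Fintype α] [DecidableEq α] [Fintype β] [DecidableEq β]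
    (e : α ↪ β) (σ : Perm α) : sign (viaEmbeddingHom e σ) = sign σ := by
  classical
  rw [viaEmbeddingHom_apply, viaEmbedding]
  convert sign_extendDomain σ _

theorem index_range {G G' : Type*} [Group G] [Group G'] [Finite G'] (f : G →* G')
    (hf : Function.Injective f) : Nat.card G * f.range.index = Nat.card G' := by
  have h1 : Nat.card f.range = Nat.card G := by
    rw [MonoidHom.range_eq_map, card_map_of_injective hf, card_top]
  rw [← h1, f.range.card_mul_index]

theorem exists_alt_alt {k n : ℕ} (h : k ≤ n) :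
    ∃ f : alternatingGroup (Fin k) →* alternatingGroup (Fin n), Function.Injective f := by
  refine ⟨((viaEmbeddingHom (Fin.castLEEmb h)).comp (alternatingGroup _).subtype).codRestrict _
    fun g => ?_, fun a b e => ?_⟩
  · rw [mem_alternatingGroup, MonoidHom.comp_apply, sign_via]; exact g.2
  · exact Subtype.ext (viaEmbeddingHom_injective _ (congrArg Subtype.val e))

theorem exists_sym_alt {k n : ℕ} (h : k + 2 ≤ n) :
    ∃ f : Perm (Fin k) →* alternatingGroup (Fin n), Function.Injective f := by
  let e : Fin k ↪ Fin n := Fin.castLEEmb (by omega)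
  let a : Fin n := ⟨k, by omega⟩
  let b : Fin n := ⟨k + 1, by omega⟩
  have ha : a ∉ Set.range e := by
    rintro ⟨x, hx⟩
    have := congrArg Fin.val hx
    simp [e, a] at this
    omega
  have hb : b ∉ Set.range e := by
    rintro ⟨x, hx⟩
    have := congrArg Fin.val hx
    simp [e, b] at this
    omega
  have hab : a ≠ b := by simp [a, b]
  have fa : ∀ g, viaEmbeddingHom e g a = a := fun g => viaEmbedding_apply_of_notMem _ _ _ ha
  have fb : ∀ g, viaEmbeddingHom e g b = b := fun g => viaEmbedding_apply_of_notMem _ _ _ hb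
  have cm : ∀ g, swap a b * viaEmbeddingHom e g = viaEmbeddingHom e g * swap a b := fun g => by
    rw [Equiv.mul_swap_eq_swap_mul, fa, fb]
  let s : Perm (Fin k) → Perm (Fin n) := fun g => if sign g = 1 then 1 else swap a b
  have hs : ∀ g g', s (g * g') = s g * s g' := fun g g' => by
    rcases Int.units_eq_one_or (sign g) with h1 | h1 <;>
      rcases Int.units_eq_one_or (sign g') with h2 | h2 <;> simp [s, h1, h2]
  have cm' : ∀ g g', s g * viaEmbeddingHom e g' = viaEmbeddingHom e g' * s g := fun g g' => by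
    simp only [s]
    split_ifs
    · simp
    · exact cm g'
  let f : Perm (Fin k) →* Perm (Fin n) := MonoidHom.mk' (fun g => viaEmbeddingHom e g * s g)
    (fun g g' => by
      rw [map_mul, hs, mul_assoc, mul_assoc, ← mul_assoc (s g) (viaEmbeddingHom e g'), cm',
        mul_assoc])
  refine ⟨f.codRestrict _ fun g => ?_, (injective_iff_map_eq_one _).2 fun g hg => ?_⟩
  · change sign (viaEmbeddingHom e g * s g) = 1
    rw [map_mul, sign_via]
    rcases Int.units_eq_one_or (sign g) with h1 | h1 <;> simp [s, h1, sign_swap hab]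
  · have h1 : viaEmbeddingHom e g * s g = 1 := congrArg Subtype.val hg
    by_cases h2 : sign g = 1
    · simp only [s, h2, if_true, mul_one] at h1
      exact (injective_iff_map_eq_one _).1 (viaEmbeddingHom_injective e) g h1
    · simp only [s, h2, if_false] at h1
      have := congrArg (fun f : Perm (Fin n) => f a) h1
      simp only [Perm.mul_apply, swap_apply_left, fb, Perm.one_apply] at this
      exact absurd this.symm hab

theorem two_mul_card_alt {n : ℕ} (h : 2 ≤ n) :
    2 * Nat.card (alternatingGroup (Fin n)) = n.factorial := by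
  have : Nontrivial (Fin n) := Fin.nontrivial_iff_two_le.2 h
  rw [two_mul_nat_card_alternatingGroup, Nat.card_perm, Nat.card_fin]

theorem main (n : ℕ) (hn : 4 ≤ n) (P : Sylow 2 (alternatingGroup (Fin n))) :
    DecS (P : Subgroup (alternatingGroup (Fin n))) ↔
      (n = 4 ∨ n = 5 ∨ ((n % 4 = 2 ∨ n % 4 = 3) ∧ ∀ r : ℕ, 4 * (n / 4) ≠ 2 ^ r)) := by
  obtain ⟨m, hm⟩ : ∃ m, m = n / 4 := ⟨_, rfl⟩
  rw [← hm]
  have hf := (4 * m).factorial_pos
  by_cases h : n % 4 = 0 ∨ n % 4 = 1
  · obtain ⟨f, hf⟩ := exists_alt_alt (k := 4 * m) (n := n) (by omega)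
    obtain ⟨Q⟩ : Nonempty (Sylow 2 (alternatingGroup (Fin (4 * m)))) := inferInstance
    have e := index_range f hf
    have e1 := two_mul_card_alt (n := n) (by omega)
    have e2 := two_mul_card_alt (n := 4 * m) (by omega)
    rw [← e, ← mul_assoc, e2] at e1
    rw [decS_sylow f hf ?_ Q P]
    · by_cases h1 : m = 1
      · exact ⟨fun _ => by omega, fun _ => dec_four (by simp [h1]) Q⟩
      · exact ⟨fun h2 => absurd h2 (not_dec_alt (m := m) (by omega) (by simp) Q),
          fun h2 => by omega⟩
    · rcases h with h | h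
      · have : n = 4 * m := by omega
        conv at e1 => rhs; rw [this]
        have : f.range.index = 1 := by
          apply Nat.eq_of_mul_eq_mul_left (4 * m).factorial_pos; rw [mul_one]; exact e1
        omega
      · have : n = 4 * m + 1 := by omega
        conv at e1 => rhs; rw [this, Nat.factorial_succ, mul_comm]
        have := Nat.eq_of_mul_eq_mul_left (4 * m).factorial_pos e1
        omega
  · obtain ⟨f, hf⟩ := exists_sym_alt (k := 4 * m) (n := n) (by omega)
    obtain ⟨Q⟩ : Nonempty (Sylow 2 (Perm (Fin (4 * m)))) := inferInstance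
    have e := index_range f hf
    have e1 := two_mul_card_alt (n := n) (by omega)
    rw [← e, Nat.card_perm, Nat.card_fin] at e1
    rw [decS_sylow f hf ?_ Q P, dec_sym_iff (m := m) (by omega) (by simp) Q]
    · exact ⟨fun h2 => Or.inr (Or.inr ⟨by omega, h2⟩), fun h2 => by
        rcases h2 with h2 | h2 | h2
        · omega
        · omega
        · exact h2.2⟩
    · by_cases h3 : n % 4 = 2
      · have : n = 4 * m + 1 + 1 := by omega
        conv at e1 => rhs; rw [this, Nat.factorial_succ, Nat.factorial_succ]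
        have : f.range.index = (2 * m + 1) * (4 * m + 1) := by
          apply Nat.eq_of_mul_eq_mul_left (Nat.mul_pos two_pos (4 * m).factorial_pos)
          rw [mul_assoc, e1]; ring
        rw [this, Nat.two_dvd_ne_zero, ← Nat.odd_iff]
        exact Odd.mul ⟨m, rfl⟩ ⟨2 * m, by ring⟩
      · have : n = 4 * m + 1 + 1 + 1 := by omega
        conv at e1 => rhs; rw [this, Nat.factorial_succ, Nat.factorial_succ, Nat.factorial_succ]
        have : f.range.index = (2 * m + 1) * (4 * m + 1) * (4 * m + 3) := by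
          apply Nat.eq_of_mul_eq_mul_left (Nat.mul_pos two_pos (4 * m).factorial_pos)
          rw [mul_assoc, e1]; ring
        rw [this, Nat.two_dvd_ne_zero, ← Nat.odd_iff]
        exact (Odd.mul ⟨m, rfl⟩ ⟨2 * m, by ring⟩).mul ⟨2 * m + 1, by ring⟩

end Cfsg.Agent.H3.SyA
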