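import Mathlib
import Cfsg.Agent.H12.SR2

/-! Transitivity of `3² : GL₂(3)` on ordered bases. -/

set_option autoImplicit false
open Subgroup

namespace Cfsg.Agent.H3.TrZ

theorem tr {A : Type*} [Group A] [Finite A] (P : Subgroup A) [P.Normal] (hc : IsMulCommutative P) (h3 : ∀ x ∈ P, x^3 = 1) (h9 : Nat.card P = 9) (hC : Subgroup.centralizer (P : Set A) = P) (h : Nat.card A = 432) {z p z' p' : A} (hz : z ∈ P) (hp : p ∈ P) (hz' : z' ∈ P) (hp' : p' ∈ P) (z1 : z ≠ 1) (pz : p ∉ Subgroup.zpowers z) (z1' : z' ≠ 1) (pz' : p' ∉ Subgroup.zpowers z') : (∃ g : A, g*z*g⁻¹ = z' ∧ g*p*g⁻¹ = p') ∧ (∀ g : A, g*z = z*g → g*p = p*g → g ∈ P) ∧ ∀ K : Subgroup A, z ∈ K → p ∈ K → P ≤ K := by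
  classical
  have : Fact (Nat.Prime 3) := ⟨by norm_num⟩
  have c3 : ∀ u ∈ P, u ≠ 1 → Nat.card (zpowers u) = 3 := fun u hu u1 => by
    rw [Nat.card_zpowers, orderOf_eq_prime (h3 u hu) u1]
  have gen : ∀ K : Subgroup A, z ∈ K → p ∈ K → P ≤ K := fun K h1 h2 => by
    have a1 : zpowers z < K ⊓ P := lt_of_le_of_ne (zpowers_le_of_mem ⟨h1, hz⟩) fun e =>
      pz (e ▸ ⟨h2, hp⟩)
    have a2 := H12.SR.two_le a1
    have a3 := card_dvd_of_le (inf_le_right : K ⊓ P ≤ P)
    rw [h9] at a3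
    rw [c3 z hz z1] at a2
    have a4 : Nat.card ↥(K ⊓ P) = 9 := by
      have := Nat.le_of_dvd (by norm_num) a3
      generalize Nat.card ↥(K ⊓ P) = n at *
      interval_cases n <;> omega
    exact (eq_of_le_of_card_ge inf_le_right (by omega)).ge.trans inf_le_left
  have cen : ∀ g : A, g * z = z * g → g * p = p * g → g ∈ P := fun g h1 h2 => by
    rw [← hC]
    exact fun x hx => mem_centralizer_singleton_iff.1 (gen (centralizer {g})
      (mem_centralizer_singleton_iff.2 h1.symm) (mem_centralizer_singleton_iff.2 h2.symm) hx)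
  refine ⟨?_, cen, gen⟩
  have := Fintype.ofFinite A
  let Ω := Σ u : {u : P // u ≠ 1}, {v : P // v.1 ∉ zpowers u.1.1}
  have cΩ : Nat.card Ω = 48 := by
    have e : ∀ u : {u : P // u ≠ 1}, Nat.card {v : P // v.1 ∉ zpowers u.1.1} = 6 := fun u => by
      have h1 := c3 u.1.1 u.1.2 fun e => u.2 (Subtype.ext e)
      rw [← Nat.card_congr (subgroupOfEquivOfLe (zpowers_le_of_mem u.1.2)).toEquiv] at h1
      rw [Nat.card_eq_fintype_card, Fintype.card_subtype_compl, ← Nat.card_eq_fintype_card,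
        ← Nat.card_eq_fintype_card, h9]
      exact congrArg (9 - ·) h1
    rw [Nat.card_sigma]
    simp only [e]
    rw [Finset.sum_const, Finset.card_univ, Fintype.card_subtype_compl, ← Nat.card_eq_fintype_card, h9]
    simp
  let f : A ⧸ P → Ω := fun q => ⟨⟨⟨q.out * z * q.out⁻¹, Normal.conj_mem inferInstance z hz _⟩,
    fun e => z1 (by simpa using congrArg Subtype.val e)⟩,
    ⟨⟨q.out * p * q.out⁻¹, Normal.conj_mem inferInstance p hp _⟩, by
      rintro ⟨k, hk⟩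
      refine pz ⟨k, ?_⟩
      simpa [conj_zpow] using hk⟩⟩
  have hf : Function.Injective f := fun a b e => by
    have e1 : a.out * z * a.out⁻¹ = b.out * z * b.out⁻¹ := congrArg (fun x : Ω => x.1.1.1) e
    have e2 : a.out * p * a.out⁻¹ = b.out * p * b.out⁻¹ := congrArg (fun x : Ω => x.2.1.1) e
    rw [← a.out_eq', ← b.out_eq', QuotientGroup.eq]
    refine cen _ ?_ ?_
    · calc _ = a.out⁻¹ * (b.out * z * b.out⁻¹) * b.out := by group
        _ = _ := by rw [← e1]; group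
    · calc _ = a.out⁻¹ * (b.out * p * b.out⁻¹) * b.out := by group
        _ = _ := by rw [← e2]; group
  have hq := P.card_mul_index
  rw [h9, h, index_eq_card] at hq
  obtain ⟨q, e⟩ := (hf.bijective_of_nat_card_le (by omega)).2
    ⟨⟨⟨z', hz'⟩, fun e => z1' (congrArg Subtype.val e)⟩, ⟨⟨p', hp'⟩, pz'⟩⟩
  exact ⟨q.out, congrArg (fun x : Ω => x.1.1.1) e, congrArg (fun x : Ω => x.2.1.1) e⟩

end Cfsg.Agent.H3.TrZ
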